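import Cfsg.Agent.Lib.SQF.Mho
import Cfsg.Prelude.Def_TwoFusion
import Cfsg.Agent.Lib.LocStruct.SylowIn

set_option autoImplicit false

namespace H50.SQ

open Subgroup H50.RC

variable {G : Type*} [Group G] [Finite G] {n : ℕ}

namespace BP

open H69

theorem mho_cj (n : ℕ) (P : Sylow 2 G) (g : G) :
    Mho n ((g • P : Sylow 2 G) : Subgroup G) = Mho n (P : Subgroup G) ^ᶜ g := by
  ext z
  rw [mem_cj, ← mho_smul n P g]
  have : g * (g⁻¹ * z * g) * g⁻¹ = z := by group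
  rw [this]

omit [Finite G] in
theorem smul_cj (P : Sylow 2 G) (g : G) :
    ((g • P : Sylow 2 G) : Subgroup G) = (P : Subgroup G) ^ᶜ g := rfl

theorem lt_left {P Q : Sylow 2 G} (h : P ≠ Q) :
    (P : Subgroup G) ⊓ (Q : Subgroup G) < (P : Subgroup G) := by
  refine lt_of_le_of_ne inf_le_left fun e => h (Sylow.ext ?_)
  exact (P.is_maximal' Q.isPGroup' (inf_eq_left.1 e)).symm

theorem core (W : Sylow 2 G → Subgroup G) (hle : ∀ P, W P ≤ (P : Subgroup G))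
    (hcen : ∀ P : Sylow 2 G, (P : Subgroup G) ≤ centralizer (W P : Set G))
    (hcj : ∀ (P : Sylow 2 G) (g : G), W (g • P) = W P ^ᶜ g)
    (hbad : ∃ P Q : Sylow 2 G, W P ⊓ (Q : Subgroup G) ≠ W Q ⊓ (P : Subgroup G)) :
    ∃ (R : Sylow 2 G) (E M : Subgroup G) (h : G), BPD (W R ⊓ E) (R : Subgroup G) E M h := by
  classical
  haveI : Fact (Nat.Prime 2) := ⟨Nat.prime_two⟩
  -- a bad pair with maximal intersection
  obtain ⟨E, ⟨P, Q, hPQ, hE⟩, hmax⟩ := (wellFounded_gt (α := Subgroup G)).has_min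
    {E | ∃ P Q : Sylow 2 G, W P ⊓ (Q : Subgroup G) ≠ W Q ⊓ (P : Subgroup G) ∧
      E = (P : Subgroup G) ⊓ (Q : Subgroup G)}
    (by obtain ⟨P, Q, h⟩ := hbad; exact ⟨_, P, Q, h, rfl⟩)
  have hG : ∀ (R R' : Sylow 2 G) (u : G), E ≤ (R : Subgroup G) → E ≤ (R' : Subgroup G) →
      u ∈ (R : Subgroup G) → u ∈ (R' : Subgroup G) → u ∉ E → W R ⊓ E = W R' ⊓ E := by
    intro R R' u h1 h2 h3 h4 h5
    have hlt : E < (R : Subgroup G) ⊓ (R' : Subgroup G) :=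
      lt_of_le_of_ne (le_inf h1 h2) fun e => h5 (e ▸ ⟨h3, h4⟩)
    have : W R ⊓ (R' : Subgroup G) = W R' ⊓ (R : Subgroup G) := by
      by_contra hne
      exact hmax _ ⟨R, R', hne, rfl⟩ hlt
    calc W R ⊓ E = W R ⊓ (R' : Subgroup G) ⊓ E := by rw [inf_assoc, inf_eq_right.2 h2]
      _ = W R' ⊓ E := by rw [this, inf_assoc, inf_eq_right.2 h1]
  have hne : P ≠ Q := by rintro rfl; exact hPQ rfl
  have hEP : E < (P : Subgroup G) := hE ▸ lt_left hne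
  have hEQ : E < (Q : Subgroup G) := by rw [hE, inf_comm]; exact lt_left hne.symm
  have hPQ' : W P ⊓ E ≠ W Q ⊓ E := by
    rw [hE, ← inf_assoc, inf_eq_left.2 (hle P), inf_comm (P : Subgroup G), ← inf_assoc,
      inf_eq_left.2 (hle Q)]
    exact hPQ
  obtain ⟨a, haP, haE, -, haN⟩ := exists_norm P.isPGroup' hEP
  obtain ⟨b, hbQ, hbE, -, hbN⟩ := exists_norm Q.isPGroup' hEQ
  obtain ⟨R0, hR0, hPR0⟩ := exists_isSylowIn_le
    (P.isPGroup'.to_inf_left : IsPGroup 2 ((P : Subgroup G) ⊓ 𝐍(E) : Subgroup G)) inf_le_right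
  obtain ⟨R, hR⟩ := hR0.isP.exists_le_sylow
  obtain ⟨h, hh, hQh⟩ := hR0.exists_le_cj
    (Q.isPGroup'.to_inf_left : IsPGroup 2 ((Q : Subgroup G) ⊓ 𝐍(E) : Subgroup G)) inf_le_right
  have hER0 : E ≤ R0 := (le_inf hEP.le le_normalizer).trans hPR0
  have hER : E ≤ (R : Subgroup G) := hER0.trans hR
  have hEg : ∀ g ∈ 𝐍(E), E ≤ ((g • R : Sylow 2 G) : Subgroup G) := fun g hg => by
    rw [smul_cj, ← cj_eq_of_mem_normalizer hg]
    exact cj_mono g hER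
  have hAg : ∀ g ∈ 𝐍(E), W (g • R) ⊓ E = (W R ⊓ E) ^ᶜ g := fun g hg => by
    rw [hcj, cj_inf, cj_eq_of_mem_normalizer hg]
  have e1 : W P ⊓ E = W R ⊓ E := hG P R a hEP.le hER haP (hR (hPR0 ⟨haP, haN⟩)) haE
  have e2 : W Q ⊓ E = (W R ⊓ E) ^ᶜ h := by
    rw [← hAg h hh]
    exact hG Q (h • R) b hEQ.le (hEg h hh) hbQ (cj_mono h hR (hQh ⟨hbQ, hbN⟩)) hbE
  have hRN : (R : Subgroup G) ≤ 𝐍(W R ⊓ E) :=
    (hcen R).trans ((centralizer_le (SetLike.coe_subset_coe.2 inf_le_left)).trans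
      (centralizer_le_normalizer _))
  have hM0 : IsSylowIn 2 R0 (𝐍(E) ⊓ 𝐍(W R ⊓ E)) :=
    hR0.mono (le_inf hR0.le (hR.trans hRN)) inf_le_left
  refine ⟨R, E, 𝐍(E) ⊓ 𝐍(W R ⊓ E), h, R.isPGroup',
    lt_of_le_of_ne hER fun e => haE (e ▸ hR (hPR0 ⟨haP, haN⟩)), inf_le_right,
    le_inf inf_le_right (inf_le_left.trans hRN), inf_le_left,
    fun g hg hc => ⟨hg, centralizer_le_normalizer _ hc⟩, hh, fun hM => ?_, ?_⟩
  · exact hPQ' (by rw [e1, e2, cj_eq_of_mem_normalizer hM.2])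
  · intro g hg u hu htw hgu huE
    have htw' : Tw (g⁻¹ * u * g) := by
      obtain ⟨k, hk⟩ := htw
      refine ⟨k, ?_⟩
      have := conj_pow (a := g⁻¹) (b := u) (i := 2 ^ k)
      rw [inv_inv] at this
      rw [this, hk, mul_one, inv_mul_cancel]
    obtain ⟨m, hm, hum⟩ := hM0.exists_le_cj htw.zp (zpowers_le.2 hu)
    obtain ⟨m', hm', hum'⟩ := hM0.exists_le_cj htw'.zp (zpowers_le.2 hgu)
    have h1 : u ∈ ((m • R : Sylow 2 G) : Subgroup G) := cj_mono m hR (hum (mem_zpowers u))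
    have h2 : u ∈ (((g * m') • R : Sylow 2 G) : Subgroup G) := by
      rw [smul_cj, ← cj_cj, mem_cj]
      exact cj_mono m' hR (hum' (mem_zpowers _))
    have hgm : g * m' ∈ 𝐍(E) := mul_mem hg hm'.1
    have e3 := hG (m • R) ((g * m') • R) u (hEg m hm.1) (hEg _ hgm) h1 h2 huE
    rw [hAg m hm.1, hAg _ hgm, cj_eq_of_mem_normalizer hm.2] at e3
    have h3 : g * m' ∈ 𝐍(W R ⊓ E) := cj_eq_self_iff.1 e3.symm
    have h4 : m' ∈ 𝐍(W R ⊓ E) := hm'.2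
    exact ⟨hg, (Subgroup.mul_mem_cancel_right _ h4).1 h3⟩

end BP

theorem bp (hx : Ex G n) (S : Sylow 2 G)
    (hn : ¬ Cfsg.IsStronglyClosed (Mho n (S : Subgroup G)) (S : Subgroup G)) :
    ∃ (R : Sylow 2 G) (E M : Subgroup G) (h : G),
      BPD (Mho n (R : Subgroup G) ⊓ E) (R : Subgroup G) E M h := by
  refine BP.core (fun P : Sylow 2 G => Mho n (P : Subgroup G))
    (fun P => mho_le n (P : Subgroup G))
    (fun P => mho_cen hx P.isPGroup') (fun P g => BP.mho_cj n P g) ?_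
  by_contra hc
  refine hn ⟨mho_le n _, fun x hx' g hg => ?_⟩
  have e : Mho n ((g • S : Sylow 2 G) : Subgroup G) ⊓ (S : Subgroup G) =
      Mho n (S : Subgroup G) ⊓ ((g • S : Sylow 2 G) : Subgroup G) := by
    by_contra hne
    exact hc ⟨g • S, S, hne⟩
  have : g * x * g⁻¹ ∈ Mho n ((g • S : Sylow 2 G) : Subgroup G) ⊓ (S : Subgroup G) :=
    ⟨(mho_smul n S g x).2 hx', hg⟩
  rw [e] at this
  exact this.1

end H50.SQ
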