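import Mathlib
import Cfsg.Agent.Lib.RCS.Bas
import Cfsg.Agent.Lib.FGS.ClassSize

/-! Vocabulary for S4132 (square-free class sizes of elements of prime power order). -/

set_option autoImplicit false

namespace H50.SQ

open Subgroup H50.RC

variable {G : Type*} [Group G]

/-- `x` has prime power order -/
def PP (x : G) : Prop := ∃ r k : ℕ, r.Prime ∧ orderOf x = r ^ k

/-- the hypothesis of S4132 -/
def HS (G : Type*) [Group G] : Prop := ∀ x : G, PP x → Squarefree (C x).index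

/-- no class size of an element of prime power order is divisible by 4 -/
def H4 (G : Type*) [Group G] : Prop := ∀ x : G, PP x → ¬ 4 ∣ (C x).index

/-- `y ∈ P` and `C_P(y)` has index at most 2 in `P` -/
def Bb (P : Subgroup G) (y : G) : Prop :=
  y ∈ P ∧ ∀ s ∈ P, ∀ s' ∈ P, s ∈ C y ∨ s' ∈ C y ∨ s * s' ∈ C y

/-- `2 ^ (n + 1)` is the largest order of a 2-element -/
def Ex (G : Type*) [Group G] (n : ℕ) : Prop :=
  (∀ y : G, Tw y → y ^ 2 ^ (n + 1) = 1) ∧ ∃ y : G, Tw y ∧ y ^ 2 ^ n ≠ 1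

/-- the subgroup generated by the `2 ^ n`-th powers of the elements of breadth at most one -/
def Mho (n : ℕ) (P : Subgroup G) : Subgroup G := closure {z | ∃ y, Bb P y ∧ z = y ^ 2 ^ n}

/-- `M / E` is strongly embedded in `N(E) / E` -/
structure BPD (A S E M : Subgroup G) (h : G) : Prop where
  two : IsPGroup 2 S
  lt : E < S
  AE : A ≤ E
  le : S ⊓ normalizer (E : Set G) ≤ M
  leN : M ≤ normalizer (E : Set G)
  cen : ∀ g ∈ normalizer (E : Set G), g ∈ centralizer (A : Set G) → g ∈ M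
  hN : h ∈ normalizer (E : Set G)
  hM : h ∉ M
  se : ∀ g ∈ normalizer (E : Set G), ∀ u ∈ M, Tw u → g⁻¹ * u * g ∈ M → u ∉ E → g ∈ M

/-- modulo the 2-group `F`, which they centralise, `a, b` generate a four-group that is
self-centralising among the 2-elements of `C_Y(F)`, and `x` permutes its involutions cyclically -/
structure Cfg (Y F : Subgroup G) (a b x : G) : Prop where
  two : IsPGroup 2 F
  aY : a ∈ Y
  bY : b ∈ Y
  xY : x ∈ Y
  aC : a ∈ centralizer (F : Set G)
  bC : b ∈ centralizer (F : Set G)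
  xC : x ∈ centralizer (F : Set G)
  a2 : a * a ∈ F
  b2 : b * b ∈ F
  ab : a * b * a⁻¹ * b⁻¹ ∈ F
  na : a ∉ F
  nb : b ∉ F
  nab : a * b ∉ F
  xa : x * a * x⁻¹ * b⁻¹ ∈ F
  xb : x * b * x⁻¹ * (a * b)⁻¹ ∈ F
  sc : ∀ g ∈ Y, Tw g → g ∈ centralizer (F : Set G) → g * a * g⁻¹ * a⁻¹ ∈ F →
    g * b * g⁻¹ * b⁻¹ ∈ F → g ∈ F ∨ g * a⁻¹ ∈ F ∨ g * b⁻¹ ∈ F ∨ g * (a * b)⁻¹ ∈ F

/-- `a, b` generate a four-group -/
structure Four (a b : G) : Prop where
  a2 : a * a = 1
  b2 : b * b = 1
  ab : a * b = b * a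
  na : a ≠ 1
  nb : b ≠ 1
  nab : a * b ≠ 1

/-- a four-group whose involutions are permuted cyclically by `x` -/
structure Fu (a b x : G) : Prop where
  four : Four a b
  xa : x * a * x⁻¹ = b
  xb : x * b * x⁻¹ = a * b

/-- every 2-element of `Y` centralising `a, b` lies in the four-group -/
def SCf (Y : Subgroup G) (a b : G) : Prop :=
  ∀ g ∈ Y, Tw g → g * a = a * g → g * b = b * g → g = 1 ∨ g = a ∨ g = b ∨ g = a * b

/-- every four-subgroup of `Y` is self-centralising among the 2-elements of `Y` -/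
def SC (Y : Subgroup G) : Prop := ∀ a ∈ Y, ∀ b ∈ Y, Four a b → SCf Y a b

/-- the case `F = ⊥` of `Cfg` -/
structure Cf0 (Y : Subgroup G) (a b x : G) : Prop where
  fu : Fu a b x
  aY : a ∈ Y
  bY : b ∈ Y
  xY : x ∈ Y
  sc : SCf Y a b

/-- first outcome: an odd element of prime power order in `Y` centralising no involution -/
def Out1 (Y : Subgroup G) : Prop :=
  ∃ y ∈ Y, PP y ∧ Odd (orderOf y) ∧ ∀ p : G, p * p = 1 → p * y = y * p → p = 1

/-- second outcome: a configuration over a subgroup of order 2 -/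
def Out2 (Y : Subgroup G) : Prop :=
  ∃ p a b x : G, p * p = 1 ∧ p ≠ 1 ∧ Cfg Y (zpowers p) a b x

/-- `H` has a normal 2-complement -/
def Nil2 (H : Subgroup G) : Prop :=
  ∃ O : Subgroup G, O ≤ H ∧ H ≤ normalizer (O : Set G) ∧ Odd (Nat.card O) ∧
    ∀ g ∈ H, Odd (orderOf g) → g ∈ O

/-- the fixed points of an automorphism -/
def Fix (ι : MulAut G) : Subgroup G where
  carrier := {g | ι g = g}
  one_mem' := map_one ι
  mul_mem' := by
    intro a b ha hb
    change ι (a * b) = a * b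
    rw [map_mul, show ι a = a from ha, show ι b = b from hb]
  inv_mem' := by
    intro a ha
    change ι a⁻¹ = a⁻¹
    rw [map_inv, show ι a = a from ha]

theorem mem_Fix {ι : MulAut G} {g : G} : g ∈ Fix ι ↔ ι g = g := Iff.rfl

/-- some odd element of prime power order is fixed only by those automorphisms of order at most 2
whose fixed point group has no normal 2-complement -/
def OCN (L : Type*) [Group L] : Prop :=
  ∃ y : L, PP y ∧ Odd (orderOf y) ∧ ∀ ι : MulAut L, ι * ι = 1 → ι y = y → ¬ Nil2 (Fix ι)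

/-- a quaternion group `⟨a, b⟩` with centre `⟨z⟩` and an element acting with order 3 modulo `z` -/
structure FuQ (z a b x : G) : Prop where
  z2 : z * z = 1
  nz : z ≠ 1
  a2 : a * a = z
  b2 : b * b = z
  ab : a * b * a⁻¹ * b⁻¹ = z
  xa : x * a * x⁻¹ = b ∨ x * a * x⁻¹ = b * z
  xb : x * b * x⁻¹ = a * b ∨ x * b * x⁻¹ = a * b * z

/-- the image of the centraliser of `F` under a homomorphism from the normaliser of `F` -/
def Yim {X : Type*} [Group X] (F : Subgroup G) (π : normalizer (F : Set G) →* X) : Subgroup X :=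
  ((centralizer (F : Set G)).subgroupOf (normalizer (F : Set G))).map π

theorem mem_Yim {X : Type*} [Group X] {F : Subgroup G} {π : normalizer (F : Set G) →* X} {y : X} :
    y ∈ Yim F π ↔ ∃ g : normalizer (F : Set G), (g : G) ∈ centralizer (F : Set G) ∧ π g = y := by
  simp [Yim, mem_map, mem_subgroupOf]

section PSL

open Matrix MatrixGroups

variable {F : Type*} [Field F]

/-- the transvection `[[1, 1], [0, 1]]` -/
def tv (F : Type*) [Field F] : SL(2, F) := ⟨!![1, 1; 0, 1], by simp [det_fin_two]⟩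

/-- `g` is the image of an upper triangular matrix -/
def Bor (g : PSL(2, F)) : Prop := ∃ A : SL(2, F), A.1 1 0 = 0 ∧ g = (A : PSL(2, F))

end PSL

theorem HS.h4 (h : HS G) : H4 G := fun x hx h4 =>
  absurd (h x hx 2 (by simpa using h4)) (by decide)

theorem Tw.pp [Finite G] {y : G} (h : Tw y) : PP y := by
  obtain ⟨n, hn⟩ := h
  obtain ⟨k, -, hk⟩ := (Nat.dvd_prime_pow Nat.prime_two).1 (orderOf_dvd_of_pow_eq_one hn)
  exact ⟨2, k, Nat.prime_two, hk⟩

theorem pp_of_pow {x : G} {r k : ℕ} (hr : r.Prime) (h : x ^ r ^ k = 1) : PP x := by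
  obtain ⟨j, -, hj⟩ := (Nat.dvd_prime_pow hr).1 (orderOf_dvd_of_pow_eq_one h)
  exact ⟨r, j, hr, hj⟩

theorem tw_of_sq {y : G} (h : y * y = 1) : Tw y := ⟨1, by simpa [sq] using h⟩

theorem tw_conj {y : G} (h : Tw y) (g : G) : Tw (g * y * g⁻¹) := by
  obtain ⟨n, hn⟩ := h
  exact ⟨n, by rw [conj_pow, hn]; simp⟩

theorem tw_of_pow_mem {P : Subgroup G} (hP : IsPGroup 2 P) {y : G} {k : ℕ} (h : y ^ 2 ^ k ∈ P) :
    Tw y := by
  obtain ⟨n, hn⟩ := hP ⟨_, h⟩
  exact ⟨k + n, by rw [pow_add, pow_mul]; simpa using congrArg Subtype.val hn⟩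

theorem mem_zp {p g : G} (hp : p * p = 1) : g ∈ zpowers p ↔ g = 1 ∨ g = p := by
  constructor
  · rintro ⟨k, rfl⟩
    have h2 : p ^ (2 : ℤ) = 1 := by rw [zpow_two, hp]
    rcases Int.even_or_odd' k with ⟨j, rfl | rfl⟩
    · left; change p ^ (2 * j) = 1; rw [zpow_mul, h2, one_zpow]
    · right; change p ^ (2 * j + 1) = p; rw [zpow_add, zpow_mul, h2, one_zpow, one_mul, zpow_one]
  · rintro (rfl | rfl)
    · exact one_mem _
    · exact mem_zpowers _

end H50.SQ
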