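import Cfsg.Agent.Lib.SQF.Red

set_option autoImplicit false

namespace H50.SQ

open Subgroup H50.RC

variable {G X : Type*} [Group G] [Finite G] [Group X] {F : Subgroup G}

theorem yim_normal (π : normalizer (F : Set G) →* X) (hs : Function.Surjective π) :
    (Yim F π).Normal := by
  refine Normal.map ⟨fun c hc g => mem_subgroupOf.2 fun f hf => ?_⟩ π hs
  have h1 := mem_subgroupOf.1 hc _ ((mem_normalizer_iff''.1 g.2 f).1 hf)
  change f * (g * c * (g : G)⁻¹) = g * c * (g : G)⁻¹ * f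
  calc _ = g * ((g : G)⁻¹ * f * g * c) * (g : G)⁻¹ := by group
    _ = _ := by rw [h1]; group

omit [Finite G] in
private theorem pi_eq (π : normalizer (F : Set G) →* X) (hk : ∀ g, π g = 1 ↔ (g : G) ∈ F)
    (u v : normalizer (F : Set G)) : π u = π v ↔ (u : G) * (v : G)⁻¹ ∈ F := by
  rw [← mul_inv_eq_one, ← map_inv, ← map_mul, hk, coe_mul, coe_inv]

private theorem eg_down' {a b x : G} (c : Cfg ⊤ F a b x) (π : normalizer (F : Set G) →* X)
    (hk : ∀ g, π g = 1 ↔ (g : G) ∈ F) : Cf0 (Yim F π) (π ⟨a, centralizer_le_normalizer _ c.aC⟩)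
      (π ⟨b, centralizer_le_normalizer _ c.bC⟩) (π ⟨x, centralizer_le_normalizer _ c.xC⟩) := by
  refine ⟨⟨⟨?_, ?_, ?_, ?_, ?_, ?_⟩, ?_, ?_⟩, mem_Yim.2 ⟨_, c.aC, rfl⟩, mem_Yim.2 ⟨_, c.bC, rfl⟩,
    mem_Yim.2 ⟨_, c.xC, rfl⟩, fun g' hg ⟨n, hn⟩ e1 e2 => ?_⟩
  · rw [← map_mul, hk]; exact c.a2
  · rw [← map_mul, hk]; exact c.b2
  · rw [← map_mul, ← map_mul, pi_eq π hk]
    simpa [mul_assoc] using c.ab
  · rw [Ne, hk]; exact c.na
  · rw [Ne, hk]; exact c.nb
  · rw [← map_mul, Ne, hk]; exact c.nab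
  · rw [← map_inv, ← map_mul, ← map_mul, pi_eq π hk]; exact c.xa
  · rw [← map_inv, ← map_mul, ← map_mul, ← map_mul, pi_eq π hk]; exact c.xb
  · obtain ⟨g, gC, rfl⟩ := mem_Yim.1 hg
    rw [← map_pow, hk] at hn
    rw [← map_mul, ← map_mul, pi_eq π hk] at e1 e2
    rw [← map_mul, hk, pi_eq π hk, pi_eq π hk, pi_eq π hk]
    exact c.sc g trivial (tw_of_pow_mem c.two hn) gC (by simpa [mul_assoc] using e1)
      (by simpa [mul_assoc] using e2)

theorem eg_down {a b x : G} (c : Cfg ⊤ F a b x) (π : normalizer (F : Set G) →* X)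
    (hk : ∀ g, π g = 1 ↔ (g : G) ∈ F) : ∃ a' b' x' : X, Cf0 (Yim F π) a' b' x' :=
  ⟨_, _, _, eg_down' c π hk⟩

private theorem two_dvd {P Q : Subgroup G} (hQ : IsPGroup 2 Q) (h : P < Q) :
    2 * Nat.card P ∣ Nat.card Q := by
  obtain ⟨i, hi⟩ := IsPGroup.iff_card.1 (hQ.to_le h.le)
  obtain ⟨j, hj⟩ := IsPGroup.iff_card.1 hQ
  rw [hi, hj, ← pow_succ']
  refine pow_dvd_pow 2 (by_contra fun c => h.ne (eq_of_le_of_card_ge h.le ?_))
  rw [hi, hj]
  exact Nat.pow_le_pow_right (by norm_num) (by omega)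

theorem eg_one (h : H4 G) {a b x : G} (c : Cfg ⊤ F a b x) (π : normalizer (F : Set G) →* X)
    (hk : ∀ g, π g = 1 ↔ (g : G) ∈ F) (o : Out1 (Yim F π)) : False := by
  obtain ⟨y, hy, pp, -, ni⟩ := o
  obtain ⟨y0, yC, rfl, ⟨r, k, hr, e⟩, -⟩ := pp_lift π hy pp
  refine h y0 ⟨r, k, hr, by rw [orderOf_coe, e]⟩ ?_
  have le : F ≤ C (y0 : G) := fun f hf => mem_C.2 (mem_subgroupOf.1 yC f hf)
  obtain ⟨Q, hQ⟩ := (c.two.comap_subtype (K := C (y0 : G))).exists_le_sylow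
  have e1 : F = (Q : Subgroup (C (y0 : G))).map (C (y0 : G)).subtype := by
    by_contra ne
    obtain ⟨g, hg, gF, g2, gN⟩ := exists_norm (Q.isPGroup'.map _)
      (lt_of_le_of_ne (fun p hp => ⟨⟨p, le hp⟩, hQ hp, rfl⟩) ne)
    refine gF ((hk ⟨g, gN⟩).1 (ni _ ?_ ?_))
    · rw [← map_mul, hk]; exact g2
    · rw [← map_mul, ← map_mul]
      exact congrArg π (Subtype.ext (mem_C.1 (map_subtype_le _ hg)))
  have e2 : Nat.card F = Nat.card Q := by
    rw [← card_map_of_injective (C (y0 : G)).subtype_injective, ← e1]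
  have p1 := sup_zp c.two (tw_of_pow_mem c.two (k := 1) (by simpa [sq] using c.a2))
    (centralizer_le_normalizer _ c.aC)
  have n1 : b ∈ normalizer ((F ⊔ zpowers a : Subgroup G) : Set G) := by
    refine mem_normalizer_fintype fun u hu => (sup_le (fun f hf => ?_) (zpowers_le.2 ?_) :
      F ⊔ zpowers a ≤ (F ⊔ zpowers a).comap (MulAut.conj b).toMonoidHom) hu
    · exact mem_sup_left ((mem_normalizer_iff.1 (centralizer_le_normalizer _ c.bC) f).1 hf)
    · have := mul_mem (mem_sup_left (inv_mem c.ab)) (mem_sup_right (S := F) (mem_zpowers a))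
      simpa [mul_assoc] using this
  have p2 := sup_zp p1 (tw_of_pow_mem c.two (k := 1) (by simpa [sq] using c.b2)) n1
  have f4 := (eg_down' c π hk).fu.four
  have nb : b ∉ F ⊔ zpowers a := fun hb => by
    have l : F ⊔ zpowers a ≤ ((zpowers (π ⟨a, centralizer_le_normalizer _ c.aC⟩)).comap π).map
        (normalizer (F : Set G)).subtype :=
      sup_le (fun f hf => ⟨⟨f, le_normalizer hf⟩, by
        rw [SetLike.mem_coe, mem_comap, (hk ⟨f, le_normalizer hf⟩).2 hf]; exact one_mem _, rfl⟩)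
        (zpowers_le.2 ⟨_, mem_zpowers _, rfl⟩)
    obtain ⟨⟨_, hb'⟩, q, rfl⟩ := l hb
    rcases (mem_zp f4.a2).1 q with q | q
    · exact f4.nb q
    · exact f4.nab (by rw [← f4.a2]; exact congrArg _ q)
  have d1 := two_dvd p1 (lt_of_le_of_ne le_sup_left fun q => c.na (q ▸ mem_sup_right (mem_zpowers a)))
  have d2 := two_dvd p2 (lt_of_le_of_ne le_sup_left fun q => nb (q ▸ mem_sup_right (mem_zpowers b)))
  have d3 := ((Nat.mul_dvd_mul_left 2 d1).trans d2).trans (card_subgroup_dvd_card _)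
  rw [← (C (y0 : G)).card_mul_index, ← (Q : Subgroup (C (y0 : G))).card_mul_index, e2, ← mul_assoc,
    mul_comm, mul_assoc, Nat.mul_dvd_mul_iff_left Nat.card_pos] at d3
  exact (Nat.Coprime.pow_left 2 ((Nat.prime_two.coprime_iff_not_dvd).2 Q.not_dvd_index)).dvd_of_dvd_mul_left d3

end H50.SQ
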