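import Cfsg.Agent.Lib.SQF.Defs

set_option autoImplicit false

namespace H50.SQ

open Subgroup H50.RC

variable {G X : Type*} [Group G] [Finite G] [Group X] {F : Subgroup G}

namespace EG2

theorem xab {a b x : X} (h : Fu a b x) : x * (a * b) * x⁻¹ = a := by
  calc x * (a * b) * x⁻¹ = x * a * x⁻¹ * (x * b * x⁻¹) := by group
    _ = a := by rw [h.xa, h.xb, ← mul_assoc, ← h.four.ab, mul_assoc, h.four.b2, mul_one]

theorem rot {a b x : X} (h : Fu a b x) : Fu (a * b) a x := by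
  have e : a * b * a = b := by rw [h.four.ab, mul_assoc, h.four.a2, mul_one]
  refine ⟨⟨?_, h.four.a2, ?_, h.four.nab, h.four.na, ?_⟩, xab h, ?_⟩
  · rw [← mul_assoc, e, h.four.b2]
  · rw [e, ← mul_assoc, h.four.a2, one_mul]
  · rw [e]; exact h.four.nb
  · rw [e, h.xa]

theorem pow4 {a b x : X} (h : Fu a b x) (j : ℕ) : Fu a b (x ^ 4 ^ j) := by
  induction j with
  | zero => simpa using h
  | succ j ih =>
    rw [pow_succ, pow_mul]
    generalize x ^ 4 ^ j = y at ih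
    have e : ∀ c : X, y ^ 4 * c * (y ^ 4)⁻¹ = y * (y * (y * (y * c * y⁻¹) * y⁻¹) * y⁻¹) * y⁻¹ :=
      fun c => by simp only [pow_succ, pow_zero, one_mul, mul_inv_rev, mul_assoc]
    exact ⟨ih.four, by rw [e, ih.xa, ih.xb, xab ih, ih.xa], by rw [e, ih.xb, xab ih, ih.xa, ih.xb]⟩

omit [Finite G] in
theorem pow_cj {x p k : G} (hk : x * k = k * x) (e : x * p * x⁻¹ = k * p) (n : ℕ) :
    x ^ n * p * (x ^ n)⁻¹ = k ^ n * p := by
  induction n with
  | zero => simp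
  | succ n ih =>
    have c : x * k ^ n = k ^ n * x := (Commute.pow_right hk n).eq
    calc x ^ (n + 1) * p * (x ^ (n + 1))⁻¹ = x * (x ^ n * p * (x ^ n)⁻¹) * x⁻¹ := by group
      _ = x * k ^ n * (p * x⁻¹) := by rw [ih]; group
      _ = k ^ n * (x * p * x⁻¹) := by rw [c]; group
      _ = k ^ (n + 1) * p := by rw [e]; group

theorem core {D : Type*} [Group D] (hF : IsPGroup 2 F) (ι : D →* G) (hι : Function.Injective ι)
    (θ : D →* X) {p a b x : D} (hk : ∀ g, θ g = 1 ↔ ι g ∈ F ∨ ι g * (ι p)⁻¹ ∈ F)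
    (h2 : ∀ g, θ g = 1 → ι g * ι g ∈ F) (hr : ∀ f ∈ F, ∃ g, ι g = f) (hp : ι p ∉ F)
    (hφ : ∀ g, ι g * ι p * (ι g)⁻¹ * (ι p)⁻¹ ∈ F) (aC : ι a ∈ centralizer (F : Set G))
    (xC : ι x ∈ centralizer (F : Set G)) (fu : Fu (θ a) (θ b) (θ x))
    (sc : ∀ g : G, Tw g → g ∈ centralizer (F : Set G) → g * ι p = ι p * g → ∃ g', ι g' = g ∧
      (θ g' * θ a = θ a * θ g' → θ g' * θ b = θ b * θ g' →
        θ g' = 1 ∨ θ g' = θ a ∨ θ g' = θ b ∨ θ g' = θ a * θ b)) :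
    ∃ (F1 : Subgroup G) (a b x : G), F < F1 ∧ Cfg ⊤ F1 a b x := by
  have mem : ∀ g : D, ι g ∈ θ.ker.map ι ↔ θ g = 1 := fun g => mem_map_iff_mem hι
  have le : F ≤ θ.ker.map ι := fun f hf => by
    obtain ⟨g, rfl⟩ := hr f hf
    exact (mem g).2 ((hk g).2 (Or.inl hf))
  have pm : ι p ∈ θ.ker.map ι := (mem p).2 ((hk p).2 (Or.inr (by simp)))
  have cen : ∀ g : G, g ∈ centralizer (F : Set G) → g * ι p * g⁻¹ = ι p →
      g ∈ centralizer (θ.ker.map ι : Set G) := fun g hg e => mem_centralizer_iff.2 (by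
    rintro _ ⟨k, hk', rfl⟩
    rcases (hk k).1 hk' with h | h
    · exact mem_centralizer_iff.1 hg _ h
    · have c1 := mem_centralizer_iff.1 hg _ h
      have c2 : g * ι p = ι p * g := mul_inv_eq_iff_eq_mul.1 e
      calc ι k * g = ι k * (ι p)⁻¹ * (ι p * g) := by group
        _ = ι k * (ι p)⁻¹ * g * ι p := by rw [← c2]; group
        _ = g * ι k := by rw [c1]; group)
  obtain ⟨j, hj⟩ := tw_of_mem hF (hφ x)
  have ex : ι (x ^ 4 ^ j) * ι p * (ι (x ^ 4 ^ j))⁻¹ = ι p := by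
    rw [map_pow, pow_cj (mem_centralizer_iff.1 xC _ (hφ x)).symm (by group),
      show 4 ^ j = 2 ^ j * 2 ^ j from mul_pow 2 2 j, pow_mul, hj, one_pow, one_mul]
  have fu1 : Fu (θ a) (θ b) (θ (x ^ 4 ^ j)) := by rw [map_pow]; exact pow4 fu j
  have xC1 : ι (x ^ 4 ^ j) ∈ centralizer (F : Set G) := by rw [map_pow]; exact pow_mem xC _
  generalize x ^ 4 ^ j = y at ex fu1 xC1
  have aC1 : ι (a⁻¹ * (y * a * y⁻¹)) ∈ centralizer (F : Set G) := by
    simp only [map_mul, map_inv]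
    exact mul_mem (inv_mem aC) (mul_mem (mul_mem xC1 aC) (inv_mem xC1))
  have ea : ι (a⁻¹ * (y * a * y⁻¹)) * ι p * (ι (a⁻¹ * (y * a * y⁻¹)))⁻¹ = ι p := by
    have c := mem_centralizer_iff.1 xC1 _ (hφ a)
    have ex' : (ι y)⁻¹ * ι p * ι y = ι p := by
      conv_lhs => rw [← ex]
      group
    simp only [map_mul, map_inv]
    calc (ι a)⁻¹ * (ι y * ι a * (ι y)⁻¹) * ι p * ((ι a)⁻¹ * (ι y * ι a * (ι y)⁻¹))⁻¹
        = (ι a)⁻¹ * (ι y * ι a * ((ι y)⁻¹ * ι p * ι y) * (ι a)⁻¹ * (ι y)⁻¹) * ι a := by group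
      _ = (ι a)⁻¹ * (ι y * (ι a * ι p * (ι a)⁻¹ * (ι p)⁻¹) * (ι p * (ι y)⁻¹)) * ι a := by
        rw [ex']; group
      _ = (ι a)⁻¹ * (ι a * ι p * (ι a)⁻¹ * (ι p)⁻¹ * (ι y * ι p * (ι y)⁻¹)) * ι a := by
        rw [← c]; group
      _ = ι p := by rw [ex]; group
  have ta : θ (a⁻¹ * (y * a * y⁻¹)) = θ a * θ b := by
    simp only [map_mul, map_inv]
    rw [fu1.xa, inv_eq_of_mul_eq_one_right fu1.four.a2]
  have fu2 := rot fu1
  generalize a⁻¹ * (y * a * y⁻¹) = a1 at aC1 ea ta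
  have tb : θ (y * a1 * y⁻¹) = θ a := by rw [map_mul, map_mul, map_inv, ta, fu2.xa]
  have cy := cen _ xC1 ex
  have ca := cen _ aC1 ea
  have cb : ι (y * a1 * y⁻¹) ∈ centralizer (θ.ker.map ι : Set G) := by
    rw [map_mul, map_mul, map_inv]
    exact mul_mem (mul_mem cy ca) (inv_mem cy)
  have xa : θ y * θ a1 * (θ y)⁻¹ = θ (y * a1 * y⁻¹) := by rw [map_mul, map_mul, map_inv]
  generalize y * a1 * y⁻¹ = b1 at tb cb xa
  have e3 : θ a * θ b * θ a = θ b := by rw [fu.four.ab, mul_assoc, fu.four.a2, mul_one]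
  refine ⟨θ.ker.map ι, ι a1, ι b1, ι y, lt_of_le_of_ne le fun e => hp (e ▸ pm), ?_, trivial, trivial,
    trivial, ca, cb, cy, ?_, ?_, ?_, ?_, ?_, ?_, ?_, ?_, fun g _ ht hc h1 h3 => ?_⟩
  · rintro ⟨_, k, hk', rfl⟩
    obtain ⟨n, hn⟩ := tw_of_pow_mem hF (k := 1) (y := ι k) (by simpa [sq] using h2 k hk')
    exact ⟨n, Subtype.ext hn⟩
  · rw [← map_mul, mem, map_mul, ta]; exact fu2.four.a2
  · rw [← map_mul, mem, map_mul, tb]; exact fu2.four.b2
  · rw [← map_inv, ← map_inv, ← map_mul, ← map_mul, ← map_mul, mem, map_mul, map_mul, map_mul,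
      map_inv, map_inv, ta, tb, fu2.four.ab]
    group
  · rw [mem, ta]; exact fu2.four.na
  · rw [mem, tb]; exact fu2.four.nb
  · rw [← map_mul, mem, map_mul, ta, tb]; exact fu2.four.nab
  · rw [← map_inv, ← map_inv, ← map_mul, ← map_mul, ← map_mul, mem, map_mul, map_mul, map_mul,
      map_inv, map_inv, xa, mul_inv_cancel]
  · rw [← map_mul ι a1, ← map_inv, ← map_inv, ← map_mul, ← map_mul, ← map_mul, mem, map_mul, map_mul,
      map_mul, map_inv, map_inv, map_mul, ta, tb, fu2.xb, mul_inv_cancel]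
  · obtain ⟨g, rfl, hg⟩ := sc g ht (centralizer_le (SetLike.coe_subset_coe.2 le) hc)
      (mem_centralizer_iff.1 hc _ pm).symm
    rw [← map_inv, ← map_inv, ← map_mul, ← map_mul, ← map_mul, mem, map_mul, map_mul, map_mul,
      map_inv, map_inv, mul_inv_eq_one, mul_inv_eq_iff_eq_mul] at h1 h3
    rw [ta] at h1
    rw [tb] at h3
    have h4 : θ g * θ b = θ b * θ g := by
      rw [← e3, ← mul_assoc, h1, mul_assoc, h3, mul_assoc (θ a * θ b)]
    rw [← map_mul ι a1, ← map_inv, ← map_inv, ← map_inv, ← map_mul, ← map_mul, ← map_mul, mem, mem, mem,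
      mem, map_mul, map_mul, map_mul, map_inv, map_inv, map_inv, map_mul, ta, tb, e3,
      mul_inv_eq_one, mul_inv_eq_one, mul_inv_eq_one]
    have := hg h3 h4
    tauto

end EG2

theorem eg_two (hF : IsPGroup 2 F) (π : normalizer (F : Set G) →* X) (hs : Function.Surjective π)
    (hk : ∀ g, π g = 1 ↔ (g : G) ∈ F) (o : Out2 (Yim F π)) :
    ∃ (F1 : Subgroup G) (a b x : G), F < F1 ∧ Cfg ⊤ F1 a b x := by
  obtain ⟨p, a, b, x, p2, p1, c⟩ := o
  obtain ⟨p0, rfl⟩ := hs p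
  obtain ⟨a0, aC, rfl⟩ := mem_Yim.1 c.aY
  obtain ⟨b0, bC, rfl⟩ := mem_Yim.1 c.bY
  obtain ⟨x0, xC, rfl⟩ := mem_Yim.1 c.xY
  let Z := centralizer (zpowers (π p0) : Set X)
  have hZ : ∀ y : X, y * π p0 = π p0 * y → y ∈ Z := fun y e => mem_centralizer_iff.2 (by
    rintro _ ⟨k, rfl⟩
    exact ((Commute.symm e).zpow_left k).eq)
  have : ((zpowers (π p0)).subgroupOf Z).Normal := ⟨fun n hn g => by
    have e : (n : X) * g = g * n := mem_centralizer_iff.1 g.2 _ hn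
    rw [mem_subgroupOf, coe_mul, coe_mul, coe_inv, ← e, mul_inv_cancel_right]
    exact hn⟩
  let θ : Z.comap π →* Z ⧸ (zpowers (π p0)).subgroupOf Z :=
    (QuotientGroup.mk' _).comp (π.subgroupComap Z)
  have hθ : ∀ g : Z.comap π, θ g = 1 ↔ π g ∈ zpowers (π p0) := fun g => QuotientGroup.eq_one_iff _
  have hθ' : ∀ g g' : Z.comap π, θ g = θ g' ↔ π g * (π g')⁻¹ ∈ zpowers (π p0) := fun g g' => by
    rw [← mul_inv_eq_one, ← map_inv, ← map_mul, hθ, coe_mul, coe_inv, map_mul, map_inv]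
  let ι : Z.comap π →* G := (normalizer (F : Set G)).subtype.comp (Z.comap π).subtype
  have hι : ∀ g : Z.comap π, ι g = ((g : normalizer (F : Set G)) : G) := fun g => rfl
  refine EG2.core hF ι (fun g g' e => Subtype.ext (Subtype.ext e)) θ (p := ⟨p0, hZ _ rfl⟩)
    (a := ⟨a0, c.aC⟩) (b := ⟨b0, c.bC⟩) (x := ⟨x0, c.xC⟩) (fun g => ?_) (fun g h => ?_)
    (fun f hf => ?_) (fun h => p1 ((hk _).2 h)) (fun g => ?_) aC xC ⟨⟨?_, ?_, ?_, ?_, ?_, ?_⟩, ?_, ?_⟩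
    fun g ht hc e => ?_
  · rw [hθ, mem_zp p2, hk, ← mul_inv_eq_one, ← map_inv, ← map_mul, hk]
    rfl
  · refine (hk ((g : normalizer (F : Set G)) * g)).1 ?_
    rw [map_mul]
    rcases (mem_zp p2).1 ((hθ g).1 h) with e | e <;> rw [e]
    exacts [mul_one _, p2]
  · refine ⟨⟨⟨f, le_normalizer hf⟩, ?_⟩, rfl⟩
    rw [mem_comap, (hk ⟨f, le_normalizer hf⟩).2 hf]
    exact one_mem _
  · refine (hk ((g : normalizer (F : Set G)) * p0 * (g : normalizer (F : Set G))⁻¹ * p0⁻¹)).1 ?_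
    have e : π p0 * π g = π g * π p0 := mem_centralizer_iff.1 g.2 _ (mem_zpowers _)
    rw [map_mul, map_mul, map_mul, map_inv, map_inv, ← e]
    group
  · rw [← map_mul, hθ, coe_mul, map_mul]; exact c.a2
  · rw [← map_mul, hθ, coe_mul, map_mul]; exact c.b2
  · rw [← map_mul, ← map_mul, hθ', coe_mul, coe_mul, map_mul, map_mul, mul_inv_rev, ← mul_assoc]
    exact c.ab
  · exact fun h => c.na ((hθ _).1 h)
  · exact fun h => c.nb ((hθ _).1 h)
  · rw [← map_mul, Ne, hθ, coe_mul, map_mul]; exact c.nab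
  · rw [← map_inv, ← map_mul, ← map_mul, hθ', coe_mul, coe_mul, coe_inv, map_mul, map_mul, map_inv]
    exact c.xa
  · rw [← map_inv, ← map_mul, ← map_mul, ← map_mul, hθ', coe_mul, coe_mul, coe_inv, coe_mul, map_mul,
      map_mul, map_inv, map_mul]
    exact c.xb
  · have hN : g ∈ normalizer (F : Set G) := centralizer_le_normalizer _ hc
    have hg : π ⟨g, hN⟩ ∈ Z := hZ _ (by rw [← map_mul, ← map_mul]; exact congrArg π (Subtype.ext e))
    refine ⟨⟨⟨g, hN⟩, hg⟩, rfl, fun h1 h2 => ?_⟩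
    rw [← map_mul, ← map_mul, hθ', coe_mul, coe_mul, map_mul, map_mul, mul_inv_rev, ← mul_assoc] at h1 h2
    obtain ⟨n, hn⟩ := ht
    have := c.sc _ (mem_Yim.2 ⟨⟨g, hN⟩, hc, rfl⟩) ⟨n, by
      rw [← map_pow, show (⟨g, hN⟩ : normalizer (F : Set G)) ^ 2 ^ n = 1 from Subtype.ext hn, map_one]⟩
      hg h1 h2
    rw [← map_mul θ, hθ, hθ', hθ', hθ', coe_mul, map_mul]
    exact this

end H50.SQ
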