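import Cfsg.Agent.Lib.SQF.Defs

set_option autoImplicit false

namespace H50.SQ

open Subgroup H50.RC

variable {G : Type*} [Group G] {n : ℕ}

namespace Exp1

theorem dih {Q : Type*} [Group Q] {a b : Q} (ha : a * a = 1) (hb : b * b = 1) {j : ℕ}
    (h : (a * b) ^ (2 * j + 1) = 1) : (a * b) ^ j * a * ((a * b) ^ j)⁻¹ = b := by
  have ia : a⁻¹ = a := inv_eq_of_mul_eq_one_right ha
  have ib : b⁻¹ = b := inv_eq_of_mul_eq_one_right hb
  have h1 : a * (a * b)⁻¹ * a⁻¹ = a * b := by rw [mul_inv_rev, ib, ia, mul_assoc, mul_assoc, ha, mul_one]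
  have h2 : a * ((a * b) ^ j)⁻¹ = (a * b) ^ j * a := by
    rw [← inv_pow, ← mul_inv_eq_iff_eq_mul, ← conj_pow, h1]
  have h3 : (a * b) ^ j * (a * b) ^ j = (a * b)⁻¹ := by
    rw [eq_inv_iff_mul_eq_one, ← pow_add, ← pow_succ, ← two_mul, h]
  rw [mul_assoc, h2, ← mul_assoc, h3, mul_inv_rev, inv_mul_cancel_right, ib]

theorem bb_conj {P : Subgroup G} {y t d : G} (hy : Bb P y) (tP : t ∈ P) (dP : d ∈ P) (hd : d ∈ C y) :
    t * d * t⁻¹ ∈ C y := by
  by_cases ht : t ∈ C y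
  · exact mul_mem (mul_mem ht hd) (inv_mem ht)
  · rcases hy.2 (t * d) (mul_mem tP dP) t⁻¹ (inv_mem tP) with h | h | h
    · exact absurd ((mul_mem_cancel_right hd).1 h) ht
    · exact absurd (inv_mem_iff.1 h) ht
    · exact h

end Exp1

theorem exp_calc {P : Subgroup G} {y v : G} (hy : Bb P y) (hv : v * y * v⁻¹ ∈ P) (v2 : v * v ∈ C y)
    (ey : y ^ 2 ^ (n + 1) = 1) (ev : v ^ 2 ^ (n + 1) = 1) (evy : (v * y) ^ 2 ^ (n + 1) = 1)
    (nv : v ∉ C (y ^ 2 ^ n)) : P ≤ C (y ^ 2 ^ n * (v * y ^ 2 ^ n * v⁻¹)) := by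
  have cm : ∀ {a b : G}, a ∈ C b ↔ Commute a b := fun {a b} => mem_C
  obtain ⟨w, hw⟩ : ∃ w, w = v * y * v⁻¹ := ⟨_, rfl⟩
  have cv : Commute (v * v) y := cm.1 v2
  have vw : v * w * v⁻¹ = y := by
    rw [hw, show v * (v * y * v⁻¹) * v⁻¹ = v * v * y * (v * v)⁻¹ by group, cv.eq, mul_inv_cancel_right]
  have cw : Commute (v * v) w := by
    rw [hw]
    have c : Commute (v * v) v := (Commute.refl v).mul_left (Commute.refl v)
    exact (c.mul_right cv).mul_right c.inv_right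
  have p2 : ∀ x : G, x ^ 2 ^ (n + 1) = (x * x) ^ 2 ^ n := fun x => by rw [pow_succ', pow_mul, pow_two]
  have e1 : (w * y) ^ 2 ^ n = 1 := by
    rw [p2, show v * y * (v * y) = v * y * v⁻¹ * (v * v) * y by group, ← hw, ← cw.eq, mul_assoc,
      (cw.mul_right cv).mul_pow, ← p2, ev, one_mul] at evy
    exact evy
  have z2 : v * y ^ 2 ^ n * v⁻¹ = w ^ 2 ^ n := by rw [hw, conj_pow]
  have z1 : y ^ 2 ^ n * y ^ 2 ^ n = 1 := by rw [← pow_add, ← two_mul, ← pow_succ', ey]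
  have nz : w ^ 2 ^ n * y ^ 2 ^ n ≠ 1 := fun h => nv (cm.2 (by
    have := mul_right_cancel (h.trans z1.symm)
    rw [← z2] at this
    exact mul_inv_eq_iff_eq_mul.1 this))
  rw [← hw] at hv
  rw [z2]
  have nw : w ∉ C y := fun h => nz (by rw [← (cm.1 h).mul_pow, e1])
  obtain ⟨c, hc⟩ : ∃ c, c = y⁻¹ * (w * y * w⁻¹) := ⟨_, rfl⟩
  have cD : ∀ s ∈ P, s ∈ C y → Commute s c := by
    intro s hs h
    have h1 := (cm.1 (Exp1.bb_conj hy (inv_mem hv) hs h)).eq
    have h2 : Commute s (w * y * w⁻¹) := by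
      show _ = _
      calc s * (w * y * w⁻¹) = w * (w⁻¹ * s * w⁻¹⁻¹ * y) * w⁻¹ := by group
        _ = _ := by rw [h1]; group
    rw [hc]
    exact (cm.1 h).inv_right.mul_right h2
  have yc : Commute y c := cD y hy.1 (cm.2 (Commute.refl y))
  have wc : Commute w c := by
    have h1 : Commute w (v * c * v⁻¹) := by
      rw [hw]; exact yc.map (MulAut.conj v)
    have h2 : v * c * v⁻¹ = w⁻¹ * (y * w * y⁻¹) := by
      calc _ = (v * y * v⁻¹)⁻¹ * (v * w * v⁻¹ * (v * y * v⁻¹) * (v * w * v⁻¹)⁻¹) := by rw [hc]; group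
        _ = _ := by rw [vw, ← hw]
    have h3 : v * c * v⁻¹ = c⁻¹ := by
      calc v * c * v⁻¹ = w * (v * c * v⁻¹) * w⁻¹ := by rw [h1.eq, mul_inv_cancel_right]
        _ = y * c⁻¹ * y⁻¹ := by rw [h2, hc]; group
        _ = _ := by rw [yc.inv_right.eq, mul_inv_cancel_right]
    rw [h3] at h1
    exact Commute.inv_right_iff.1 h1
  have ww : Commute (w * w) y := cm.1 (((hy.2 w hv w hv).resolve_left nw).resolve_left nw)
  have wy : w * y * w⁻¹ = y * c := by rw [hc]; group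
  have cc : c * c = 1 := by
    have : y * c * c = y := by
      calc y * c * c = w * y * w⁻¹ * (w * c * w⁻¹) := by rw [wy, wc.eq, mul_inv_cancel_right]
        _ = w * (y * c) * w⁻¹ := by group
        _ = w * w * y * (w * w)⁻¹ := by rw [← wy]; group
        _ = y := by rw [ww.eq, mul_inv_cancel_right]
    rw [mul_assoc] at this
    exact mul_left_cancel (this.trans (mul_one y).symm)
  have sq : w * y * (w * y) = c * (w * w * (y * y)) := by
    have h1 : w * y = c * (y * w) := by rw [mul_inv_eq_iff_eq_mul.1 wy, yc.eq, mul_assoc]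
    have h2 : y * w = c * (w * y) := by rw [h1, ← mul_assoc, cc, one_mul]
    calc w * y * (w * y) = w * (y * w) * y := by group
      _ = w * c * (w * y * y) := by rw [h2]; group
      _ = _ := by rw [wc.eq]; group
  have wwyy : Commute (w * w) (y * y) := ww.mul_right ww
  rcases n with _ | _ | n
  · rw [pow_zero, pow_one] at e1
    exact absurd (eq_inv_of_mul_eq_one_left e1 ▸ inv_mem (cm.2 (Commute.refl y))) nw
  · simp only [zero_add, pow_one, pow_two] at e1 ⊢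
    rw [sq] at e1
    rw [← wwyy.eq, eq_inv_of_mul_eq_one_right e1]
    intro s hs
    refine cm.2 (Commute.inv_right ?_)
    rcases hy.2 s hs w hv with h | h | h
    · exact cD s hs h
    · exact absurd h nw
    · have := (cD _ (mul_mem hs hv) h).mul_left wc.inv_left
      rwa [mul_inv_cancel_right] at this
  · refine absurd ?_ nz
    have q : ∀ x : G, x ^ 2 ^ (n + 1 + 1) = (x * x) ^ 2 ^ (n + 1) := fun x => by
      rw [pow_succ' 2 (n + 1), pow_mul, pow_two]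
    have c1 : Commute c (w * w * (y * y)) :=
      (wc.symm.mul_right wc.symm).mul_right (yc.symm.mul_right yc.symm)
    rw [q, sq, c1.mul_pow, wwyy.mul_pow, pow_succ' 2 n, pow_mul c, pow_two, cc, one_pow, one_mul,
      ← pow_succ' 2 n] at e1
    rw [q, q, e1]

theorem exists_v {P E : Subgroup G} {y t s : G} (hy : Bb P y) (hE : E ≤ P) (tP : t ∈ P)
    (tN : t ∈ normalizer (E : Set G)) (t2 : t * t ∈ E) (sN : s ∈ normalizer (E : Set G))
    (s2 : s * s ∈ E) {k : ℕ} (hk : Odd k) (hts : (t * s) ^ k ∈ E) :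
    ∃ e ∈ E, s * e * (s * e) ∈ C y := by
  have cj : ∀ {g e : G}, g ∈ normalizer (E : Set G) → e ∈ E → g * e * g⁻¹ ∈ E := fun {g e} hg he =>
    (mem_normalizer_iff.1 hg e).1 he
  by_cases h0 : s * s ∈ C y
  · exact ⟨1, one_mem _, by rwa [mul_one]⟩
  by_cases h1 : ∃ e ∈ E, s⁻¹ * e * s⁻¹⁻¹ * e ∉ C y
  · obtain ⟨e, he, h⟩ := h1
    refine ⟨e, he, ?_⟩
    rw [show s * e * (s * e) = s * s * (s⁻¹ * e * s⁻¹⁻¹ * e) by group]
    exact ((hy.2 _ (hE s2) _ (hE (mul_mem (cj (inv_mem sN) he) he))).resolve_left h0).resolve_left h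
  push Not at h1
  have hs : ∀ e ∈ E, e ∈ C y → s * e * s⁻¹ ∈ C y := fun e he h => by
    have := h1 _ (cj sN he)
    rwa [show s⁻¹ * (s * e * s⁻¹) * s⁻¹⁻¹ = e by group, mul_mem_cancel_left h] at this
  obtain ⟨j, rfl⟩ := hk
  have dN : ∀ i : ℕ, (t * s) ^ i ∈ normalizer (E : Set G) := fun i => pow_mem (mul_mem tN sN) i
  have hd : ∀ i : ℕ, ∀ e ∈ E, e ∈ C y → (t * s) ^ i * e * ((t * s) ^ i)⁻¹ ∈ C y := by
    intro i
    induction i with
    | zero => intro e _ h; simpa using h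
    | succ i ih =>
      intro e he h
      rw [show (t * s) ^ (i + 1) * e * ((t * s) ^ (i + 1))⁻¹ =
        (t * s) ^ i * (t * (s * e * s⁻¹) * t⁻¹) * ((t * s) ^ i)⁻¹ by rw [pow_succ]; group]
      exact ih _ (cj tN (cj sN he)) (Exp1.bb_conj hy tP (hE (cj sN he)) (hs e he h))
  have tt : t * t ∈ C y := by
    rcases hy.2 t tP t tP with h | h | h
    exacts [mul_mem h h, mul_mem h h, h]
  let π := QuotientGroup.mk' (E.subgroupOf (normalizer (E : Set G)))
  have k1 : ∀ x : normalizer (E : Set G), π x = 1 ↔ (x : G) ∈ E := fun x =>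
    (QuotientGroup.eq_one_iff x).trans mem_subgroupOf
  have k2 := Exp1.dih (a := π ⟨t, tN⟩) (b := π ⟨s, sN⟩) (j := j) (by rw [← map_mul, k1]; exact t2)
    (by rw [← map_mul, k1]; exact s2) (by rw [← map_mul, ← map_pow, k1]; exact hts)
  have k3 : s⁻¹ * ((t * s) ^ j * t * ((t * s) ^ j)⁻¹) ∈ E := by
    have := (k1 ((⟨s, sN⟩ : normalizer (E : Set G))⁻¹ *
      ((⟨t, tN⟩ * ⟨s, sN⟩) ^ j * ⟨t, tN⟩ * ((⟨t, tN⟩ * ⟨s, sN⟩) ^ j)⁻¹))).1 (by
        simp only [map_mul, map_inv, map_pow]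
        rw [k2, inv_mul_cancel])
    simpa using this
  refine ⟨_, k3, ?_⟩
  have := hd j _ t2 tt
  rwa [show (t * s) ^ j * (t * t) * ((t * s) ^ j)⁻¹ = s * (s⁻¹ * ((t * s) ^ j * t * ((t * s) ^ j)⁻¹)) *
    (s * (s⁻¹ * ((t * s) ^ j * t * ((t * s) ^ j)⁻¹))) by group] at this

end H50.SQ
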