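import Cfsg.Agent.Lib.SQF.Defs

set_option autoImplicit false
set_option linter.unusedSectionVars false

namespace H50.SQ

open Subgroup H50.RC

variable {G : Type*} [Group G] [Finite G] {n : ℕ}

theorem exists_ex (h : Even (Nat.card G)) : ∃ n, Ex G n := by
  classical
  have hP : ∃ k, ∀ y : G, Tw y → y ^ 2 ^ k = 1 := by
    refine ⟨Nat.card G, fun y hy => ?_⟩
    obtain ⟨m, hm⟩ := hy
    obtain ⟨j, -, hj⟩ := (Nat.dvd_prime_pow Nat.prime_two).1 (orderOf_dvd_of_pow_eq_one hm)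
    have h1 : 2 ^ j ≤ Nat.card G := hj ▸ orderOf_le_card
    have h2 : j ≤ Nat.card G := (Nat.lt_two_pow_self.trans_le h1).le
    exact orderOf_dvd_iff_pow_eq_one.1 (hj ▸ pow_dvd_pow 2 h2)
  have h0 : Nat.find hP ≠ 0 := by
    intro e
    have : Fact (Nat.Prime 2) := ⟨Nat.prime_two⟩
    have := Nat.find_spec hP
    rw [e] at this
    obtain ⟨t, ht⟩ := exists_prime_orderOf_dvd_card' 2 (even_iff_two_dvd.1 h)
    have h1 := this t ⟨1, by rw [pow_one, ← ht, pow_orderOf_eq_one]⟩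
    rw [pow_zero, pow_one] at h1
    rw [h1, orderOf_one] at ht
    omega
  obtain ⟨m, hm⟩ := Nat.exists_eq_succ_of_ne_zero h0
  refine ⟨m, by have := Nat.find_spec hP; rwa [hm] at this, ?_⟩
  have := Nat.find_min hP (m := m) (by omega)
  push Not at this
  exact this

theorem mho_le (n : ℕ) (P : Subgroup G) : Mho n P ≤ P := by
  refine (closure_le _).2 ?_
  rintro z ⟨y, hy, rfl⟩
  exact pow_mem hy.1 _

theorem Mho.key (hx : Ex G n) {P : Subgroup G} (hP : IsPGroup 2 P) {y s : G} (hy : Bb P y)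
    (hs : s ∈ P) : y ^ 2 ^ n * s = s * y ^ 2 ^ n := by
  by_cases hc : s ∈ C y
  · exact ((show Commute s y from mem_C.1 hc).pow_right _).eq.symm
  have h1 : s * y * s⁻¹ ∈ C y := by
    rcases hy.2 (s * y) (mul_mem hs hy.1) s⁻¹ (inv_mem hs) with k | k | k
    · exact absurd ((mul_mem_cancel_right (mem_C.2 rfl)).1 k) hc
    · exact absurd (inv_mem_iff.1 k) hc
    · exact k
  have h2 : s * s ∈ C y := by
    rcases hy.2 s hs s hs with k | k | k
    · exact absurd k hc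
    · exact absurd k hc
    · exact k
  have c1 : Commute y (s * y * s⁻¹) := (mem_C.1 h1).symm
  have c2 : Commute y (s * s) := (mem_C.1 h2).symm
  have c3 : Commute (s * y * s⁻¹) (s * s) := by
    change s * y * s⁻¹ * (s * s) = s * s * (s * y * s⁻¹)
    calc s * y * s⁻¹ * (s * s) = s * (y * (s * s)) * s⁻¹ := by group
      _ = s * s * (s * y * s⁻¹) := by rw [c2.eq]; group
  have e1 := hx.1 (y * s) (tw_of_mem hP (mul_mem hy.1 hs))
  have e2 := hx.1 s (tw_of_mem hP hs)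
  have e3 := hx.1 y (tw_of_mem hP hy.1)
  have e4 : (y * s) ^ 2 = y * (s * y * s⁻¹) * (s * s) := by rw [pow_two]; group
  rw [pow_succ', pow_mul, pow_two] at e2
  rw [pow_succ', pow_mul, e4, (c2.mul_left c3).mul_pow, c1.mul_pow, e2, mul_one, conj_pow] at e1
  rw [pow_succ, pow_mul, pow_two] at e3
  have e5 : s * y ^ 2 ^ n * s⁻¹ = y ^ 2 ^ n := mul_left_cancel (e1.trans e3.symm)
  calc y ^ 2 ^ n * s = s * y ^ 2 ^ n * s⁻¹ * s := by rw [e5]
    _ = s * y ^ 2 ^ n := by group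

theorem mho_cen (hx : Ex G n) {P : Subgroup G} (hP : IsPGroup 2 P) :
    P ≤ centralizer (Mho n P : Set G) := by
  intro s hs
  have : Mho n P ≤ C s := by
    refine (closure_le _).2 ?_
    rintro z ⟨y, hy, rfl⟩
    exact mem_C.2 (Mho.key hx hP hy hs)
  exact mem_centralizer_iff.2 fun z hz => mem_C.1 (this hz)

omit [Finite G] in
theorem Mho.ms (P : Sylow 2 G) (g x : G) :
    x ∈ ((g • P : Sylow 2 G) : Subgroup G) ↔ g⁻¹ * x * g ∈ (P : Subgroup G) := by
  rw [Sylow.coe_subgroup_smul, mem_pointwise_smul_iff_inv_smul_mem]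
  simp [MulAut.smul_def]

omit [Finite G] in
theorem Mho.bb1 (P : Sylow 2 G) (g y : G) (h : Bb (P : Subgroup G) y) :
    Bb ((g • P : Sylow 2 G) : Subgroup G) (g * y * g⁻¹) := by
  have k : ∀ s : G, g⁻¹ * s * g ∈ C y → s ∈ C (g * y * g⁻¹) := by
    intro s hs
    refine mem_C.2 ?_
    calc s * (g * y * g⁻¹) = g * (g⁻¹ * s * g * y) * g⁻¹ := by group
      _ = g * y * g⁻¹ * s := by rw [mem_C.1 hs]; group
  refine ⟨(Mho.ms P g _).2 (by simpa [mul_assoc] using h.1), fun s hs s' hs' => ?_⟩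
  rcases h.2 _ ((Mho.ms P g _).1 hs) _ ((Mho.ms P g _).1 hs') with j | j | j
  · exact Or.inl (k _ j)
  · exact Or.inr (Or.inl (k _ j))
  · refine Or.inr (Or.inr (k _ ?_))
    have : g⁻¹ * (s * s') * g = g⁻¹ * s * g * (g⁻¹ * s' * g) := by group
    rwa [this]

theorem bb_smul (P : Sylow 2 G) (g y : G) :
    Bb ((g • P : Sylow 2 G) : Subgroup G) (g * y * g⁻¹) ↔ Bb (P : Subgroup G) y := by
  refine ⟨fun h => ?_, Mho.bb1 P g y⟩
  have := Mho.bb1 (g • P) g⁻¹ _ h
  rw [inv_smul_smul] at this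
  simpa [mul_assoc] using this

omit [Finite G] in
theorem Mho.m1 (n : ℕ) (P : Sylow 2 G) (g z : G) (h : z ∈ Mho n (P : Subgroup G)) :
    g * z * g⁻¹ ∈ Mho n ((g • P : Sylow 2 G) : Subgroup G) := by
  induction h using closure_induction with
  | mem x hx =>
    obtain ⟨y, hy, rfl⟩ := hx
    exact subset_closure ⟨_, Mho.bb1 P g y hy, conj_pow.symm⟩
  | one => simp
  | mul x y _ _ hx hy =>
    have : g * (x * y) * g⁻¹ = g * x * g⁻¹ * (g * y * g⁻¹) := by group
    rw [this]; exact mul_mem hx hy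
  | inv x _ hx =>
    have : g * x⁻¹ * g⁻¹ = (g * x * g⁻¹)⁻¹ := by group
    rw [this]; exact inv_mem hx

theorem mho_smul (n : ℕ) (P : Sylow 2 G) (g z : G) :
    g * z * g⁻¹ ∈ Mho n ((g • P : Sylow 2 G) : Subgroup G) ↔ z ∈ Mho n (P : Subgroup G) := by
  refine ⟨fun h => ?_, Mho.m1 n P g z⟩
  have := Mho.m1 n (g • P) g⁻¹ _ h
  rw [inv_smul_smul] at this
  simpa [mul_assoc] using this

theorem Mho.exists_syl {H P : Subgroup G} (hP : IsPGroup 2 P) (hle : P ≤ H) :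
    ∃ T : Subgroup G, IsPGroup 2 T ∧ P ≤ T ∧ T ≤ H ∧ Nat.card T = 2 ^ (Nat.card H).factorization 2 := by
  have : Fact (Nat.Prime 2) := ⟨Nat.prime_two⟩
  obtain ⟨Q, hQ⟩ := (hP.comap_subtype (K := H)).exists_le_sylow
  refine ⟨(Q : Subgroup H).map H.subtype, Q.isPGroup'.map _, fun p hp => ⟨⟨p, hle hp⟩, hQ hp, rfl⟩,
    map_subtype_le _, ?_⟩
  rw [card_map_of_injective H.subtype_injective, Sylow.card_eq_multiplicity]

theorem exists_bb (h : H4 G) (P : Sylow 2 G) {y : G} (hy : Tw y) :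
    ∃ g : G, Bb (P : Subgroup G) (g * y * g⁻¹) := by
  have : Fact (Nat.Prime 2) := ⟨Nat.prime_two⟩
  obtain ⟨T, hT, h1, h2, h3⟩ := Mho.exists_syl (H := C y) hy.zp ((zpowers_le).2 (mem_C.2 rfl))
  obtain ⟨Q, hQ⟩ := hT.exists_le_sylow
  have hi : (T.subgroupOf Q).index ∣ 2 := by
    have e1 := (T.subgroupOf Q).card_mul_index
    rw [Nat.card_congr (subgroupOfEquivOfLe hQ).toEquiv, h3, Q.card_eq_multiplicity] at e1
    have e2 := (C y).card_mul_index
    have i0 : (C y).index ≠ 0 := index_ne_zero_of_finite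
    have e3 : (Nat.card G).factorization 2 ≤ (Nat.card (C y)).factorization 2 + 1 := by
      rw [← e2, Nat.factorization_mul Nat.card_pos.ne' i0, Finsupp.add_apply]
      have : (C y).index.factorization 2 ≤ 1 := by
        by_contra hn
        exact h y (Tw.pp hy) ((Nat.prime_two.pow_dvd_iff_le_factorization (k := 2) i0).2 (by omega))
      omega
    have e4 := pow_dvd_pow 2 e3
    rw [← e1, pow_succ] at e4
    exact Nat.dvd_of_mul_dvd_mul_left (by positivity) e4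
  have hb : Bb (Q : Subgroup G) y := by
    refine ⟨hQ (h1 (mem_zpowers y)), fun s hs s' hs' => ?_⟩
    rcases (Nat.dvd_prime Nat.prime_two).1 hi with j | j
    · left
      have : (⟨s, hs⟩ : Q) ∈ T.subgroupOf Q := by rw [index_eq_one.1 j]; trivial
      exact h2 this
    · by_cases a : (⟨s, hs⟩ : Q) ∈ T.subgroupOf Q
      · exact Or.inl (h2 a)
      by_cases b : (⟨s', hs'⟩ : Q) ∈ T.subgroupOf Q
      · exact Or.inr (Or.inl (h2 b))
      have := (mul_mem_iff_of_index_two j (a := ⟨s, hs⟩) (b := ⟨s', hs'⟩)).2 (iff_of_false a b)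
      exact Or.inr (Or.inr (h2 this))
  obtain ⟨g, hg⟩ := MulAction.exists_smul_eq G Q P
  exact ⟨g, hg ▸ Mho.bb1 Q g y hb⟩

theorem mho_ne (h : H4 G) (hx : Ex G n) (P : Sylow 2 G) : Mho n (P : Subgroup G) ≠ ⊥ := by
  obtain ⟨y, hy, hn⟩ := hx.2
  obtain ⟨g, hg⟩ := exists_bb h P hy
  intro e
  have : (g * y * g⁻¹) ^ 2 ^ n ∈ Mho n (P : Subgroup G) := subset_closure ⟨_, hg, rfl⟩
  rw [e, mem_bot, conj_pow] at this
  exact hn (by simpa using this)

end H50.SQ
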