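import Cfsg.Agent.Lib.SQF.Defs

set_option autoImplicit false

namespace H50.SQ

open Subgroup H50.RC

variable {G : Type*} [Group G] [Finite G] {A S E M : Subgroup G} {h : G}

theorem BPD.etwo (d : BPD A S E M h) : IsPGroup 2 E := d.two.to_le d.lt.le

theorem BPD.eM (d : BPD A S E M h) : E ≤ M := (le_inf d.lt.le le_normalizer).trans d.le

theorem BPD.cM (d : BPD A S E M h) : centralizer (E : Set G) ≤ M := fun g hg =>
  d.cen g (centralizer_le_normalizer _ hg) (centralizer_le d.AE hg)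

theorem BPD.nm (d : BPD A S E M h) {u : G} (hu : u ∈ M) (tu : Tw u) (uE : u ∉ E) :
    h⁻¹ * u * h ∉ M := fun e => d.hM (d.se h d.hN u hu tu e uE)

theorem BPD.cs (d : BPD A S E M h) {u : G} (tu : Tw u) (hu : u ∈ centralizer (E : Set G)) :
    u ∈ E := by
  by_contra uE
  refine d.nm (d.cM hu) tu uE (d.cM ?_)
  rw [mem_centralizer_iff] at hu ⊢
  intro e he
  have h1 : h * e * h⁻¹ ∈ E := (mem_normalizer_iff.1 d.hN e).1 he
  have h2 := hu _ h1
  calc e * (h⁻¹ * u * h) = h⁻¹ * (h * e * h⁻¹ * u) * h := by group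
    _ = h⁻¹ * (u * (h * e * h⁻¹)) * h := by rw [h2]
    _ = h⁻¹ * u * h * e := by group

private theorem dih {X : Type*} [Group X] {a b c : X} {k : ℕ} (ha : a * a = 1) (hb : b * b = 1)
    (hc : c = (a * b) ^ k) (hcc : c * c = 1) : a⁻¹ * (c⁻¹ * a * c) = 1 ∧ c⁻¹ * (b⁻¹ * c * b) = 1 := by
  have ia : a⁻¹ = a := inv_eq_of_mul_eq_one_right ha
  have ib : b⁻¹ = b := inv_eq_of_mul_eq_one_right hb
  have ic : c⁻¹ = c := inv_eq_of_mul_eq_one_right hcc
  have e1 : a * (a * b) * a⁻¹ = (a * b)⁻¹ := by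
    rw [← mul_assoc a a b, ha, one_mul, mul_inv_rev, ib]
  have e2 : b * (a * b) * b⁻¹ = (a * b)⁻¹ := by
    rw [mul_assoc b, mul_inv_cancel_right, mul_inv_rev, ia, ib]
  have f1 : a * c * a⁻¹ = c := by
    have : a * (a * b) ^ k * a⁻¹ = ((a * b) ^ k)⁻¹ := by rw [← conj_pow, e1, inv_pow]
    rw [← hc, ic] at this
    exact this
  have f2 : b * c * b⁻¹ = c := by
    have : b * (a * b) ^ k * b⁻¹ = ((a * b) ^ k)⁻¹ := by rw [← conj_pow, e2, inv_pow]
    rw [← hc, ic] at this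
    exact this
  have g1 : a * c = c * a := mul_inv_eq_iff_eq_mul.1 f1
  have g2 : b * c = c * b := mul_inv_eq_iff_eq_mul.1 f2
  constructor
  · rw [mul_assoc c⁻¹, g1]; group
  · rw [mul_assoc b⁻¹, ← g2]; group

theorem BPD.odd (d : BPD A S E M h) {t s : G} (tM : t ∈ M) (tE : t ∉ E) (t2 : t * t ∈ E)
    (sN : s ∈ normalizer (E : Set G)) (sM : s ∉ M) (s2 : s * s ∈ E) :
    ∃ k : ℕ, Odd k ∧ (t * s) ^ k ∈ E := by
  classical
  have hex : ∃ m : ℕ, 0 < m ∧ (t * s) ^ m ∈ E :=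
    ⟨orderOf (t * s), orderOf_pos _, by rw [pow_orderOf_eq_one]; exact one_mem _⟩
  obtain ⟨m0, mE⟩ := Nat.find_spec hex
  rcases Nat.even_or_odd' (Nat.find hex) with ⟨k, hk | hk⟩
  swap
  · exact ⟨_, ⟨k, hk⟩, mE⟩
  exfalso
  have k0 : 0 < k := by omega
  have jE : (t * s) ^ k ∉ E := fun e => Nat.find_min hex (m := k) (by omega) ⟨k0, e⟩
  have jj : (t * s) ^ k * (t * s) ^ k ∈ E := by
    rw [← pow_add, ← two_mul, ← hk]; exact mE
  have tN : t ∈ normalizer (E : Set G) := d.leN tM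
  let π := QuotientGroup.mk' (E.subgroupOf (normalizer (E : Set G)))
  have hπ : ∀ x : normalizer (E : Set G), π x = 1 ↔ (x : G) ∈ E := fun x => by
    simp only [π, QuotientGroup.mk'_apply, QuotientGroup.eq_one_iff, mem_subgroupOf]
  let t' : normalizer (E : Set G) := ⟨t, tN⟩
  let s' : normalizer (E : Set G) := ⟨s, sN⟩
  have ha : π t' * π t' = 1 := by rw [← map_mul, hπ]; exact t2
  have hb : π s' * π s' = 1 := by rw [← map_mul, hπ]; exact s2
  have hc : π ((t' * s') ^ k) = (π t' * π s') ^ k := by rw [map_pow, map_mul]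
  have hcc : π ((t' * s') ^ k) * π ((t' * s') ^ k) = 1 := by rw [← map_mul, hπ]; exact jj
  obtain ⟨h1, h2⟩ := dih ha hb hc hcc
  rw [← map_inv, ← map_inv, ← map_mul, ← map_mul, ← map_mul, hπ] at h1 h2
  have h1' : t⁻¹ * (((t * s) ^ k)⁻¹ * t * (t * s) ^ k) ∈ E := h1
  have h2' : ((t * s) ^ k)⁻¹ * (s⁻¹ * (t * s) ^ k * s) ∈ E := h2
  have jN : (t * s) ^ k ∈ normalizer (E : Set G) := pow_mem (mul_mem tN sN) k
  have tt : Tw t := tw_of_pow_mem d.etwo (k := 1) (by rw [pow_one, sq]; exact t2)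
  have tj : Tw ((t * s) ^ k) := tw_of_pow_mem d.etwo (k := 1) (by rw [pow_one, sq]; exact jj)
  have jM : (t * s) ^ k ∈ M := by
    refine d.se _ jN t tM tt ?_ tE
    have := mul_mem tM (d.eM h1')
    rwa [mul_inv_cancel_left] at this
  refine sM (d.se _ sN _ jM tj ?_ jE)
  have := mul_mem jM (d.eM h2')
  rwa [mul_inv_cancel_left] at this

theorem BPD.p2 (d : BPD A S E M h) {T : Subgroup G} (hT : IsPGroup 2 T)
    (TN : T ≤ normalizer (E : Set G)) {w : G} (wT : w ∈ T) (wM : w ∈ M) (wE : w ∉ E) : T ≤ M := by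
  by_contra hn
  have hlt : T ⊓ M < T := lt_of_le_of_ne inf_le_left fun e => hn (e ▸ inf_le_right)
  obtain ⟨g, gT, gn, -, gN⟩ := exists_norm hT hlt
  have h1 : g⁻¹ * w * g ∈ T ⊓ M := (mem_normalizer_iff''.1 gN w).1 ⟨wT, wM⟩
  exact gn ⟨gT, d.se g (TN gT) w wM (tw_of_mem hT wT) h1.2 wE⟩

theorem BPD.k0 (d : BPD A S E M h) {F : Subgroup G} (hF : F ≤ E) {w : G} (wM : w ∈ M) (tw : Tw w)
    (wE : w ∉ E) (wF : w ∈ centralizer (F : Set G)) {g : G} (gF : g ∈ centralizer (F : Set G))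
    (gE : ∀ e ∈ E, g * e * g⁻¹ * e⁻¹ ∈ F) : g ∈ M := by
  haveI : Fact (Nat.Prime 2) := ⟨Nat.prime_two⟩
  have gN : g ∈ normalizer (E : Set G) := by
    refine mem_normalizer_fintype fun e he => ?_
    have := mul_mem (hF (gE e he)) he
    rwa [inv_mul_cancel_right] at this
  have wN : w ∈ normalizer (E : Set G) := d.leN wM
  let K : Subgroup (normalizer (E : Set G)) :=
    { carrier := {k | (k : G) ∈ centralizer (F : Set G) ∧
        ∀ e ∈ E, (k : G) * e * (k : G)⁻¹ * e⁻¹ ∈ F}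
      one_mem' := ⟨one_mem _, fun e _ => by simp⟩
      mul_mem' := by
        rintro a b ⟨a1, a2⟩ ⟨b1, b2⟩
        refine ⟨mul_mem a1 b1, fun e he => ?_⟩
        have h1 := mem_centralizer_iff.1 a1 _ (b2 e he)
        have h2 : ((a * b : normalizer (E : Set G)) : G) * e *
            ((a * b : normalizer (E : Set G)) : G)⁻¹ * e⁻¹ =
            (a : G) * ((b : G) * e * (b : G)⁻¹ * e⁻¹) * (a : G)⁻¹ *
              ((a : G) * e * (a : G)⁻¹ * e⁻¹) := by
          rw [coe_mul]; group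
        rw [h2, ← h1, mul_inv_cancel_right]
        exact mul_mem (b2 e he) (a2 e he)
      inv_mem' := by
        rintro a ⟨a1, a2⟩
        refine ⟨inv_mem a1, fun e he => ?_⟩
        have he' : (a : G)⁻¹ * e * a ∈ E := (mem_normalizer_iff''.1 a.2 e).1 he
        have h1 := inv_mem (a2 _ he')
        have h2 : ((a⁻¹ : normalizer (E : Set G)) : G) * e *
            ((a⁻¹ : normalizer (E : Set G)) : G)⁻¹ * e⁻¹ =
            ((a : G) * ((a : G)⁻¹ * e * a) * (a : G)⁻¹ * ((a : G)⁻¹ * e * a)⁻¹)⁻¹ := by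
          rw [coe_inv]; group
        rw [h2]; exact h1 }
  have hK : ∀ k : normalizer (E : Set G), k ∈ K ↔ (k : G) ∈ centralizer (F : Set G) ∧
      ∀ e ∈ E, (k : G) * e * (k : G)⁻¹ * e⁻¹ ∈ F := fun k => Iff.rfl
  let φ := E.normalizerMonoidHom
  have hφ : ∀ x : normalizer (E : Set G), φ x = 1 ↔ (x : G) ∈ centralizer (E : Set G) := fun x => by
    rw [← MonoidHom.mem_ker, normalizerMonoidHom_ker, mem_subgroupOf]
  obtain ⟨n, hn⟩ := d.etwo.exists_card_eq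
  have K2 : IsPGroup 2 (K.map φ) := by
    rintro ⟨_, k, hk, rfl⟩
    refine ⟨n, Subtype.ext ?_⟩
    change φ k ^ 2 ^ n = 1
    rw [← map_pow, hφ, mem_centralizer_iff]
    intro e he
    obtain ⟨k1, k2⟩ := (hK k).1 hk
    have hf := k2 e he
    set f := (k : G) * e * (k : G)⁻¹ * e⁻¹ with hfd
    have hc : f * k = k * f := mem_centralizer_iff.1 k1 f hf
    have hi : ∀ i : ℕ, (k : G) ^ i * e = f ^ i * e * (k : G) ^ i := by
      intro i
      induction i with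
      | zero => simp
      | succ i ih =>
        have hci : (k : G) * f ^ i = f ^ i * k := (Commute.pow_right (Commute.symm hc) i).eq
        calc (k : G) ^ (i + 1) * e = k * ((k : G) ^ i * e) := by rw [pow_succ', mul_assoc]
          _ = (k * f ^ i) * e * (k : G) ^ i := by rw [ih]; group
          _ = f ^ i * (k * e * (k : G)⁻¹ * e⁻¹) * e * (k * (k : G) ^ i) := by rw [hci]; group
          _ = f ^ (i + 1) * e * (k : G) ^ (i + 1) := by rw [← hfd, pow_succ f, pow_succ' (k : G)]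
    have hf1 : f ^ 2 ^ n = 1 := by
      have := pow_card_eq_one' (x := (⟨f, hF hf⟩ : E))
      rw [hn] at this
      exact congrArg Subtype.val this
    have := hi (2 ^ n)
    rw [hf1, one_mul] at this
    exact this.symm
  let w' : normalizer (E : Set G) := ⟨w, wN⟩
  have tw' : Tw (φ w') := by
    obtain ⟨j, hj⟩ := tw
    refine ⟨j, ?_⟩
    rw [← map_pow, show w' ^ 2 ^ j = 1 from Subtype.ext hj, map_one]
  have wK : φ w' ∈ normalizer ((K.map φ : Subgroup _) : Set (MulAut E)) := by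
    refine mem_normalizer_fintype ?_
    rintro _ ⟨k, hk, rfl⟩
    refine ⟨w' * k * w'⁻¹, ?_, by rw [map_mul, map_mul, map_inv]⟩
    obtain ⟨k1, k2⟩ := (hK k).1 hk
    refine (hK _).2 ⟨mul_mem (mul_mem wF k1) (inv_mem wF), fun e he => ?_⟩
    have he' : w⁻¹ * e * w ∈ E := (mem_normalizer_iff''.1 wN e).1 he
    have h1 := mem_centralizer_iff.1 wF _ (k2 _ he')
    have h2 : ((w' * k * w'⁻¹ : normalizer (E : Set G)) : G) * e *
        ((w' * k * w'⁻¹ : normalizer (E : Set G)) : G)⁻¹ * e⁻¹ =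
        w * ((k : G) * (w⁻¹ * e * w) * (k : G)⁻¹ * (w⁻¹ * e * w)⁻¹) * w⁻¹ := by
      change w * k * w⁻¹ * e * (w * k * w⁻¹)⁻¹ * e⁻¹ = _
      group
    rw [h2, ← h1, mul_inv_cancel_right]
    exact k2 _ he'
  have P2 := sup_zp K2 tw' wK
  have hM : ∀ x : normalizer (E : Set G),
      φ x ∈ (M.subgroupOf (normalizer (E : Set G))).map φ ↔ (x : G) ∈ M := by
    intro x
    refine ⟨?_, fun hx => ⟨x, hx, rfl⟩⟩
    rintro ⟨y, hy, e⟩
    have h1 : φ (y⁻¹ * x) = 1 := by rw [map_mul, map_inv, e, inv_mul_cancel]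
    have h2 : (y : G)⁻¹ * x ∈ M := d.cM ((hφ _).1 h1)
    have := mul_mem (show (y : G) ∈ M from hy) h2
    rwa [mul_inv_cancel_left] at this
  by_contra gM
  have gP : φ ⟨g, gN⟩ ∈ K.map φ ⊔ zpowers (φ w') :=
    mem_sup_left ⟨⟨g, gN⟩, (hK _).2 ⟨gF, gE⟩, rfl⟩
  have hlt : (K.map φ ⊔ zpowers (φ w')) ⊓ (M.subgroupOf (normalizer (E : Set G))).map φ <
      K.map φ ⊔ zpowers (φ w') := by
    refine lt_of_le_of_ne inf_le_left fun e => gM ((hM ⟨g, gN⟩).1 ?_)
    rw [← e] at gP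
    exact gP.2
  obtain ⟨γ, γP, γn, -, γN⟩ := exists_norm P2 hlt
  have hr : K.map φ ⊔ zpowers (φ w') ≤ φ.range :=
    sup_le (map_le_range _ _) (zpowers_le_of_mem ⟨w', rfl⟩)
  obtain ⟨x, rfl⟩ := hr γP
  have h1 := (mem_normalizer_iff''.1 γN (φ w')).1
    ⟨mem_sup_right (mem_zpowers _), (hM w').2 wM⟩
  have h2 := h1.2
  rw [← map_inv, ← map_mul, ← map_mul] at h2
  have h3 : (x : G)⁻¹ * w * x ∈ M := (hM _).1 h2
  exact γn ⟨γP, (hM x).2 (d.se x x.2 w wM tw h3 wE)⟩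

theorem BPD.sc (d : BPD A S E M h) {F : Subgroup G} (hF : F ≤ E) {w : G} (wM : w ∈ M) (tw : Tw w)
    (wE : w ∉ E) (wF : w ∈ centralizer (F : Set G)) (wF' : h⁻¹ * w * h ∈ centralizer (F : Set G))
    {g : G} (tg : Tw g) (gF : g ∈ centralizer (F : Set G))
    (gE : ∀ e ∈ E, g * e * g⁻¹ * e⁻¹ ∈ F) : g ∈ E := by
  have gM : g ∈ M := d.k0 hF wM tw wE wF gF gE
  let F' : Subgroup G := F.comap (MulAut.conj h⁻¹).toMonoidHom
  have hm : ∀ x, x ∈ F' ↔ h⁻¹ * x * h ∈ F := fun x => by simp [F', mem_comap]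
  have hE : ∀ x, x ∈ E ↔ h⁻¹ * x * h ∈ E := mem_normalizer_iff''.1 d.hN
  have cF : ∀ y, h⁻¹ * y * h ∈ centralizer (F : Set G) → y ∈ centralizer (F' : Set G) := by
    intro y hy
    rw [mem_centralizer_iff] at hy ⊢
    intro f hf
    have h1 := hy _ ((hm f).1 hf)
    calc f * y = h * (h⁻¹ * f * h * (h⁻¹ * y * h)) * h⁻¹ := by group
      _ = h * (h⁻¹ * y * h * (h⁻¹ * f * h)) * h⁻¹ := by rw [h1]
      _ = y * f := by group
  have e0 : h⁻¹ * (h * g * h⁻¹) * h = g := by group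
  have uM : h * g * h⁻¹ ∈ M := by
    refine d.k0 (F := F') (fun x hx => (hE x).2 (hF ((hm x).1 hx))) wM tw wE (cF w wF')
      (cF _ (by rw [e0]; exact gF)) fun e he => (hm _).2 ?_
    have h1 := gE _ ((hE e).1 he)
    have h2 : h⁻¹ * (h * g * h⁻¹ * e * (h * g * h⁻¹)⁻¹ * e⁻¹) * h =
        g * (h⁻¹ * e * h) * g⁻¹ * (h⁻¹ * e * h)⁻¹ := by group
    rw [h2]; exact h1
  by_contra gn
  refine d.nm uM (tw_conj tg h) (fun e => gn ?_) (by rw [e0]; exact gM)
  have := (hE _).1 e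
  rwa [e0] at this

end H50.SQ
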