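import Cfsg.Agent.Lib.SQF.Exp1
import Cfsg.Agent.Lib.SQF.SE
import Cfsg.Agent.Lib.SQF.Mho

set_option autoImplicit false

namespace H50.SQ

open Subgroup H50.RC

variable {G : Type*} [Group G] [Finite G] {S E M : Subgroup G} {h : G} {n : ℕ}

theorem BPD.exp (d : BPD (Mho n S ⊓ E) S E M h) (hx : Ex G n) (hB : ∀ y, Bb S y → y ∈ E) :
    False := by
  have cj : ∀ {g x : G}, g ∈ normalizer (E : Set G) → x ∈ E → g * x * g⁻¹ ∈ E := fun {g x} hg h1 =>
    (mem_normalizer_iff.1 hg x).1 h1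
  have cC : ∀ {g x : G}, g ∈ C x ↔ g * x * g⁻¹ = x := fun {g x} => by
    rw [mem_centralizer_singleton_iff, mul_inv_eq_iff_eq_mul]
  obtain ⟨t, tS, tE, t2, tN⟩ := exists_norm d.two d.lt
  have tM : t ∈ M := d.le ⟨tS, tN⟩
  have sM := d.nm tM (tw_of_mem d.two tS) tE
  have sN : h⁻¹ * t * h ∈ normalizer (E : Set G) := mul_mem (mul_mem (inv_mem d.hN) tN) d.hN
  have s2 : h⁻¹ * t * h * (h⁻¹ * t * h) ∈ E := by
    have := cj (inv_mem d.hN) t2
    convert this using 1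
    group
  generalize h⁻¹ * t * h = s at sM sN s2
  obtain ⟨y, hy, sy⟩ : ∃ y, Bb S y ∧ s ∉ C (y ^ 2 ^ n) := by
    by_contra hc
    push Not at hc
    refine sM (d.cen s sN (centralizer_le (SetLike.coe_subset_coe.2 inf_le_left) ?_))
    rw [Mho, centralizer_closure]
    rintro _ ⟨y, hy, rfl⟩
    exact (mem_centralizer_singleton_iff.1 (hc y hy)).symm
  obtain ⟨k, hk, hts⟩ := d.odd tM tE t2 sN sM s2
  obtain ⟨e, he, v2⟩ := exists_v hy d.lt.le tS tN t2 sN s2 hk hts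
  have tw : ∀ e ∈ E, (s * e) ^ 2 ^ (n + 1) = 1 := fun e he => by
    refine hx.1 _ (tw_of_pow_mem d.etwo (k := 1) ?_)
    have := mul_mem (mul_mem s2 (cj (inv_mem sN) he)) he
    convert this using 1
    rw [pow_one, pow_two]
    group
  have c1 : ∀ g ∈ S, g * y ^ 2 ^ n * g⁻¹ = y ^ 2 ^ n := fun g hg => by
    rw [← mho_cen hx d.two hg _ (subset_closure ⟨y, hy, rfl⟩), mul_inv_cancel_right]
  have e1 : s * e * y ^ 2 ^ n * (s * e)⁻¹ = s * y ^ 2 ^ n * s⁻¹ := by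
    conv_rhs => rw [← c1 e (d.lt.le he)]
    group
  have c2 := exp_calc hy (d.lt.le (cj (mul_mem sN (le_normalizer he)) (hB y hy))) v2
    (hx.1 y (tw_of_mem d.two hy.1)) (tw e he) (by rw [mul_assoc]; exact tw _ (mul_mem he (hB y hy)))
    (fun c => sy (cC.2 (e1.symm.trans (cC.1 c))))
  have v3 : s * e * (s * e) * y ^ 2 ^ n * (s * e * (s * e))⁻¹ = y ^ 2 ^ n := by rw [← conj_pow, cC.1 v2]
  rw [e1] at c2
  generalize y ^ 2 ^ n = z at sy c1 e1 c2 v3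
  have c3 : ∀ g ∈ S, g * (s * z * s⁻¹) * g⁻¹ = s * z * s⁻¹ := fun g hg => by
    refine mul_left_cancel (a := z) ?_
    rw [← cC.1 (c2 hg)]
    conv_lhs => rw [← c1 g hg]
    conv_lhs => enter [2]; rw [c1 g hg]
    group
  have e2 : s * (s * z * s⁻¹) * s⁻¹ = z := by
    conv_lhs => rw [← c3 e (d.lt.le he), ← e1]
    conv_rhs => rw [← v3]
    group
  have g1 : t * s * z * (t * s)⁻¹ = s * z * s⁻¹ := by rw [← c3 t tS]; group
  have g2 : (t * s) ^ 2 * z * ((t * s) ^ 2)⁻¹ = z := by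
    calc _ = t * s * (t * s * z * (t * s)⁻¹) * (t * s)⁻¹ := by rw [pow_two]; group
      _ = t * (s * (s * z * s⁻¹) * s⁻¹) * t⁻¹ := by rw [g1]; group
      _ = z := by rw [e2, c1 t tS]
  obtain ⟨j, rfl⟩ := hk
  have g3 := cC.1 (pow_mem (cC.2 g2) j)
  refine sy (cC.2 ?_)
  rw [← g1]
  conv_lhs => rw [← g3]
  conv_rhs => rw [← c1 _ (d.lt.le hts)]
  rw [pow_succ' (t * s) (2 * j), pow_mul]
  simp only [mul_inv_rev, mul_assoc]

end H50.SQ
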