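import Cfsg.Agent.Lib.SQF.Defs

set_option autoImplicit false

namespace H50.SQ

open Subgroup H50.RC

/-- a nontrivial automorphism of odd order of a group of exponent 2 and order at most 4 -/
theorem fu_of_card {V : Type*} [Group V] [Finite V] (h2 : ∀ v : V, v * v = 1) (h4 : Nat.card V ≤ 4)
    (σ : MulAut V) {k : ℕ} (hk : Odd k) (hσ : σ ^ k = 1) {e : V} (he : σ e ≠ e) :
    Four e (σ e) ∧ σ (σ e) = e * σ e ∧ ∀ v : V, v = 1 ∨ v = e ∨ v = σ e ∨ v = e * σ e := by
  classical
  have inv : ∀ v : V, v⁻¹ = v := fun v => inv_eq_of_mul_eq_one_right (h2 v)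
  have comm : ∀ u v : V, u * v = v * u := fun u v => by
    rw [← inv (u * v), mul_inv_rev, inv, inv]
  have e1 : e ≠ 1 := by rintro rfl; exact he (map_one σ)
  have s1 : σ e ≠ 1 := fun h => e1 (σ.injective (by rw [h, map_one]))
  have es : e * σ e ≠ 1 := fun h => he ((eq_inv_of_mul_eq_one_right h).trans (inv e))
  have all : ∀ v : V, v = 1 ∨ v = e ∨ v = σ e ∨ v = e * σ e := by
    intro v
    by_contra hn
    push Not at hn
    obtain ⟨n1, n2, n3, n4⟩ := hn
    have := Fintype.ofFinite V
    have hc : ({v, 1, e, σ e, e * σ e} : Finset V).card = 5 := by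
      rw [Finset.card_insert_of_notMem (by simp [n1, n2, n3, n4]),
        Finset.card_insert_of_notMem (by simp [e1.symm, s1.symm, es.symm]),
        Finset.card_insert_of_notMem (by simp [he.symm, s1]),
        Finset.card_insert_of_notMem (by simp [e1]), Finset.card_singleton]
    have := Finset.card_le_univ ({v, 1, e, σ e, e * σ e} : Finset V)
    rw [hc, ← Nat.card_eq_fintype_card] at this
    omega
  refine ⟨⟨h2 _, h2 _, comm _ _, e1, s1, es⟩, ?_, all⟩
  rcases all (σ (σ e)) with h | h | h | h
  · exact absurd (σ.injective (h.trans (map_one σ).symm)) s1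
  · exfalso
    obtain ⟨j, rfl⟩ := hk
    have : ∀ i : ℕ, (σ ^ (2 * i)) e = e := by
      intro i
      induction i with
      | zero => simp
      | succ i ih =>
        rw [show 2 * (i + 1) = 2 * i + 1 + 1 by ring, pow_succ, pow_succ, MulAut.mul_apply,
          MulAut.mul_apply, h, ih]
    have h1 : (σ ^ (2 * j + 1)) e = e := by rw [hσ]; rfl
    rw [pow_succ', MulAut.mul_apply, this] at h1
    exact he h1
  · exact absurd (σ.injective h) he
  · exact h

end H50.SQ
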