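import Cfsg.Agent.Lib.SQF.Defs
import Cfsg.Agent.Lib.SQF.V4
import Cfsg.Agent.S0071

/-! A subgroup without a normal 2-complement of a group with dihedral Sylow 2-subgroups contains a four-group
whose involutions it fuses. -/

set_option autoImplicit false

namespace H50.SQ

open Subgroup H50.RC

namespace Fro

variable {V : Type*} [Group V]

theorem fix_of_pow (σ : MulAut V) {k N : ℕ} (hk : Odd k) (hσ : σ ^ k = 1) {v : V}
    (h : (σ ^ 2 ^ N) v = v) : σ v = v := by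
  have hc : (2 ^ N).Coprime (orderOf σ) :=
    Nat.Coprime.coprime_dvd_right (orderOf_dvd_of_pow_eq_one hσ)
      (Nat.Coprime.pow_left _ (Nat.coprime_two_left.2 hk))
  obtain ⟨m, hm⟩ := exists_pow_eq_self_of_coprime hc
  have h1 : σ ^ 2 ^ N ∈ MulAction.stabilizer (MulAut V) v := h
  have h2 := pow_mem h1 m
  rw [hm] at h2
  exact h2

/-- the rotations -/
def Rot {n : ℕ} (φ : V →* DihedralGroup n) : Subgroup V := (zpowers (DihedralGroup.r 1)).comap φ

theorem mem_Rot {n : ℕ} {φ : V →* DihedralGroup n} {v : V} :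
    v ∈ Rot φ ↔ ∃ i, φ v = DihedralGroup.r i := by
  constructor
  · rintro ⟨k, hk⟩
    exact ⟨k, by rw [← hk]; exact DihedralGroup.r_one_zpow k⟩
  · rintro ⟨i, hi⟩
    obtain ⟨k, rfl⟩ := ZMod.intCast_surjective i
    exact ⟨k, by rw [hi]; exact DihedralGroup.r_one_zpow k⟩

theorem sr_of_not {n : ℕ} {φ : V →* DihedralGroup n} {v : V} (h : v ∉ Rot φ) :
    ∃ i, φ v = DihedralGroup.sr i := by
  rcases hv : φ v with i | i
  · exact absurd (mem_Rot.2 ⟨i, hv⟩) h
  · exact ⟨i, rfl⟩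

theorem mul_mem_Rot {n : ℕ} {φ : V →* DihedralGroup n} {u v : V} (hu : u ∉ Rot φ) (hv : v ∉ Rot φ) :
    u * v ∈ Rot φ := by
  obtain ⟨i, hi⟩ := sr_of_not hu
  obtain ⟨j, hj⟩ := sr_of_not hv
  exact mem_Rot.2 ⟨j - i, by rw [map_mul, hi, hj, DihedralGroup.sr_mul_sr]⟩

theorem mem_of_sq {n : ℕ} {φ : V →* DihedralGroup n} (hφ : Function.Injective φ) {u : V}
    (hu : u * u ≠ 1) : u ∈ Rot φ := by
  by_contra h
  obtain ⟨i, hi⟩ := sr_of_not h
  exact hu (hφ (by rw [map_mul, hi, DihedralGroup.sr_mul_self, map_one]))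

theorem cyc {n : ℕ} {φ : V →* DihedralGroup n} (hφ : Function.Injective φ) : IsCyclic (Rot φ) :=
  isCyclic_of_injective (G' := zpowers (DihedralGroup.r 1 : DihedralGroup n))
    ((φ.comp (Rot φ).subtype).codRestrict _ fun x => x.2) fun x y h =>
      Subtype.ext (hφ (congrArg Subtype.val h))

theorem card_le [Finite V] {n : ℕ} {φ : V →* DihedralGroup n} (hφ : Function.Injective φ)
    (h2 : ∀ v : V, v * v = 1) : Nat.card V ≤ 4 := by
  have := cyc hφ
  have h1 : Nat.card (Rot φ) ∣ 2 := by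
    rw [← IsCyclic.exponent_eq_card]
    exact Monoid.exponent_dvd_of_forall_pow_eq_one fun g => Subtype.ext (by simpa [sq] using h2 g)
  have h3 : (Rot φ).index ∣ 2 := by
    by_cases h : ∀ v, v ∈ Rot φ
    · exact index_dvd_two_iff.2 ⟨1, fun b => .inr (h b)⟩
    · push Not at h
      obtain ⟨a, ha⟩ := h
      refine index_dvd_two_iff.2 ⟨a, fun b => ?_⟩
      by_cases hb : b ∈ Rot φ
      exacts [.inr hb, .inl (mul_mem_Rot hb ha)]
  rw [← (Rot φ).card_mul_index]
  exact Nat.le_of_dvd (by norm_num) (mul_dvd_mul h1 h3)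

theorem iter_pow (σ : MulAut V) {c : V} {m : ℕ} (h : σ c = c ^ m) (i : ℕ) : (σ ^ i) c = c ^ m ^ i := by
  induction i with
  | zero => simp
  | succ i ih => rw [pow_succ', MulAut.mul_apply, ih, map_pow, h, ← pow_mul, ← pow_succ']

theorem iter_mul (σ : MulAut V) {f s : V} (hf : σ f = f) (h : σ s = f * s) (i : ℕ) :
    (σ ^ i) s = f ^ i * s := by
  induction i with
  | zero => simp
  | succ i ih => rw [pow_succ', MulAut.mul_apply, ih, map_mul, map_pow, hf, h, ← mul_assoc, ← pow_succ]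

theorem sq_one [Finite V] (hV : IsPGroup 2 V) {n : ℕ} {φ : V →* DihedralGroup n}
    (hφ : Function.Injective φ) (σ : MulAut V) {k : ℕ} (hk : Odd k) (hσ : σ ^ k = 1) {e : V}
    (he : σ e ≠ e) (u : V) : u * u = 1 := by
  by_contra hu
  obtain ⟨⟨c, hc⟩, hg⟩ := (cyc hφ).exists_generator
  have gen : ∀ v ∈ Rot φ, ∃ m : ℕ, c ^ m = v := fun v hv => by
    obtain ⟨m, hm⟩ := (mem_powers_iff_mem_zpowers.2 (hg ⟨v, hv⟩))
    exact ⟨m, congrArg Subtype.val hm⟩
  have c2 : c * c ≠ 1 := fun h => by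
    obtain ⟨m, rfl⟩ := gen u (mem_of_sq hφ hu)
    exact hu (by rw [← (Commute.refl c).mul_pow, h, one_pow])
  have sc : σ c ∈ Rot φ := mem_of_sq hφ fun h => c2 (σ.injective (by rw [map_mul, h, map_one]))
  obtain ⟨m, hm⟩ := gen _ sc
  obtain ⟨j, hj⟩ := (IsPGroup.iff_orderOf.1 hV) c
  have hco : m.Coprime (2 ^ j) := by
    have h1 : orderOf (c ^ m) = orderOf c := by rw [hm]; exact σ.orderOf_eq c
    rw [orderOf_pow, hj] at h1
    have h2 := Nat.div_mul_cancel (Nat.gcd_dvd_left (2 ^ j) m)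
    rw [h1] at h2
    exact Nat.Coprime.symm (Nat.eq_of_mul_eq_mul_left (by positivity) (h2.trans (mul_one _).symm))
  have fc : σ c = c := by
    rcases j with _ | j
    · exact absurd (by rw [orderOf_eq_one_iff.1 hj, mul_one]) c2
    refine fix_of_pow σ (N := j) hk hσ ?_
    have h1 := Nat.ModEq.pow_totient hco
    rw [Nat.totient_prime_pow_succ Nat.prime_two, show 2 - 1 = 1 from rfl, mul_one, ← hj] at h1
    rw [iter_pow σ hm.symm, pow_eq_pow_iff_modEq.2 h1, pow_one]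
  have fR : ∀ v ∈ Rot φ, σ v = v := fun v hv => by
    obtain ⟨i, rfl⟩ := gen v hv
    rw [map_pow, fc]
  have e1 : e ∉ Rot φ := fun h => he (fR e h)
  have e2 : σ e ∉ Rot φ := fun h => he (σ.injective (fR _ h))
  have hf := mul_mem_Rot e2 (fun h => e1 (inv_mem_iff.1 h) : e⁻¹ ∉ Rot φ)
  obtain ⟨N, hN⟩ := hV (σ e * e⁻¹)
  refine he (fix_of_pow σ (N := N) hk hσ ?_)
  rw [iter_mul σ (fR _ hf) (by group), hN, one_mul]

end Fro

theorem fro {L : Type*} [Group L] [Finite L] (S : Sylow 2 L) {n : ℕ}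
    (hS : Nonempty ((S : Subgroup L) ≃* DihedralGroup n)) {H : Subgroup L} (hH : ¬ Nil2 H) :
    ∃ a ∈ H, ∃ b ∈ H, ∃ x ∈ H, Fu a b x := by
  obtain ⟨P⟩ : Nonempty (Sylow 2 H) := inferInstance
  have key : ¬ ∃ N : Subgroup H, N.Normal ∧ N.IsComplement' (P : Subgroup H) := by
    rintro ⟨N, hN, hc⟩
    have hi : N.index = Nat.card (P : Subgroup H) := hc.symm.index_eq_card
    have hP : (P : Subgroup H).index = Nat.card N := hc.index_eq_card
    obtain ⟨j, hj⟩ := P.isPGroup'.exists_card_eq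
    refine hH ⟨N.map H.subtype, map_subtype_le _, ?_, ?_, ?_⟩
    · intro g hg
      rw [mem_normalizer_iff]
      intro y
      constructor
      · rintro ⟨y, hy, rfl⟩
        exact ⟨_, hN.conj_mem y hy ⟨g, hg⟩, rfl⟩
      · rintro ⟨y', hy, e⟩
        refine ⟨_, hN.conj_mem y' hy ⟨g, hg⟩⁻¹, ?_⟩
        have e' : (y' : L) = g * y * g⁻¹ := e
        simp [e', mul_assoc]
    · rw [card_map_of_injective H.subtype_injective, ← hP]
      exact Nat.not_even_iff_odd.1 fun h => P.not_dvd_index (even_iff_two_dvd.1 h)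
    · intro g hg ho
      have h1 : (⟨g, hg⟩ : H) ^ 2 ^ j ∈ N := by
        rw [← hj, ← hi]
        exact N.pow_index_mem _
      have hc : (2 ^ j).Coprime (orderOf (⟨g, hg⟩ : H)) := by
        rw [← Subgroup.orderOf_coe]
        exact Nat.Coprime.pow_left _ (Nat.coprime_two_left.2 ho)
      obtain ⟨m, hm⟩ := exists_pow_eq_self_of_coprime hc
      exact ⟨⟨g, hg⟩, hm ▸ pow_mem h1 m, rfl⟩
  rw [Cfsg.Agent.S0071.result P] at key
  push Not at key
  obtain ⟨Q, hQ, g, hg, ho, hn⟩ := key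
  have hQ2 : IsPGroup 2 Q := P.isPGroup'.to_le hQ
  obtain ⟨S', hS'⟩ := (hQ2.map H.subtype).exists_le_sylow
  obtain ⟨ψ⟩ := hS
  let φ : Q →* DihedralGroup n := ψ.toMonoidHom.comp ((S'.equiv S).toMonoidHom.comp
    ((H.subtype.comp Q.subtype).codRestrict (S' : Subgroup L) fun x => hS' ⟨x, x.2, rfl⟩))
  have hφ : Function.Injective φ := fun x y h => by
    have h1 := congrArg Subtype.val ((S'.equiv S).injective (ψ.injective h))
    exact Subtype.ext (Subtype.ext h1)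
  let σ : MulAut Q := Q.normalizerMonoidHom ⟨g, hg⟩
  have hσ : σ ^ orderOf g = 1 := by
    rw [← map_pow]
    have : (⟨g, hg⟩ : normalizer (Q : Set H)) ^ orderOf g = 1 := Subtype.ext (pow_orderOf_eq_one g)
    rw [this, map_one]
  have hk : Odd (orderOf g) := Nat.coprime_two_right.1 ho
  have val : ∀ v : Q, ((σ v : H) : L) = g * v * (g : L)⁻¹ := fun v => rfl
  obtain ⟨e, he⟩ : ∃ e : Q, σ e ≠ e := by
    by_contra h
    push Not at h
    refine hn (mem_centralizer_iff.2 fun y hy => Subtype.ext ?_)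
    have := val ⟨y, hy⟩
    rw [h] at this
    simpa using (eq_mul_inv_iff_mul_eq.1 this)
  have h2 := Fro.sq_one hQ2 hφ σ hk hσ he
  obtain ⟨h4, h5, -⟩ := fu_of_card h2 (Fro.card_le hφ h2) σ hk hσ he
  let ι : Q →* L := H.subtype.comp Q.subtype
  have hι : Function.Injective ι := H.subtype_injective.comp Q.subtype_injective
  have ne : ∀ v : Q, v ≠ 1 → ι v ≠ 1 := fun v hv h => hv (hι (h.trans (map_one ι).symm))
  refine ⟨ι e, (e : H).2, ι (σ e), (σ e : H).2, g, g.2, ⟨?_, ?_, ?_, ne _ h4.na, ne _ h4.nb, ?_⟩,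
    (val e).symm, ?_⟩
  · rw [← map_mul, h2, map_one]
  · rw [← map_mul, h2, map_one]
  · rw [← map_mul, h4.ab, map_mul]
  · rw [← map_mul]; exact ne _ h4.nab
  · rw [← map_mul, ← h5]; exact (val (σ e)).symm

end H50.SQ
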