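import Cfsg.Agent.Lib.SQF.Red

set_option autoImplicit false

namespace H50.SQ

open Subgroup H50.RC

variable {X : Type*} [Group X] [Finite X] {Y : Subgroup X}

private theorem eq_one_of_mem_odd {O : Subgroup X} (hO : Odd (Nat.card O)) {g : X} (hg : g ∈ O)
    (h : Tw g) : g = 1 :=
  eq_one_of_tw_odd h (hO.of_dvd_nat (orderOf_dvd_natCard O hg))

private theorem exists_cj_two {K : Type*} [Group K] [Finite K] {a b g : K} (ha : Tw a) (hb : Tw b)
    (hab : a * b = b * a) (hg : Tw g) :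
    ∃ (h : K) (T : Subgroup K), IsPGroup 2 T ∧ a ∈ T ∧ b ∈ T ∧ h * g * h⁻¹ ∈ T := by
  haveI : Fact (Nat.Prime 2) := ⟨Nat.prime_two⟩
  have hn : b ∈ normalizer (zpowers a : Set K) := by
    refine centralizer_le_normalizer _ (mem_centralizer_iff.2 ?_)
    rintro _ ⟨k, rfl⟩
    exact (Commute.zpow_left hab k).eq
  obtain ⟨T, hT⟩ := (sup_zp ha.zp hb hn).exists_le_sylow
  obtain ⟨T1, hT1⟩ := hg.zp.exists_le_sylow
  obtain ⟨h, hh⟩ := MulAction.exists_smul_eq K T1 T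
  refine ⟨h, T, T.isPGroup', hT (mem_sup_left (mem_zpowers a)), hT (mem_sup_right (mem_zpowers b)), ?_⟩
  rw [← hh, Sylow.coe_subgroup_smul]
  exact smul_mem_pointwise_smul g (MulAut.conj h) _ (hT1 (mem_zpowers g))

omit [Finite X] in
private theorem tw_map {K : Type*} [Group K] (f : X →* K) {g : X} (h : Tw g) : Tw (f g) :=
  let ⟨n, hn⟩ := h; ⟨n, by rw [← map_pow, hn, map_one]⟩

theorem cf0_quot (O : Subgroup X) [O.Normal] (hO : Odd (Nat.card O)) (OY : O ≤ Y) {a b x : X}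
    (c : Cf0 Y a b x) :
    Cf0 (Y.map (QuotientGroup.mk' O)) (a : X ⧸ O) (b : X ⧸ O) (x : X ⧸ O) := by
  have _ := OY
  obtain ⟨⟨⟨a2, b2, ab, na, nb, nab⟩, xa, xb⟩, aY, bY, xY, sc⟩ := c
  have ab2 : a * b * (a * b) = 1 := by
    calc a * b * (a * b) = a * (b * a) * b := by group
      _ = (a * a) * (b * b) := by rw [← ab]; group
      _ = 1 := by rw [a2, b2, one_mul]
  have ne : ∀ {u : X}, u * u = 1 → u ≠ 1 → (u : X ⧸ O) ≠ 1 := fun h2 h1 h =>
    h1 (eq_one_of_mem_odd hO ((QuotientGroup.eq_one_iff _).1 h) (tw_of_sq h2))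
  have im : ∀ {u v : X}, u = v → (u : X ⧸ O) = v := fun h => congrArg _ h
  refine ⟨⟨⟨im a2, im b2, im ab, ne a2 na, ne b2 nb, ne ab2 nab⟩, im xa, im xb⟩, mem_map_of_mem _ aY,
    mem_map_of_mem _ bY, mem_map_of_mem _ xY, ?_⟩
  rintro _ ⟨g1, g1Y, rfl⟩ tg ga gb
  obtain ⟨m, n, tm, on, e⟩ := exists_parts g1
  set π := QuotientGroup.mk' O with hπ
  have e1 : π (g1 ^ n) = 1 := by
    refine eq_one_of_tw_odd ?_ (on.of_dvd_nat (orderOf_map_dvd π _))
    obtain ⟨k, hk⟩ := tg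
    exact ⟨k, by rw [map_pow, ← pow_mul, mul_comm, pow_mul, hk, one_pow]⟩
  have e2 : π (g1 ^ m) = π g1 := by
    conv_rhs => rw [e, map_mul, e1, mul_one]
  let A : Subgroup X := Y ⊓ (centralizer {π g1, π a, π b}).comap π
  have mA : ∀ {u : X}, u ∈ Y → π g1 * π u = π u * π g1 → π a * π u = π u * π a →
      π b * π u = π u * π b → u ∈ A := fun hu h1 h2 h3 => ⟨hu, mem_centralizer_iff.2 (by
    rintro _ (rfl | rfl | rfl)
    exacts [h1, h2, h3])⟩
  have aA : a ∈ A := mA aY ga rfl (im ab.symm)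
  have bA : b ∈ A := mA bY gb (im ab) rfl
  have gA : g1 ^ m ∈ A := mA (pow_mem g1Y m) (by rw [e2]) (by rw [e2]; exact ga.symm) (by rw [e2]; exact gb.symm)
  obtain ⟨h, T, hT, aT, bT, gT⟩ := exists_cj_two (K := A) (a := ⟨a, aA⟩) (b := ⟨b, bA⟩) (g := ⟨_, gA⟩)
    (tw_of_sq (Subtype.ext a2)) (tw_of_sq (Subtype.ext b2)) (Subtype.ext ab)
    (let ⟨k, hk⟩ := tm; ⟨k, Subtype.ext hk⟩)
  set g : A := h * ⟨_, gA⟩ * h⁻¹ with hg
  have e3 : π g = π g1 := by
    have := mem_centralizer_iff.1 h.2.2 (π g1) (Or.inl rfl)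
    show π (h * g1 ^ m * (h : X)⁻¹) = _
    rw [map_mul, map_mul, e2, ← this, map_inv, mul_inv_cancel_right]
  have cm : ∀ u : A, u ∈ T → π g1 * π u = π u * π g1 → (g : X) * u = u * g := fun u hu k => by
    have t := tw_map A.subtype (tw_of_mem hT (mul_mem (mul_mem (mul_mem gT hu) (inv_mem gT)) (inv_mem hu)))
    have o : (g : X) * u * (g : X)⁻¹ * (u : X)⁻¹ ∈ O := by
      rw [← QuotientGroup.ker_mk' O, MonoidHom.mem_ker, map_mul, map_mul, map_mul, map_inv, map_inv, ← hπ, e3, k]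
      group
    have := eq_one_of_mem_odd hO o t
    rwa [mul_inv_eq_one, mul_inv_eq_iff_eq_mul] at this
  rw [← e3]
  rcases sc g g.2.1 (tw_map A.subtype (tw_of_mem hT gT)) (cm _ aT ga) (cm _ bT gb) with k | k | k | k
  exacts [.inl (im k), .inr (.inl (im k)), .inr (.inr (.inl (im k))), .inr (.inr (.inr (im k)))]

theorem out1_lift (O : Subgroup X) [O.Normal] (hO : Odd (Nat.card O))
    (o : Out1 (Y.map (QuotientGroup.mk' O))) : Out1 Y := by
  obtain ⟨y, hy, py, oy, h⟩ := o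
  obtain ⟨x, hx, rfl, px, ox⟩ := pp_lift _ hy py
  refine ⟨x, hx, px, ox oy, fun p p2 px => ?_⟩
  have := h (QuotientGroup.mk' O p) (by rw [← map_mul, p2, map_one]) (by rw [← map_mul, px, map_mul])
  exact eq_one_of_mem_odd hO ((QuotientGroup.eq_one_iff _).1 this) (tw_of_sq p2)

end H50.SQ
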