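import Cfsg.Agent.Lib.SQF.Defs
import Cfsg.Agent.Lib.LocStruct.SylowIn

set_option autoImplicit false

namespace H50.SQ

open Subgroup H50.RC

variable {X : Type*} [Group X] [Finite X] {Y : Subgroup X}

namespace LiftB

/-- the subgroup generated by three elements -/
def R3 {G : Type*} [Group G] (p a b : G) : Subgroup G := (zpowers p ⊔ zpowers a) ⊔ zpowers b

theorem norm2 {p a g : X} (hp : g * p * g⁻¹ ∈ zpowers p ⊔ zpowers a)
    (ha : g * a * g⁻¹ ∈ zpowers p ⊔ zpowers a) :
    g ∈ normalizer ((zpowers p ⊔ zpowers a : Subgroup X) : Set X) := by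
  apply H69.mem_normalizer_of_cj_le
  rw [H69.cj_sup, H69.cj_zpowers, H69.cj_zpowers]
  exact sup_le (zpowers_le.2 hp) (zpowers_le.2 ha)

theorem norm3 {p a b g : X} (hp : g * p * g⁻¹ ∈ R3 p a b) (ha : g * a * g⁻¹ ∈ R3 p a b)
    (hb : g * b * g⁻¹ ∈ R3 p a b) : g ∈ normalizer (R3 p a b : Set X) := by
  apply H69.mem_normalizer_of_cj_le
  unfold R3
  rw [H69.cj_sup, H69.cj_sup, H69.cj_zpowers, H69.cj_zpowers, H69.cj_zpowers]
  exact sup_le (sup_le (zpowers_le.2 hp) (zpowers_le.2 ha)) (zpowers_le.2 hb)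

omit [Finite X] in
theorem zp_le (p a b : X) : zpowers p ≤ R3 p a b := le_sup_left.trans le_sup_left

omit [Finite X] in
theorem a_mem (p a b : X) : a ∈ R3 p a b :=
  (le_sup_right.trans le_sup_left : zpowers a ≤ R3 p a b) (mem_zpowers a)

omit [Finite X] in
theorem b_mem (p a b : X) : b ∈ R3 p a b :=
  (le_sup_right : zpowers b ≤ R3 p a b) (mem_zpowers b)

omit [Finite X] in
theorem cen_iff {p g : X} : g ∈ centralizer (zpowers p : Set X) ↔ g * p * g⁻¹ = p := by
  constructor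
  · intro h
    rw [← h p (mem_zpowers p), mul_inv_cancel_right]
  · rintro h _ ⟨k, rfl⟩
    exact ((show Commute p g from (mul_inv_eq_iff_eq_mul.1 h).symm).zpow_left k).eq

omit [Finite X] in
theorem mem_of {S : Subgroup X} {u v : X} (h : u * v⁻¹ ∈ S) (hv : v ∈ S) : u ∈ S := by
  simpa using S.mul_mem h hv

theorem two3 {p a b x : X} (c : Cfg Y (zpowers p) a b x) : IsPGroup 2 (R3 p a b) := by
  have ta : Tw a := tw_of_pow_mem c.two (k := 1) (by simpa [sq] using c.a2)
  have tb : Tw b := tw_of_pow_mem c.two (k := 1) (by simpa [sq] using c.b2)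
  have h1 : IsPGroup 2 ↥(zpowers p ⊔ zpowers a) :=
    sup_zp c.two ta (centralizer_le_normalizer _ c.aC)
  refine sup_zp h1 tb (norm2 ?_ ?_)
  · rw [cen_iff.1 c.bC]; exact mem_sup_left (mem_zpowers p)
  · have h2 : a * b * a⁻¹ * b⁻¹ ∈ zpowers p ⊔ zpowers a := mem_sup_left c.ab
    have h3 : a ∈ zpowers p ⊔ zpowers a := mem_sup_right (mem_zpowers a)
    have : b * a * b⁻¹ = (a * b * a⁻¹ * b⁻¹)⁻¹ * a := by group
    rw [this]
    exact mul_mem (inv_mem h2) h3

theorem xnorm {p a b x : X} (c : Cfg Y (zpowers p) a b x) : x ∈ normalizer (R3 p a b : Set X) := by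
  refine norm3 ?_ (mem_of (zp_le p a b c.xa) (b_mem p a b))
    (mem_of (zp_le p a b c.xb) (mul_mem (a_mem p a b) (b_mem p a b)))
  rw [cen_iff.1 c.xC]; exact zp_le p a b (mem_zpowers p)

/-- lifting a 2-subgroup of the quotient together with an element normalising it -/
theorem lift (O : Subgroup X) [O.Normal] (hO : Odd (Nat.card O)) {S : Subgroup (X ⧸ O)}
    (hS : IsPGroup 2 S) {x0 : X} (hx : QuotientGroup.mk' O x0 ∈ normalizer (S : Set (X ⧸ O))) :
    ∃ (R : Subgroup X) (x : X), IsPGroup 2 R ∧ R.map (QuotientGroup.mk' O) = S ∧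
      x ∈ normalizer (R : Set X) ∧ QuotientGroup.mk' O x = QuotientGroup.mk' O x0 ∧
      (∀ r ∈ R, ∀ r' ∈ R, QuotientGroup.mk' O r = QuotientGroup.mk' O r' → r = r') ∧
      ∀ g, Tw g → g ∈ normalizer (R : Set X) → QuotientGroup.mk' O g ∈ S → g ∈ R := by
  haveI : Fact (Nat.Prime 2) := ⟨Nat.prime_two⟩
  set π := QuotientGroup.mk' O with hπ
  obtain ⟨R, hR⟩ := H69.exists_isSylowIn 2 (S.comap π)
  have hm : R.map π = S := by
    have h := hR.map π
    rw [map_comap_eq_self_of_surjective (QuotientGroup.mk'_surjective O)] at h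
    exact (h.max S h.le le_rfl hS).symm
  have hN : x0 ∈ normalizer ((S.comap π : Subgroup X) : Set X) := by
    rw [← H69.cj_eq_self_iff, H69.comap_cj, H69.cj_eq_self_iff.2 hx]
  obtain ⟨n, hn, y, hy, e⟩ := hR.frattini hN
  have hn' : π n ∈ R.map π := by rw [hm]; exact hn
  obtain ⟨r, hr, er⟩ := hn'
  refine ⟨R, r * y, hR.isP, hm, mul_mem (le_normalizer hr) hy, by rw [e, map_mul, map_mul, er], ?_, ?_⟩
  · intro s hs s' hs' h
    have h1 : s * s'⁻¹ ∈ O := by
      rw [← QuotientGroup.eq_one_iff]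
      change π (s * s'⁻¹) = 1
      rw [map_mul, map_inv, h, mul_inv_cancel]
    have h2 : Odd (orderOf (s * s'⁻¹)) := Odd.of_dvd_nat hO (O.orderOf_dvd_natCard h1)
    exact mul_inv_eq_one.1 (eq_one_of_tw_odd (tw_of_mem hR.isP (mul_mem hs (inv_mem hs'))) h2)
  · intro g tg ng hg
    exact hR.le_of_le_normalizer' tg.zp (zpowers_le.2 hg) (zpowers_le.2 ng) (mem_zpowers g)

end LiftB

open LiftB in
theorem out2_lift (O : Subgroup X) [O.Normal] (hO : Odd (Nat.card O)) (OY : O ≤ Y)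
    (o : Out2 (Y.map (QuotientGroup.mk' O))) : Out2 Y := by
  obtain ⟨p0, a0, b0, x0, pp, p1, c⟩ := o
  obtain ⟨x1, -, rfl⟩ := c.xY
  obtain ⟨R, x, two, hm, xN, ex, inj, mx⟩ := lift O hO (two3 c) (xnorm c)
  set π := QuotientGroup.mk' O with hπ
  rw [← ex] at c
  obtain ⟨p, pR, rfl⟩ : p0 ∈ R.map π := hm ▸ zp_le p0 a0 b0 (mem_zpowers p0)
  obtain ⟨a, aR, rfl⟩ : a0 ∈ R.map π := hm ▸ a_mem _ a0 b0
  obtain ⟨b, bR, rfl⟩ : b0 ∈ R.map π := hm ▸ b_mem _ _ b0
  replace pR : p ∈ R := pR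
  replace aR : a ∈ R := aR
  replace bR : b ∈ R := bR
  have hY : ∀ g, π g ∈ Y.map π → g ∈ Y := by
    intro g hg
    have : g ∈ (Y.map π).comap π := hg
    rwa [comap_map_eq_self (by rw [hπ, QuotientGroup.ker_mk']; exact OY)] at this
  have zle : zpowers p ≤ R := zpowers_le.2 pR
  have up : ∀ r ∈ R, π r ∈ zpowers (π p) → r ∈ zpowers p := by
    intro r hr h
    rw [← MonoidHom.map_zpowers] at h
    obtain ⟨s, hs, e⟩ := h
    rw [← inj s (zle hs) r hr e]; exact hs
  have down : ∀ r, r ∈ zpowers p → π r ∈ zpowers (π p) := by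
    intro r h
    rw [← MonoidHom.map_zpowers]; exact mem_map_of_mem π h
  have cj : ∀ g ∈ normalizer (R : Set X), ∀ r ∈ R, g * r * g⁻¹ ∈ R := fun g hg r hr =>
    (mem_normalizer_iff.1 hg r).1 hr
  have cen : ∀ g ∈ normalizer (R : Set X), π g ∈ centralizer (zpowers (π p) : Set (X ⧸ O)) →
      g ∈ centralizer (zpowers p : Set X) := by
    intro g hg h
    refine cen_iff.2 (inj _ (cj g hg p pR) _ pR ?_)
    rw [map_mul, map_mul, map_inv, cen_iff.1 h]
  have hR : R = R3 p a b := by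
    have le : R3 p a b ≤ R := sup_le (sup_le zle (zpowers_le.2 aR)) (zpowers_le.2 bR)
    refine le_antisymm (fun r hr => ?_) le
    have h : π r ∈ (R3 p a b).map π := by
      unfold R3
      rw [Subgroup.map_sup, Subgroup.map_sup, MonoidHom.map_zpowers, MonoidHom.map_zpowers,
        MonoidHom.map_zpowers]
      change π r ∈ R3 (π p) (π a) (π b)
      rw [← hm]; exact mem_map_of_mem π hr
    obtain ⟨s, hs, e⟩ := h
    rw [← inj s (le hs) r hr e]; exact hs
  have abR := mul_mem aR bR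
  refine ⟨p, a, b, x, inj _ (mul_mem pR pR) _ (one_mem R) (by rw [map_mul, pp, map_one]),
    fun h => p1 (by rw [h, map_one]), two.to_le zle, hY _ c.aY, hY _ c.bY, hY _ c.xY,
    cen a (le_normalizer aR) c.aC, cen b (le_normalizer bR) c.bC, cen x xN c.xC,
    up _ (mul_mem aR aR) (by simpa only [map_mul] using c.a2),
    up _ (mul_mem bR bR) (by simpa only [map_mul] using c.b2),
    up _ (mul_mem (mul_mem abR (inv_mem aR)) (inv_mem bR)) (by simpa only [map_mul, map_inv] using c.ab),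
    fun h => c.na (down _ h), fun h => c.nb (down _ h),
    fun h => c.nab (by simpa only [map_mul] using down _ h),
    up _ (mul_mem (cj x xN a aR) (inv_mem bR)) (by simpa only [map_mul, map_inv] using c.xa),
    up _ (mul_mem (cj x xN b bR) (inv_mem abR)) (by simpa only [map_mul, map_inv] using c.xb), ?_⟩
  intro g gY tg gC ga gb
  have tg' : Tw (π g) := by
    obtain ⟨n, hn⟩ := tg
    exact ⟨n, by rw [← map_pow, hn, map_one]⟩
  have h := c.sc (π g) (mem_map_of_mem π gY) tg'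
    (cen_iff.2 (by rw [← map_inv, ← map_mul, ← map_mul, cen_iff.1 gC]))
    (by simpa only [map_mul, map_inv] using down _ ga) (by simpa only [map_mul, map_inv] using down _ gb)
  have gN : g ∈ normalizer (R : Set X) := by
    rw [hR]
    refine norm3 ?_ (mem_of (zp_le p a b ga) (a_mem p a b)) (mem_of (zp_le p a b gb) (b_mem p a b))
    rw [cen_iff.1 gC]; exact zp_le p a b (mem_zpowers p)
  have gR : g ∈ R := by
    refine mx g tg gN ?_
    rcases h with h | h | h | h
    · exact zp_le _ _ _ h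
    · exact mem_of (zp_le _ _ _ h) (a_mem _ _ _)
    · exact mem_of (zp_le _ _ _ h) (b_mem _ _ _)
    · exact mem_of (zp_le _ _ _ h) (mul_mem (a_mem _ _ _) (b_mem _ _ _))
  rcases h with h | h | h | h
  · exact Or.inl (up _ gR h)
  · exact Or.inr (Or.inl (up _ (mul_mem gR (inv_mem aR)) (by simpa only [map_mul, map_inv] using h)))
  · exact Or.inr (Or.inr (Or.inl
      (up _ (mul_mem gR (inv_mem bR)) (by simpa only [map_mul, map_inv] using h))))
  · exact Or.inr (Or.inr (Or.inr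
      (up _ (mul_mem gR (inv_mem abR)) (by simpa only [map_mul, map_inv] using h))))

end H50.SQ
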