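import Cfsg.Agent.Lib.SQF.Defs

set_option autoImplicit false

namespace H50.SQ

open Subgroup H50.RC

variable {X : Type*} [Group X] [Finite X] {Y : Subgroup X}

namespace Out

theorem cen_zp {p g : X} (h : p * g = g * p) : g ∈ centralizer (zpowers p : Set X) := by
  rw [mem_centralizer_iff]
  rintro _ ⟨k, rfl⟩
  exact ((show Commute p g from h).zpow_left k).eq

theorem cj {p g : X} (h : p * g = g * p) : g * p * g⁻¹ = p := by rw [← h]; group

theorem comm {p g : X} (h : g * p * g⁻¹ = p) : g * p = p * g := by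
  calc g * p = (g * p * g⁻¹) * g := by group
    _ = p * g := by rw [h]

theorem tw_mul {g q : X} (h : g * q = q * g) (hg : Tw g) (hq : Tw q) : Tw (g * q) := by
  obtain ⟨m, hm⟩ := hg
  obtain ⟨n, hn⟩ := hq
  refine ⟨m + n, ?_⟩
  rw [(show Commute g q from h).mul_pow, pow_add, pow_mul, hm, one_pow, mul_comm (2 ^ m), pow_mul,
    hn, one_pow, one_mul]

theorem tw_inv {g : X} (hg : Tw g) : Tw g⁻¹ := by
  obtain ⟨m, hm⟩ := hg
  exact ⟨m, by rw [inv_pow, hm, inv_one]⟩

theorem tw4 {a z : X} (a2 : a * a = z) (z2 : z * z = 1) : Tw a :=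
  ⟨2, by rw [show (2 : ℕ) ^ 2 = 2 + 2 by norm_num, pow_add, sq, a2, z2]⟩

theorem fu_xab {a b x : X} (f : Fu a b x) : x * (a * b) * x⁻¹ = a := by
  calc x * (a * b) * x⁻¹ = (x * a * x⁻¹) * (x * b * x⁻¹) := by group
    _ = (b * a) * b := by rw [f.xa, f.xb]; group
    _ = a * (b * b) := by rw [← f.four.ab]; group
    _ = a := by rw [f.four.b2, mul_one]

theorem fu_pow {a b x : X} (f : Fu a b x) (j : ℕ) : Fu a b (x ^ (3 * j + 1)) := by
  have h1 : x ^ 3 * a * (x ^ 3)⁻¹ = a := by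
    calc x ^ 3 * a * (x ^ 3)⁻¹ = x * (x * (x * a * x⁻¹) * x⁻¹) * x⁻¹ := by
          simp only [pow_succ, pow_zero, one_mul]; group
      _ = a := by rw [f.xa, f.xb, fu_xab f]
  have h2 : x ^ 3 * b * (x ^ 3)⁻¹ = b := by
    calc x ^ 3 * b * (x ^ 3)⁻¹ = x * (x * (x * b * x⁻¹) * x⁻¹) * x⁻¹ := by
          simp only [pow_succ, pow_zero, one_mul]; group
      _ = b := by rw [f.xb, fu_xab f, f.xa]
  have key : ∀ v : X, x ^ 3 * v * (x ^ 3)⁻¹ = v →
      x ^ (3 * j + 1) * v * (x ^ (3 * j + 1))⁻¹ = x * v * x⁻¹ := by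
    intro v hv
    have c : Commute ((x ^ 3) ^ j) v := (show Commute (x ^ 3) v from comm hv).pow_left j
    calc x ^ (3 * j + 1) * v * (x ^ (3 * j + 1))⁻¹
        = x * ((x ^ 3) ^ j * v * ((x ^ 3) ^ j)⁻¹) * x⁻¹ := by rw [pow_succ', pow_mul]; group
      _ = x * v * x⁻¹ := by rw [c.eq, mul_inv_cancel_right]
  exact ⟨f.four, by rw [key a h1, f.xa], by rw [key b h2, f.xb]⟩

section Q

variable {z a b x : X}

theorem za (q : FuQ z a b x) : z * a = a * z := by rw [← q.a2, mul_assoc]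

theorem zb (q : FuQ z a b x) : z * b = b * z := by rw [← q.b2, mul_assoc]

theorem aba (q : FuQ z a b x) : a * b * a⁻¹ = z * b := by
  rw [← q.ab]; group

theorem zinv (q : FuQ z a b x) : z⁻¹ = z := inv_eq_of_mul_eq_one_right q.z2

theorem bab (q : FuQ z a b x) : b * a * b⁻¹ = z * a := by
  calc b * a * b⁻¹ = (a * b * a⁻¹ * b⁻¹)⁻¹ * a := by group
    _ = z * a := by rw [q.ab, zinv q]

theorem ab2 (q : FuQ z a b x) : a * b * (a * b) = z := by
  calc a * b * (a * b) = a * (b * a * b⁻¹) * (b * b) := by group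
    _ = (a * z) * a * z := by rw [bab q, q.b2]; group
    _ = z * (a * a) * z := by rw [← za q]; group
    _ = z := by rw [q.a2, q.z2, one_mul]

theorem nmem (q : FuQ z a b x) {v : X} (h : v * v = z) : v ∉ zpowers z := by
  rw [mem_zp q.z2]
  rintro (h1 | h1)
  · exact q.nz (by rw [← h, h1, mul_one])
  · exact q.nz (by rw [← h, h1, q.z2])

theorem no_inv (hY : SC Y) (q : FuQ z a b x) (aY : a ∈ Y) {v : X} (vY : v ∈ Y) (v2 : v * v = 1)
    (va : v * a = a * v) (v1 : v ≠ 1) (vz : v ≠ z) : False := by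
  have zY : z ∈ Y := by rw [← q.a2]; exact mul_mem aY aY
  have c : v * z = z * v := by rw [← q.a2, ← mul_assoc, va, mul_assoc, va, mul_assoc]
  have f : Four v z := ⟨v2, q.z2, c, v1, q.nz, fun h => vz (by
    rw [← zinv q]; exact eq_inv_of_mul_eq_one_left h)⟩
  apply q.nz
  rcases hY v vY z zY f a aY (tw4 q.a2 q.z2) va.symm (za q).symm with h | h | h | h
  · rw [← q.a2, h, mul_one]
  · rw [← q.a2, h, v2]
  · rw [← q.a2, h, q.z2]
  · calc z = a * a := q.a2.symm
      _ = v * (z * v) * z := by rw [h]; group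
      _ = (v * v) * (z * z) := by rw [← c]; group
      _ = 1 := by rw [v2, q.z2, one_mul]

theorem base (hY : SC Y) (q : FuQ z a b x) (aY : a ∈ Y) {u : X} (uY : u ∈ Y) (ua : u * a = a * u)
    (ub : u * b = b * u) (u2 : u * u ∈ zpowers z) : u ∈ zpowers z := by
  rw [mem_zp q.z2] at u2 ⊢
  by_contra hn
  push Not at hn
  rcases u2 with u2 | u2
  · exact no_inv hY q aY uY u2 ua hn.1 hn.2
  · have key : u * a * b = b * (u * a) → False := by
      intro h
      apply q.nz
      have h1 : a * b = b * a := by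
        apply mul_left_cancel (a := u)
        rw [← mul_assoc, h, ← mul_assoc, ← ub, mul_assoc]
      rw [← q.ab, h1]; group
    refine no_inv hY q aY (mul_mem uY aY) ?_ ?_ (fun h => key ?_) (fun h => key ?_)
    · calc u * a * (u * a) = u * (a * u) * a := by group
        _ = (u * u) * (a * a) := by rw [← ua]; group
        _ = 1 := by rw [u2, q.a2, q.z2]
    · rw [← mul_assoc, ← ua]
    · rw [h, one_mul, mul_one]
    · rw [h, zb q]

theorem cen_mem (hY : SC Y) (q : FuQ z a b x) (aY : a ∈ Y) {u : X} (uY : u ∈ Y) (ht : Tw u)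
    (ua : u * a = a * u) (ub : u * b = b * u) : u ∈ zpowers z := by
  obtain ⟨n, hn⟩ := ht
  induction n generalizing u with
  | zero => rw [pow_zero, pow_one] at hn; rw [hn]; exact one_mem _
  | succ n ih =>
    refine base hY q aY uY ua ub (ih (mul_mem uY uY) ?_ ?_ ?_)
    · rw [mul_assoc, ua, ← mul_assoc, ua, mul_assoc]
    · rw [mul_assoc, ub, ← mul_assoc, ub, mul_assoc]
    · rw [← sq, ← pow_mul, ← pow_succ', hn]

theorem like (hY : SC Y) (q : FuQ z a b x) (aY : a ∈ Y) {g s : X} (gY : g ∈ Y) (sY : s ∈ Y)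
    (tg : Tw g) (ts : Tw s) (c : g * s * g⁻¹ = s) (ea : g * a * g⁻¹ = s * a * s⁻¹)
    (eb : g * b * g⁻¹ = s * b * s⁻¹) : g * s⁻¹ ∈ zpowers z := by
  have c' : g * s⁻¹ = s⁻¹ * g := ((show Commute g s from comm c).inv_right).eq
  have key : ∀ v : X, g * v * g⁻¹ = s * v * s⁻¹ → g * s⁻¹ * v = v * (g * s⁻¹) := by
    intro v hv
    rw [c']
    calc s⁻¹ * g * v = s⁻¹ * (g * v * g⁻¹) * g := by group
      _ = v * (s⁻¹ * g) := by rw [hv]; group
  exact cen_mem hY q aY (mul_mem gY (inv_mem sY)) (tw_mul c' tg (tw_inv ts)) (key a ea) (key b eb)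

end Q

end Out

open Out

theorem cfg_out {a b x p : X} (c : Cf0 Y a b x) (p2 : p * p = 1) (p1 : p ≠ 1)
    (pa : p * a = a * p) (pb : p * b = b * p) (px : p * x = x * p) : Cfg Y (zpowers p) a b x := by
  have f := c.fu.four
  have xp : x * p * x⁻¹ = p := cj px
  have na : a ≠ p := by
    intro h
    apply f.nab
    rw [← c.fu.xa, h, xp, p2]
  have nb : b ≠ p := by
    intro h
    apply f.na
    have := c.fu.xb
    rw [h, xp] at this
    exact mul_eq_right.1 this.symm
  have nab : a * b ≠ p := by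
    intro h
    apply f.nb
    have := fu_xab c.fu
    rw [h, xp, ← h] at this
    exact mul_eq_left.1 this
  have pY : p ∉ Y := by
    intro h
    rcases c.sc p h (tw_of_sq p2) pa pb with h | h | h | h
    exacts [p1 h, na h.symm, nb h.symm, nab h.symm]
  have one : ∀ {g : X}, g = 1 → g ∈ zpowers p := fun h => h ▸ one_mem _
  have nm : ∀ {g : X}, g ≠ 1 → g ≠ p → g ∉ zpowers p := fun h1 h2 h =>
    ((mem_zp p2).1 h).elim h1 h2
  refine ⟨(tw_of_sq p2).zp, c.aY, c.bY, c.xY, cen_zp pa, cen_zp pb, cen_zp px, one f.a2, one f.b2,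
    one (by rw [f.ab]; group), nm f.na na, nm f.nb nb, nm f.nab nab, one (by rw [c.fu.xa]; group),
    one (by rw [c.fu.xb]; group), fun g gY tg _ ga gb => ?_⟩
  have key : ∀ v ∈ Y, g * v * g⁻¹ * v⁻¹ ∈ zpowers p → g * v = v * g := by
    intro v vY hv
    rcases (mem_zp p2).1 hv with h | h
    · exact comm (mul_inv_eq_one.1 h)
    · exact absurd (h ▸ mul_mem (mul_mem (mul_mem gY vY) (inv_mem gY)) (inv_mem vY)) pY
  rcases c.sc g gY tg (key a c.aY ga) (key b c.bY gb) with h | h | h | h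
  · exact Or.inl (one h)
  · exact Or.inr (Or.inl (one (mul_inv_eq_one.2 h)))
  · exact Or.inr (Or.inr (Or.inl (one (mul_inv_eq_one.2 h))))
  · exact Or.inr (Or.inr (Or.inr (one (mul_inv_eq_one.2 h))))

theorem cfg_q8 (hY : SC Y) {z a b x : X} (q : FuQ z a b x) (aY : a ∈ Y) (bY : b ∈ Y)
    (xY : x ∈ Y) : Cfg Y (zpowers z) a b x := by
  have zab : z * (a * b) = a * b * z := by rw [← mul_assoc, za q, mul_assoc, zb q, mul_assoc]
  have xz : x * z * x⁻¹ = z := by
    have e : x * z * x⁻¹ = (x * a * x⁻¹) * (x * a * x⁻¹) := by rw [← q.a2]; group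
    rcases q.xa with h | h
    · rw [e, h, q.b2]
    · calc x * z * x⁻¹ = b * (z * b) * z := by rw [e, h]; group
        _ = (b * b) * (z * z) := by rw [zb q]; group
        _ = z := by rw [q.b2, q.z2, mul_one]
  have md : ∀ {v w : X}, z * w = w * z → v = w ∨ v = w * z → v * w⁻¹ ∈ zpowers z := by
    intro v w c h
    rw [mem_zp q.z2]
    rcases h with h | h
    · left; rw [h, mul_inv_cancel]
    · right; rw [h, ← c, mul_inv_cancel_right]
  refine ⟨(tw_of_sq q.z2).zp, aY, bY, xY, cen_zp (za q), cen_zp (zb q), cen_zp (comm xz).symm,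
    by rw [q.a2]; exact mem_zpowers _, by rw [q.b2]; exact mem_zpowers _,
    by rw [q.ab]; exact mem_zpowers _, nmem q q.a2, nmem q q.b2, nmem q (ab2 q), md (zb q) q.xa,
    md zab q.xb, fun g gY tg _ ga gb => ?_⟩
  have cs : ∀ {v : X}, g * v * g⁻¹ * v⁻¹ ∈ zpowers z → g * v * g⁻¹ = v ∨ g * v * g⁻¹ = z * v := by
    intro v h
    rcases (mem_zp q.z2).1 h with h | h
    · exact Or.inl (mul_inv_eq_one.1 h)
    · exact Or.inr (mul_inv_eq_iff_eq_mul.1 h)
  rcases cs ga with h1 | h1 <;> rcases cs gb with h2 | h2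
  · exact Or.inl (cen_mem hY q aY gY tg (comm h1) (comm h2))
  · exact Or.inr (Or.inl (like hY q aY gY aY tg (tw4 q.a2 q.z2) h1 (by rw [h1]; group)
      (by rw [h2, aba q])))
  · exact Or.inr (Or.inr (Or.inl (like hY q aY gY bY tg (tw4 q.b2 q.z2) h2 (by rw [h1, bab q])
      (by rw [h2]; group))))
  · refine Or.inr (Or.inr (Or.inr (like hY q aY gY (mul_mem aY bY) tg (tw4 (ab2 q) q.z2) ?_ ?_ ?_)))
    · calc g * (a * b) * g⁻¹ = (g * a * g⁻¹) * (g * b * g⁻¹) := by group
        _ = z * (a * z) * b := by rw [h1, h2]; group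
        _ = (z * z) * (a * b) := by rw [← za q]; group
        _ = a * b := by rw [q.z2, one_mul]
    · calc g * a * g⁻¹ = a * z := by rw [h1, za q]
        _ = a * (z * a) * a⁻¹ := by group
        _ = a * b * a * (a * b)⁻¹ := by rw [← bab q]; group
    · calc g * b * g⁻¹ = a * b * a⁻¹ := by rw [h2, aba q]
        _ = a * b * b * (a * b)⁻¹ := by group

theorem ab_two {a b x : X} (c : Cf0 Y a b x)
    (hn : ∀ g v : X, v = a ∨ v = b → g * v * g⁻¹ = a ∨ g * v * g⁻¹ = b ∨ g * v * g⁻¹ = a * b) :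
    Out1 Y ∨ Out2 Y := by
  obtain ⟨k, r, hr, hN⟩ := Nat.exists_eq_pow_mul_and_not_dvd (orderOf_pos x).ne' 3 (by norm_num)
  obtain ⟨j, hj⟩ : ∃ j, r * r = 3 * j + 1 := by
    have h : r % 3 = 1 ∨ r % 3 = 2 := by omega
    refine ⟨r * r / 3, ?_⟩
    have h2 : r * r % 3 = 1 := by rcases h with h | h <;> simp [Nat.mul_mod, h]
    omega
  have f := fu_pow c.fu j
  have yY : x ^ (3 * j + 1) ∈ Y := pow_mem c.xY _
  have y3 : (x ^ (3 * j + 1)) ^ 3 ^ k = 1 := by
    rw [← hj, ← pow_mul, show r * r * 3 ^ k = 3 ^ k * r * r by ring, ← hN, pow_mul,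
      pow_orderOf_eq_one, one_pow]
  generalize x ^ (3 * j + 1) = y at f yY y3
  by_cases h : ∀ p : X, p * p = 1 → p * y = y * p → p = 1
  · exact Or.inl ⟨y, yY, pp_of_pow Nat.prime_three y3,
      Odd.of_dvd_nat (Odd.pow (by decide)) (orderOf_dvd_of_pow_eq_one y3), h⟩
  · push Not at h
    obtain ⟨p, p2, py, p1⟩ := h
    have e1 : p * b * p⁻¹ = y * (p * a * p⁻¹) * y⁻¹ := by
      calc p * b * p⁻¹ = (p * y) * a * (p * y)⁻¹ := by rw [← f.xa]; group
        _ = y * (p * a * p⁻¹) * y⁻¹ := by rw [py]; group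
    have e2 : p * (p * a * p⁻¹) * p⁻¹ = a := by
      calc p * (p * a * p⁻¹) * p⁻¹ = (p * p) * a * (p * p)⁻¹ := by group
        _ = a := by rw [p2]; group
    rcases hn p a (Or.inl rfl) with h | h | h
    · rw [h, f.xa] at e1
      exact Or.inr ⟨p, a, b, y, p2, p1,
        cfg_out ⟨f, c.aY, c.bY, yY, c.sc⟩ p2 p1 (comm h) (comm e1) py⟩
    · rw [h] at e1 e2
      rw [f.xb, e2] at e1
      exact absurd (mul_eq_left.1 e1.symm) f.four.nb
    · rw [h] at e1 e2
      rw [fu_xab f] at e1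
      have e3 : a * b * a = a := by
        calc a * b * a = (p * a * p⁻¹) * (p * b * p⁻¹) := by rw [h, e1]
          _ = p * (a * b) * p⁻¹ := by group
          _ = a := e2
      exact absurd (mul_eq_right.1 e3) f.four.nab

end H50.SQ
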