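import Cfsg.Agent.Lib.SQF.Defs

set_option autoImplicit false

namespace H50.SQ

open Subgroup H50.RC

universe u

variable {G : Type*} [Group G] [Finite G]

theorem pp_lift {X : Type*} [Group X] (f : G →* X) {H : Subgroup G} {y : X} (hy : y ∈ H.map f)
    (hp : PP y) : ∃ x ∈ H, f x = y ∧ PP x ∧ (Odd (orderOf y) → Odd (orderOf x)) := by
  obtain ⟨g, hg, rfl⟩ := hy
  obtain ⟨r, k, hr, hk⟩ := hp
  rcases Nat.eq_zero_or_pos k with rfl | hk0
  · have h1 : f g = 1 := by simpa using hk
    exact ⟨1, one_mem _, by rw [map_one, h1], ⟨2, 0, Nat.prime_two, by simp⟩, fun _ => by simp⟩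
  obtain ⟨t, q, hq, hN⟩ := Nat.exists_eq_pow_mul_and_not_dvd (orderOf_pos g).ne' r hr.ne_one
  have hc : Nat.Coprime (r ^ k) q :=
    Nat.Coprime.pow_left _ ((Nat.Prime.coprime_iff_not_dvd hr).2 hq)
  obtain ⟨m, hm1, hm2⟩ := Nat.chineseRemainder hc 1 0
  have hpow : (g ^ m) ^ r ^ t = 1 := by
    rw [← pow_mul]
    apply orderOf_dvd_iff_pow_eq_one.1
    rw [hN, mul_comm]
    exact Nat.mul_dvd_mul_right ((Nat.modEq_zero_iff_dvd).1 hm2) _
  refine ⟨g ^ m, pow_mem hg m, ?_, pp_of_pow hr hpow, fun ho => ?_⟩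
  · rw [map_pow]
    conv_rhs => rw [← pow_one (f g)]
    rw [pow_eq_pow_iff_modEq, hk]
    exact hm1
  · rw [hk] at ho
    have hro : Odd r := Odd.of_dvd_nat ho (dvd_pow_self r hk0.ne')
    exact Odd.of_dvd_nat hro.pow (orderOf_dvd_of_pow_eq_one hpow)

private theorem pp_coe {N : Subgroup G} {x : N} (hx : PP x) : PP (x : G) := by
  obtain ⟨r, k, hr, hk⟩ := hx
  exact ⟨r, k, hr, by rw [orderOf_coe, hk]⟩

private theorem pp_mk (N : Subgroup G) [N.Normal] {y : G ⧸ N} (hy : PP y) :
    ∃ x : G, (x : G ⧸ N) = y ∧ PP x := by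
  have hm : y ∈ (⊤ : Subgroup G).map (QuotientGroup.mk' N) := by
    obtain ⟨g, rfl⟩ := QuotientGroup.mk'_surjective N y
    exact ⟨g, mem_top _, rfl⟩
  obtain ⟨x, -, hx, hp, -⟩ := pp_lift (QuotientGroup.mk' N) hm hy
  exact ⟨x, hx, hp⟩

theorem HS.sub (h : HS G) (N : Subgroup G) [N.Normal] : HS N := by
  intro x hx
  exact (h (x : G) (pp_coe hx)).squarefree_of_dvd (H80.cs_subtype_dvd N x)

theorem HS.quot (h : HS G) (N : Subgroup G) [N.Normal] : HS (G ⧸ N) := by
  intro y hy
  obtain ⟨x, rfl, hx⟩ := pp_mk N hy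
  exact (h x hx).squarefree_of_dvd (H80.cs_mk_dvd N x)

theorem H4.sub (h : H4 G) (N : Subgroup G) [N.Normal] : H4 N := by
  intro x hx h4
  exact h (x : G) (pp_coe hx) (h4.trans (H80.cs_subtype_dvd N x))

theorem H4.quot (h : H4 G) (N : Subgroup G) [N.Normal] : H4 (G ⧸ N) := by
  intro y hy h4
  obtain ⟨x, rfl, hx⟩ := pp_mk N hy
  exact h x hx (h4.trans (H80.cs_mk_dvd N x))

theorem solvable_of (hs : ∀ (L : Type u) [Group L] [Finite L] [IsSimpleGroup L],
      ¬ IsMulCommutative L → ¬ H4 L)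
    (K : Type u) [Group K] [Finite K] (h : H4 K) : Group.IsSolvable K := by
  induction hn : Nat.card K using Nat.strong_induction_on generalizing K with
  | _ n ih =>
  by_cases hex : ∃ N : Subgroup K, N.Normal ∧ N ≠ ⊥ ∧ N ≠ ⊤
  · obtain ⟨N, hN, hb, ht⟩ := hex
    have hpos : 0 < Nat.card N := Nat.card_pos
    have hipos : 0 < N.index := Nat.pos_of_ne_zero N.index_ne_zero_of_finite
    have hmul : Nat.card N * N.index = Nat.card K := card_mul_index N
    have h1 : 1 < Nat.card N := (one_lt_card_iff_ne_bot N).2 hb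
    have h2 : 1 < N.index := by
      have : N.index ≠ 1 := fun e => ht (index_eq_one.1 e)
      omega
    have hA : Group.IsSolvable N := ih (Nat.card N) (by rw [← hn]; nlinarith) N (h.sub N) rfl
    have hB : Group.IsSolvable (K ⧸ N) :=
      ih (Nat.card (K ⧸ N)) (by rw [← hn, ← index_eq_card]; nlinarith) (K ⧸ N) (h.quot N) rfl
    exact Group.isSolvable_of_ker_le_range N.subtype (QuotientGroup.mk' N) (by simp)
  · rcases subsingleton_or_nontrivial K with hsub | hnt
    · infer_instance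
    have hsimple : IsSimpleGroup K :=
      ⟨fun N hN => by
        by_contra hcon
        push Not at hcon
        exact hex ⟨N, hN, hcon.1, hcon.2⟩⟩
    by_cases hc : IsMulCommutative K
    · exact Group.isSolvable_of_comm fun a b => hc.is_comm.comm a b
    · exact absurd h (hs K hc)

/-- the order of a nonabelian simple group is divisible by 4 -/
theorem four_dvd_card (L : Type*) [Group L] [Finite L] [IsSimpleGroup L]
    (hn : ¬ IsMulCommutative L) (he : Even (Nat.card L)) : 4 ∣ Nat.card L := by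
  by_contra h4
  have : Fact (Nat.Prime 2) := ⟨Nat.prime_two⟩
  obtain ⟨P⟩ : Nonempty (Sylow 2 L) := inferInstance
  have hmin : (Nat.card L).minFac = 2 := (Nat.minFac_eq_two_iff _).2 (even_iff_two_dvd.1 he)
  obtain ⟨k, hk⟩ := P.2.exists_card_eq
  have hd : Nat.card P ∣ Nat.card L := card_subgroup_dvd_card _
  have hmul : Nat.card P * P.index = Nat.card L := card_mul_index _
  have hP2 : Nat.card P = 2 := by
    have hk2 : k < 2 := by
      by_contra hk2
      exact h4 (((pow_dvd_pow 2 (not_lt.1 hk2)).trans (hk ▸ dvd_rfl)).trans hd)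
    have hk0 : k ≠ 0 := by
      rintro rfl
      apply P.not_dvd_index
      rw [hk, pow_zero, one_mul] at hmul
      rw [hmul]
      exact even_iff_two_dvd.1 he
    have : k = 1 := by omega
    rw [hk, this, pow_one]
  have hcyc : IsCyclic P := isCyclic_of_prime_card hP2
  have hcomp := IsCyclic.isComplement' hmin hcyc
  have hidx := hcomp.symm.index_eq_card
  rw [hP2] at hidx
  rcases (inferInstance : (MonoidHom.transferSylow P
    (hcyc.normalizer_le_centralizer hmin)).ker.Normal).eq_bot_or_eq_top with hb | ht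
  · rw [hb, index_bot] at hidx
    have : IsCyclic L := isCyclic_of_prime_card hidx
    exact hn inferInstance
  · rw [ht, index_top] at hidx
    exact absurd hidx (by decide)

end H50.SQ
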