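import Cfsg.Agent.Lib.SQF.Defs
import Cfsg.Prelude.Def_Involutions

set_option autoImplicit false

namespace H50.SQ

open Subgroup H50.RC

variable {G : Type*} [Group G] [Finite G]

namespace SEK

theorem mem_of_inv {M : Subgroup G} (hM : Cfsg.IsStronglyEmbedded M) {u g : G} (hu : u ∈ M) (u2 : u * u = 1)
    (u1 : u ≠ 1) (hg : g * u * g⁻¹ ∈ M) : g ∈ M := by
  by_contra hn
  have ho : orderOf (g * u * g⁻¹) = 2 := by
    refine orderOf_eq_prime ?_ fun e => u1 (by simpa using e)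
    rw [conj_pow, pow_two, u2]; simp
  have := Subgroup.orderOf_dvd_natCard (M ⊓ M.map (MulAut.conj g).toMonoidHom) (x := g * u * g⁻¹)
    ⟨hg, u, hu, rfl⟩
  rw [ho] at this
  exact (Nat.not_even_iff_odd.2 (hM.2.2 g hn)) (even_iff_two_dvd.2 this)

theorem exists_inv {H : Subgroup G} (h : 2 ∣ Nat.card H) : ∃ t ∈ H, t * t = 1 ∧ t ≠ 1 := by
  have : Fact (Nat.Prime 2) := ⟨Nat.prime_two⟩
  obtain ⟨t, ht⟩ := exists_prime_orderOf_dvd_card' 2 h
  refine ⟨t, t.2, ?_, fun e => ?_⟩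
  · have := pow_orderOf_eq_one t
    rw [ht, pow_two] at this
    exact congrArg Subtype.val this
  · rw [show t = 1 from Subtype.ext e, orderOf_one] at ht
    omega

theorem even_fix {H : Subgroup G} (h : 2 ∣ Nat.card H) {v : G} (v2 : v * v = 1)
    (hv : ∀ c ∈ H, v * c * v⁻¹ ∈ H) : 2 ∣ Nat.card ↥(H ⊓ centralizer {v}) := by
  classical
  have : Fact (Nat.Prime 2) := ⟨Nat.prime_two⟩
  have := Fintype.ofFinite H
  let f : Function.End H := fun c => ⟨_, hv c c.2⟩
  have hf : f ^ 2 ^ 1 = 1 := by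
    funext c
    refine Subtype.ext ?_
    change v * (v * c * v⁻¹) * v⁻¹ = c
    rw [show v * (v * c * v⁻¹) * v⁻¹ = (v * v) * c * (v * v)⁻¹ by group, v2]; simp
  have k := Equiv.Perm.card_fixedPoints_modEq hf
  rw [← Nat.card_eq_fintype_card, ← Nat.card_eq_fintype_card] at k
  have e : Nat.card f.fixedPoints = Nat.card ↥(H ⊓ centralizer {v}) :=
    Nat.card_congr
      ⟨fun c => ⟨c.1, c.1.2, mem_centralizer_singleton_iff.2
          (mul_inv_eq_iff_eq_mul.1 (congrArg Subtype.val c.2)).symm⟩,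
        fun c => ⟨⟨c.1, c.2.1⟩, Subtype.ext
          (mul_inv_eq_iff_eq_mul.2 (mem_centralizer_singleton_iff.1 c.2.2).symm)⟩,
        fun _ => rfl, fun _ => rfl⟩
  rw [← e]
  exact (k.dvd_iff dvd_rfl).1 h

end SEK

theorem sek (h : H4 G) (h4 : 4 ∣ Nat.card G) {M : Subgroup G} (hM : Cfsg.IsStronglyEmbedded M) :
    False := by
  obtain ⟨v, vM, v2, v1⟩ := SEK.exists_inv (even_iff_two_dvd.1 hM.2.1)
  obtain ⟨g, hg⟩ : ∃ g, g ∉ M := by
    by_contra! k
    exact hM.1 ((eq_top_iff' M).2 k)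
  have hv : v⁻¹ = v := inv_eq_of_mul_eq_one_right v2
  have he : v * (g * v * g⁻¹) ∈ M := by
    refine H80.mem_of_forall_isPElt_zpowers fun q x hq _ hx hz => ?_
    have hi : v * x * v⁻¹ = x⁻¹ := by
      obtain ⟨k, rfl⟩ := mem_zpowers_iff.1 hz
      rw [← conj_zpow, ← inv_zpow]
      congr 1
      rw [mul_inv_rev v, mul_inv_rev, mul_inv_rev, inv_inv, hv, ← mul_assoc, v2]
      group
    have h2 : 2 ∣ Nat.card (C x) := by
      obtain ⟨k, hk⟩ := hx
      have a := h x ⟨q, k, hq, hk⟩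
      rw [← (C x).card_mul_index] at h4
      by_contra hn
      have c : Nat.Coprime 4 (Nat.card (C x)) :=
        Nat.Coprime.pow_left 2 ((Nat.Prime.coprime_iff_not_dvd Nat.prime_two).2 hn)
      exact a (c.dvd_of_dvd_mul_left h4)
    obtain ⟨t, ⟨tx, tv⟩, t2, t1⟩ := SEK.exists_inv (SEK.even_fix h2 v2 fun c hc => by
      have c1 : c * x⁻¹ = x⁻¹ * c := (Commute.inv_right (mem_centralizer_singleton_iff.1 hc :)).eq
      have c2 : v⁻¹ * x * v = x⁻¹ := by rw [← hi, hv]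
      refine mem_centralizer_singleton_iff.2 ?_
      calc v * c * v⁻¹ * x = v * (c * (v⁻¹ * x * v)) * v⁻¹ := by group
        _ = v * ((v⁻¹ * x * v) * c) * v⁻¹ := by rw [c2, c1]
        _ = _ := by group)
    have tM : t ∈ M := SEK.mem_of_inv hM vM v2 v1 (by
      rw [mem_centralizer_singleton_iff.1 tv, mul_inv_cancel_right]; exact vM)
    exact SEK.mem_of_inv hM tM t2 t1 (by
      rw [← mem_centralizer_singleton_iff.1 tx, mul_inv_cancel_right]; exact tM)
  exact hg (SEK.mem_of_inv hM vM v2 v1 ((mul_mem_cancel_left vM).1 he))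

end H50.SQ
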