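import Cfsg.Agent.Lib.SQF.Red
import Cfsg.Agent.Lib.FGS.SqFree

set_option autoImplicit false
set_option linter.style.haveILetI false

namespace H50.SQ

open Subgroup H50.RC

variable {G : Type*} [Group G] [Finite G]

namespace Sol1

open H80 H78.SqFree
open scoped IsMulCommutative

theorem sq_range (h : HS G) (N : Subgroup G) [N.Normal] [IsMulCommutative N] {r : ℕ}
    (hr : r.Prime) {x : G} (hx : x ^ r ∈ centralizer (N : Set G)) :
    Squarefree (Nat.card (phi (MulAut.conjNormal x : MulAut N)).range) := by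
  have hp : PP (MulAut.conjNormal x : MulAut N) := by
    have h1 : (MulAut.conjNormal x : MulAut N) ^ r = 1 := by
      rw [← map_pow, conjNormal_eq_one_iff]
      exact hx
    rcases (Nat.dvd_prime hr).mp (orderOf_dvd_of_pow_eq_one h1) with e | e
    · exact ⟨r, 0, hr, by rw [e, pow_zero]⟩
    · exact ⟨r, 1, hr, by rw [e, pow_one]⟩
  obtain ⟨y, -, hy, hpy, -⟩ := pp_lift (MulAut.conjNormal : G →* MulAut N) (H := ⊤)
    ⟨x, mem_top x, rfl⟩ hp
  rw [← hy]
  exact (h y hpy).squarefree_of_dvd (card_range_dvd N y)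

theorem card_eq (h : HS G) {p : ℕ} [hp : Fact p.Prime] (N : Subgroup G) [N.Normal]
    [IsMulCommutative N] (hV : IsPGroup p N) {r : ℕ} (hr : r.Prime) {x : G}
    (hx : x ^ r ∈ centralizer (N : Set G)) (hx' : x ∉ centralizer (N : Set G)) :
    Nat.card (phi (MulAut.conjNormal x : MulAut N)).range = p := by
  obtain ⟨k, hk⟩ := (hV.to_subgroup (phi (MulAut.conjNormal x : MulAut N)).range).exists_card_eq
  refine (eq_one_or_prime hp.out hk.dvd (sq_range h N hr hx)).resolve_left ?_
  rw [card_range, relIndex_eq_one, le_Cx_iff]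
  exact hx'

theorem card_prime' [Group.IsSolvable G] (h : HS G) {N : Subgroup G} (hN : H3.IsMinNormal N) :
    (Nat.card N).Prime := by
  haveI := hN.normal
  obtain ⟨hc, p, hp, hd, hpow, hNp⟩ := hN.elementary inferInstance
  haveI : Fact p.Prime := ⟨hp⟩
  by_cases hZ : centralizer (N : Set G) = ⊤
  · obtain ⟨x, hx⟩ := exists_prime_orderOf_dvd_card' p hd
    have h1 : (zpowers (x : G)).Normal := H21.zpowers_normal_of_mem_center (by
      rw [mem_center_iff]
      intro g
      exact (mem_centralizer_iff.mp (hZ.ge (mem_top g)) x x.2).symm)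
    rcases hN.eq_bot_or_eq _ h1 (zpowers_le.mpr x.2) with e | e
    · rw [zpowers_eq_bot, OneMemClass.coe_eq_one] at e
      rw [e, orderOf_one] at hx
      exact absurd hx hp.one_lt.ne
    · rw [← e, Nat.card_zpowers, orderOf_coe, hx]
      exact hp
  set K := centralizer (N : Set G) with hK
  haveI : Nontrivial (G ⧸ K) := QuotientGroup.nontrivial_iff.mpr hZ
  obtain ⟨B, hB, -, hBc, r, hr, -, hBr, -⟩ :=
    H3.exists_normal_elementary_le (⊤ : Subgroup (G ⧸ K)) top_ne_bot inferInstance
  haveI := hB.normal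
  let M : Subgroup G := B.comap (QuotientGroup.mk' K)
  have hMr' : ∀ x ∈ M, x ^ r ∈ K := by
    intro x hx
    rw [← QuotientGroup.eq_one_iff, QuotientGroup.mk_pow]
    exact hBr _ hx
  have hMr : ∀ x ∈ M, (MulAut.conjNormal x : MulAut N) ^ r = 1 := by
    intro x hx
    rw [← map_pow, conjNormal_eq_one_iff]
    exact hMr' x hx
  have hMK : ¬ M ≤ K := by
    intro hle
    apply hB.ne_bot
    rw [eq_bot_iff]
    intro b hb
    obtain ⟨g, rfl⟩ := QuotientGroup.mk_surjective b
    exact (QuotientGroup.eq_one_iff g).mpr (hle hb)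
  have hrp : r ≠ p := by
    rintro rfl
    have hA : IsPGroup r (M.map (MulAut.conjNormal : G →* MulAut N)) := by
      rintro ⟨_, x, hx, rfl⟩
      exact ⟨1, Subtype.ext (by rw [pow_one]; exact hMr x hx)⟩
    obtain ⟨b, hb, hb1⟩ := hA.exists_fixed_point_of_prime_dvd_card_of_fixed_point N hd
      (a := 1) (fun g => smul_one g)
    rcases hN.eq_bot_or_eq (N ⊓ centralizer (M : Set G)) inferInstance inf_le_left with e | e
    · have : (b : G) ∈ N ⊓ centralizer (M : Set G) := ⟨b.2, mem_centralizer_iff.mpr fun g hg =>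
        mul_inv_eq_iff_eq_mul.mp (congrArg Subtype.val (hb ⟨_, g, hg, rfl⟩))⟩
      rw [e] at this
      exact hb1 (Subtype.ext this.symm)
    · exact hMK (le_centralizer_iff.mp (inf_eq_left.mp e))
  have hnot : ∀ x ∈ M, x ∉ K → ¬ (phi (MulAut.conjNormal x : MulAut N)).range ≤
      (phi (MulAut.conjNormal x : MulAut N)).ker := by
    intro x hx hxK hle
    apply hxK
    rw [hK, ← conjNormal_eq_one_iff, ← orderOf_eq_one_iff]
    refine Nat.eq_one_of_dvd_coprimes ((Nat.coprime_primes hr hp).mpr hrp)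
      (orderOf_dvd_of_pow_eq_one (hMr x hx)) (orderOf_dvd_of_pow_eq_one ?_)
    ext1 v
    rw [H5.aut_pow_apply_of_apply_eq_mul _ (c := phi (MulAut.conjNormal x : MulAut N) v)
      (by rw [phi_apply, mul_comm, inv_mul_cancel_right]) (mem_ker_phi.mp (hle ⟨v, rfl⟩)),
      MulAut.one_apply, mul_eq_left]
    exact Subtype.ext (hpow _ (SetLike.coe_mem _))
  obtain ⟨x, hxM, hxK⟩ := SetLike.not_le_iff_exists.mp hMK
  have hcard := card_eq h N hNp hr (hMr' x hxM) hxK
  have hn := normal_map_range N x (fun g => by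
    by_contra hne
    have hgM : g * x * g⁻¹ ∈ M := Normal.conj_mem inferInstance x hxM g
    have hgK : g * x * g⁻¹ ∉ K := fun e => hxK (by
      have := Normal.conj_mem inferInstance _ e g⁻¹
      simpa [mul_assoc] using this)
    have h1 := lines hp (commute_conjNormal N (by
      rw [← hK, ← QuotientGroup.eq_one_iff]
      have := congrArg Subtype.val (mul_comm' (⟨_, hgM⟩ : B) ⟨_, hxM⟩)
      exact (map_commutatorElement (QuotientGroup.mk' K) _ _).trans
        (commutatorElement_eq_one_iff_mul_comm.mpr this)))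
      (card_eq h N hNp hr (hMr' _ hgM) hgK) hcard hne (hnot _ hgM hgK) (hnot _ hxM hxK)
    rw [← map_mul] at h1
    exact not_sq_dvd hp (sq_range h N hr (hMr' _ (M.mul_mem hgM hxM))) h1)
  have hc2 := (card_map_of_injective (K := (phi (MulAut.conjNormal x : MulAut N)).range)
    N.subtype_injective).trans hcard
  rcases hN.eq_bot_or_eq _ hn (map_subtype_le _) with e | e
  · rw [e, card_bot] at hc2
    exact absurd hc2 hp.one_lt.ne
  · rw [e] at hc2
    exact hc2 ▸ hp

end Sol1

theorem card_prime [Group.IsSolvable G] (h : HS G) {N : Subgroup G} (hN : H3.IsMinNormal N) :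
    (Nat.card N).Prime := by
  exact Sol1.card_prime' h hN

theorem supersolvable [Group.IsSolvable G] (h : HS G) : Cfsg.IsSupersolvable G := by
  refine H21.isSupersolvable_of_forall_quotient fun N _ hN => ?_
  haveI : Nontrivial (G ⧸ N) := QuotientGroup.nontrivial_iff.mpr hN
  obtain ⟨V, hV, -⟩ := H3.exists_isMinNormal_le (⊤ : Subgroup (G ⧸ N)) top_ne_bot
  have hp := card_prime (h.quot N) hV
  haveI : Fact (Nat.card V).Prime := ⟨hp⟩
  obtain ⟨x, hx⟩ := exists_prime_orderOf_dvd_card' (G := V) (Nat.card V) dvd_rfl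
  have e : zpowers (x : G ⧸ N) = V :=
    eq_of_le_of_card_ge (zpowers_le.mpr x.2) (by rw [Nat.card_zpowers, orderOf_coe, hx])
  refine ⟨x, ?_, by rw [e]; exact hV.normal⟩
  intro e1
  rw [OneMemClass.coe_eq_one] at e1
  rw [e1, orderOf_one] at hx
  exact hp.one_lt.ne hx

end H50.SQ
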