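import Cfsg.Agent.Lib.SQF.Sol1
import Cfsg.Agent.Lib.Core.Fitting
import Cfsg.Agent.Lib.Solv.Supersolvable

set_option autoImplicit false

namespace H50.SQ

open Subgroup H50.RC

namespace Sol2

universe u

theorem sqf_dvd {i m : ℕ} (hi : Squarefree i) (h : ∀ p : ℕ, p.Prime → p ∣ i → p ∣ m) : i ∣ m := by
  rw [← Nat.prod_primeFactors_of_squarefree hi]
  exact Finset.prod_primes_dvd m (fun a ha => (Nat.prime_of_mem_primeFactors ha).prime)
    fun a ha => h a (Nat.prime_of_mem_primeFactors ha) (Nat.dvd_of_mem_primeFactors ha)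

theorem aux (m : ℕ) (n : ℕ) : ∀ (G : Type u) [Group G] [Finite G] [Group.IsSolvable G],
    Nat.card G = n → HS G → (∀ p : ℕ, p.Prime → p ∣ Nat.card G → p ∣ m) →
    Group.IsNilpotent ↥(_root_.commutator G ⊔ closure {x : G | ∃ g : G, x = g ^ m}) := by
  induction n using Nat.strong_induction_on with
  | _ n ih =>
  intro G _ _ _ hn h hm
  rcases subsingleton_or_nontrivial G with hs | hs
  · infer_instance
  obtain ⟨V, hV⟩ := H3.exists_isMinNormal G
  haveI := hV.normal
  have hp := card_prime h hV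
  obtain ⟨v, hvV, hv1⟩ : ∃ v ∈ V, v ≠ 1 := by
    by_contra hc
    push Not at hc
    exact hV.ne_bot ((eq_bot_iff_forall _).2 hc)
  have hle : zpowers v ≤ V := by rwa [zpowers_le]
  have hzv : zpowers v = V := by
    rcases (Nat.dvd_prime hp).1 (card_dvd_of_le hle) with e | e
    · exact absurd (zpowers_eq_bot.1 (card_eq_one.1 e)) hv1
    · exact eq_of_le_of_card_ge hle e.ge
  have hov : orderOf v = Nat.card V := by rw [← hzv, Nat.card_zpowers]
  have hC : centralizer (V : Set G) = C v := by
    ext g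
    rw [mem_C, mem_centralizer_iff]
    constructor
    · intro hg
      exact (hg v hvV).symm
    · intro hg w hw
      rw [← hzv] at hw
      obtain ⟨k, rfl⟩ := hw
      exact ((show Commute g v from hg).zpow_right k).symm
  have hsq : Squarefree (centralizer (V : Set G)).index := by
    rw [hC]
    exact h v ⟨Nat.card V, 1, hp, by rw [pow_one, hov]⟩
  have him : (centralizer (V : Set G)).index ∣ m :=
    sqf_dvd hsq fun p hp' hd => hm p hp' (hd.trans (index_dvd_card _))
  have hNC : _root_.commutator G ⊔ closure {x : G | ∃ g : G, x = g ^ m} ≤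
      centralizer (V : Set G) := by
    refine sup_le ?_ ?_
    · have := H21.commutator_le_centralizer_zpowers (g := v) (by rw [hzv]; exact hV.normal)
      rwa [hzv] at this
    · rw [closure_le]
      rintro _ ⟨g, rfl⟩
      obtain ⟨k, rfl⟩ := him
      rw [pow_mul]
      exact pow_mem (pow_index_mem _ g) k
  have hlt : Nat.card (G ⧸ V) < n := by
    rw [← hn, card_eq_card_quotient_mul_card_subgroup V]
    exact lt_mul_of_one_lt_right Nat.card_pos hp.one_lt
  haveI := ih _ hlt (G ⧸ V) rfl (h.quot V)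
    fun p hp' hd => hm p hp' (hd.trans (card_quotient_dvd_card V))
  have hmap : ∀ x ∈ _root_.commutator G ⊔ closure {x : G | ∃ g : G, x = g ^ m},
      QuotientGroup.mk' V x ∈
        _root_.commutator (G ⧸ V) ⊔ closure {x : G ⧸ V | ∃ g : G ⧸ V, x = g ^ m} := by
    intro x hx
    have : _root_.commutator G ⊔ closure {x : G | ∃ g : G, x = g ^ m} ≤
        (_root_.commutator (G ⧸ V) ⊔ closure {x : G ⧸ V | ∃ g : G ⧸ V, x = g ^ m}).comap
          (QuotientGroup.mk' V) := by
      refine sup_le ?_ ?_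
      · rw [← map_le_iff_le_comap, _root_.commutator_def, map_commutator]
        exact le_sup_of_le_left (commutator_mono le_top le_top)
      · rw [closure_le]
        rintro _ ⟨g, rfl⟩
        exact mem_sup_right (subset_closure ⟨QuotientGroup.mk' V g, map_pow _ _ _⟩)
    exact this hx
  refine Subgroup.isNilpotent_of_ker_le_center
    (((QuotientGroup.mk' V).comp (Subgroup.subtype _)).codRestrict _ fun x => hmap x.1 x.2) ?_
  intro x hx
  have hxV : (x : G) ∈ V := by
    have : QuotientGroup.mk' V (x : G) = 1 := congrArg Subtype.val (MonoidHom.mem_ker.1 hx)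
    exact (QuotientGroup.eq_one_iff _).1 this
  rw [mem_center_iff]
  intro y
  exact Subtype.ext ((mem_centralizer_iff.1 (hNC y.2)) _ hxV).symm

theorem le_fit {G : Type*} [Group G] [Finite G] [Group.IsSolvable G] (h : HS G) (m : ℕ)
    (hm : ∀ p : ℕ, p.Prime → p ∣ Nat.card G → p ∣ m) :
    _root_.commutator G ⊔ closure {x : G | ∃ g : G, x = g ^ m} ≤ Cfsg.fittingSubgroup G := by
  haveI : (_root_.commutator G ⊔ closure {x : G | ∃ g : G, x = g ^ m}).Normal :=
    Subgroup.Normal.of_commutator_le G le_sup_left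
  exact H1.le_fitting (aux m _ G rfl h hm)

theorem dvd_rad {n : ℕ} (hn : n ≠ 0) (p : ℕ) (hp : p.Prime) (hd : p ∣ n) :
    p ∣ ∏ q ∈ n.primeFactors, q :=
  Finset.dvd_prod_of_mem (fun q => q) (Nat.mem_primeFactors.2 ⟨hp, hd, hn⟩)

end Sol2

variable {G : Type*} [Group G] [Finite G]

theorem nil_pow [Group.IsSolvable G] (h : HS G) (m : ℕ)
    (hm : ∀ p : ℕ, p.Prime → p ∣ Nat.card G → p ∣ m) :
    Group.IsNilpotent ↥(_root_.commutator G ⊔ closure {x : G | ∃ g : G, x = g ^ m}) :=
  Sol2.aux m _ G rfl h hm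

theorem commutator_le_fit [Group.IsSolvable G] (h : HS G) :
    _root_.commutator G ≤ Cfsg.fittingSubgroup G :=
  le_sup_left.trans (Sol2.le_fit h _ (Sol2.dvd_rad Nat.card_pos.ne'))

theorem quot_fit [Group.IsSolvable G] (h : HS G) (_h : (Cfsg.fittingSubgroup G).Normal) :
    IsMulCommutative (G ⧸ Cfsg.fittingSubgroup G) ∧
      Squarefree (Monoid.exponent (G ⧸ Cfsg.fittingSubgroup G)) := by
  refine ⟨?_, ?_⟩
  · exact Subgroup.Normal.quotient_commutative_iff_commutator_le.2 (commutator_le_fit h)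
  · have hle := Sol2.le_fit h _ (Sol2.dvd_rad (Nat.card_pos (α := G)).ne')
    have hd : Monoid.exponent (G ⧸ Cfsg.fittingSubgroup G) ∣
        ∏ q ∈ (Nat.card G).primeFactors, q := by
      rw [Monoid.exponent_dvd_iff_forall_pow_eq_one]
      intro y
      obtain ⟨g, rfl⟩ := QuotientGroup.mk_surjective y
      rw [← QuotientGroup.mk_pow, QuotientGroup.eq_one_iff]
      exact hle (mem_sup_right (subset_closure ⟨g, rfl⟩))
    refine Squarefree.squarefree_of_dvd hd ?_
    refine Finset.squarefree_prod_of_pairwise_isCoprime ?_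
      fun q hq => (Nat.prime_of_mem_primeFactors hq).prime.squarefree
    intro a ha b hb hab
    exact Nat.coprime_iff_isRelPrime.1 ((Nat.coprime_primes (Nat.prime_of_mem_primeFactors ha)
      (Nat.prime_of_mem_primeFactors hb)).2 hab)

end H50.SQ
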