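import Cfsg.Agent.Lib.SQF.Red
import Cfsg.Agent.Lib.FGS.SqFree

set_option autoImplicit false

namespace H50.SQ

open Subgroup H50.RC

variable {G : Type*} [Group G] [Finite G]

theorem sq_nil [Group.IsNilpotent G] (h : HS G) (x : G) : Squarefree (C x).index := by
  rw [Nat.squarefree_iff_prime_squarefree]
  intro p hp hd
  have : Fact p.Prime := ⟨hp⟩
  obtain ⟨P⟩ : Nonempty (Sylow p G) := inferInstance
  obtain ⟨u, hu⟩ := H35.exists_isPPart_of_isOfFinOrder (p := p) (isOfFinOrder_of_finite x)
  have hy : u⁻¹ * x ∈ centralizer ((P : Subgroup G) : Set G) := by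
    refine H80.mem_of_forall_isPElt_zpowers fun q z hq hqd hz _ => ?_
    have : Fact q.Prime := ⟨hq⟩
    have ne : p ≠ q := fun e => H35.not_dvd_of_isPPart hu (e ▸ hqd)
    obtain ⟨Q, hQ⟩ := hz.exists_sylow
    exact mem_centralizer_iff.2 fun g hg => commute_of_normal_of_disjoint _ _ inferInstance
      inferInstance (IsPGroup.disjoint_of_ne p q ne _ _ P.isPGroup' Q.isPGroup') g z hg hQ
  have e : C x ⊓ (P : Subgroup G) = C u ⊓ P := by
    apply le_antisymm
    · exact fun g hg => ⟨mem_C.2 (H35.commute_of_isPPart_of_commute hu (mem_C.1 hg.1)), hg.2⟩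
    · refine fun g hg => ⟨mem_C.2 ?_, hg.2⟩
      have h1 := mem_centralizer_iff.1 hy g hg.2
      calc g * x = g * u * (u⁻¹ * x) := by group
        _ = u * (g * (u⁻¹ * x)) := by rw [mem_C.1 hg.1, mul_assoc]
        _ = x * g := by rw [h1]; group
  have h1 : (C x).index ∣ (C u).relIndex P * (P : Subgroup G).index := by
    rw [← inf_relIndex_right, ← e, relIndex_mul_index inf_le_right]
    exact index_dvd_of_le inf_le_left
  have h2 : p * p ∣ (C u).relIndex P := by
    have c : p.Coprime (P : Subgroup G).index := (Nat.Prime.coprime_iff_not_dvd hp).2 P.not_dvd_index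
    exact (Nat.Coprime.mul_left c c).dvd_of_dvd_mul_right (hd.trans h1)
  obtain ⟨k, hk⟩ := H35.isPElt_iff_pow.1 (H35.isPElt_of_isPPart hu)
  exact Nat.squarefree_iff_prime_squarefree.1 (h u (pp_of_pow hp hk)) p hp
    (h2.trans (H80.relIndex_Cx_dvd_cs _ u))

theorem sq_fit (h : HS G) : IsCyclic (_root_.commutator ↥(Cfsg.fittingSubgroup G)) ∧
    Squarefree (Nat.card (_root_.commutator ↥(Cfsg.fittingSubgroup G))) := by
  have : Group.IsNilpotent (Cfsg.fittingSubgroup G) := H1.isNilpotent_fitting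
  exact H78.SqFree.commutator_cyclic_squarefree _ _ rfl (sq_nil (h.sub _))

theorem der3 (h : HS G) (hle : _root_.commutator G ≤ Cfsg.fittingSubgroup G) :
    derivedSeries G 3 = ⊥ := by
  have hc := (sq_fit h).1
  set F := Cfsg.fittingSubgroup G
  have h2 : derivedSeries G 2 ≤ (_root_.commutator F).map F.subtype := by
    rw [_root_.commutator_def, map_commutator, ← MonoidHom.range_eq_map, range_subtype]
    exact commutator_mono hle hle
  rw [eq_bot_iff, derivedSeries_succ]
  refine (commutator_mono h2 h2).trans (commutator_le.2 ?_)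
  rintro _ ⟨a, ha, rfl⟩ _ ⟨b, hb, rfl⟩
  rw [mem_bot, commutatorElement_eq_one_iff_mul_comm, ← map_mul, ← map_mul]
  have := hc.isMulCommutative
  exact congrArg (fun z : _root_.commutator F => F.subtype z) (mul_comm' (⟨a, ha⟩ : _root_.commutator F) ⟨b, hb⟩)

end H50.SQ
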