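import Cfsg.Agent.Lib.SQF.SE

set_option autoImplicit false

namespace H50.SQ

open Subgroup H50.RC

variable {G : Type*} [Group G] [Finite G] {A S E M : Subgroup G} {h : G}

omit [Finite G] in
private theorem bb_conj {w0 : G} (hb : Bb S w0) {s d : G} (hs : s ∈ S) (hd : d ∈ S ⊓ C w0) :
    s * d * s⁻¹ ∈ S ⊓ C w0 := by
  refine ⟨S.mul_mem (S.mul_mem hs hd.1) (S.inv_mem hs), ?_⟩
  have hd2 : d ∈ C w0 := hd.2
  change s * d * s⁻¹ ∈ C w0
  by_cases hsC : s ∈ C w0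
  · exact mul_mem (mul_mem hsC hd2) (inv_mem hsC)
  · rcases hb.2 (s * d) (mul_mem hs hd.1) s⁻¹ (inv_mem hs) with h1 | h1 | h1
    · exact absurd ((mul_mem_cancel_right hd2).1 h1) hsC
    · exact absurd (inv_mem_iff.1 h1) hsC
    · exact h1

omit [Finite G] in
private theorem z_conj {w0 : G} (hb : Bb S w0) {s z : G} (hs : s ∈ S)
    (hz : z ∈ S ⊓ centralizer ((S ⊓ C w0 : Subgroup G) : Set G)) :
    s * z * s⁻¹ ∈ S ⊓ centralizer ((S ⊓ C w0 : Subgroup G) : Set G) := by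
  refine ⟨S.mul_mem (S.mul_mem hs hz.1) (S.inv_mem hs), ?_⟩
  have hz2 : z ∈ centralizer ((S ⊓ C w0 : Subgroup G) : Set G) := hz.2
  change s * z * s⁻¹ ∈ centralizer ((S ⊓ C w0 : Subgroup G) : Set G)
  rw [mem_centralizer_iff] at hz2 ⊢
  intro d hd
  have e := hz2 _ (bb_conj hb (inv_mem hs) hd)
  calc d * (s * z * s⁻¹) = s * (s⁻¹ * d * s⁻¹⁻¹ * z) * s⁻¹ := by group
    _ = s * z * s⁻¹ * d := by rw [e]; group

theorem BPD.exists_w (d : BPD A S E M h) {w0 : G} (hb : Bb S w0) (hE : w0 ∉ E) :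
    ∃ w : G, Bb S w ∧ w ∈ normalizer (E : Set G) ∧ w ∉ E ∧ w * w ∈ E := by
  set Z : Subgroup G := S ⊓ centralizer ((S ⊓ C w0 : Subgroup G) : Set G) with hZ
  have w0Z : w0 ∈ Z := by
    refine ⟨hb.1, ?_⟩
    change w0 ∈ centralizer ((S ⊓ C w0 : Subgroup G) : Set G)
    rw [mem_centralizer_iff]
    intro g hg
    exact mem_C.1 hg.2
  have hle : E ⊔ Z ≤ S := sup_le d.lt.le inf_le_left
  have hlt : E < E ⊔ Z := lt_of_le_of_ne le_sup_left fun e => hE (e ▸ mem_sup_right w0Z)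
  have hn : E ≤ normalizer (Z : Set G) := by
    intro e he
    have heS := d.lt.le he
    rw [mem_normalizer_iff]
    intro z
    refine ⟨fun hz => z_conj hb heS hz, fun hz => ?_⟩
    have := z_conj hb (inv_mem heS) hz
    have e1 : e⁻¹ * (e * z * e⁻¹) * e⁻¹⁻¹ = z := by group
    rwa [e1] at this
  obtain ⟨g, hg, gE, g2, gN⟩ := exists_norm (d.two.to_le hle) hlt
  have hg' : g ∈ ((E ⊔ Z : Subgroup G) : Set G) := hg
  rw [coe_mul_of_left_le_normalizer_right E Z hn] at hg'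
  obtain ⟨e, he, w, hw, rfl⟩ := hg'
  have he : e ∈ E := he
  have hw : w ∈ Z := hw
  have eN : e ∈ normalizer (E : Set G) := le_normalizer he
  have wN : w ∈ normalizer (E : Set G) := (mul_mem_cancel_left eN).1 gN
  have hc : ∀ s ∈ S, s ∈ C w0 → s ∈ C w := fun s hs hs' =>
    mem_C.2 (mem_centralizer_iff.1 hw.2 s ⟨hs, hs'⟩)
  refine ⟨w, ⟨hw.1, fun s hs s' hs' => ?_⟩, wN, fun hwE => gE (mul_mem he hwE), ?_⟩
  · rcases hb.2 s hs s' hs' with h1 | h1 | h1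
    · exact Or.inl (hc s hs h1)
    · exact Or.inr (Or.inl (hc s' hs' h1))
    · exact Or.inr (Or.inr (hc _ (mul_mem hs hs') h1))
  · have e1 : w * w = (w * e * w⁻¹)⁻¹ * (e⁻¹ * (e * w * (e * w))) := by group
    rw [e1]
    exact mul_mem (inv_mem ((mem_normalizer_iff.1 wN e).1 he)) (mul_mem (inv_mem he) g2)

/-- an element of odd order acting trivially on `F` and on `E / F` centralises `E` -/
theorem odd_cen {E F : Subgroup G} (hF : IsPGroup 2 F) {x : G} (hx : Odd (orderOf x))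
    (xF : x ∈ centralizer (F : Set G)) (xE : ∀ e ∈ E, x * e * x⁻¹ * e⁻¹ ∈ F) :
    x ∈ centralizer (E : Set G) := by
  rw [mem_centralizer_iff]
  intro e he
  have hf := xE e he
  set f := x * e * x⁻¹ * e⁻¹ with hfd
  have hc : Commute f x := mem_centralizer_iff.1 xF f hf
  have e0 : x * e * x⁻¹ = f * e := by rw [hfd]; group
  have key : ∀ i : ℕ, x ^ i * e * (x ^ i)⁻¹ = f ^ i * e := by
    intro i
    induction i with
    | zero => simp
    | succ i ih =>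
      calc x ^ (i + 1) * e * (x ^ (i + 1))⁻¹ = x * (x ^ i * e * (x ^ i)⁻¹) * x⁻¹ := by group
        _ = (x * f ^ i) * e * x⁻¹ := by rw [ih]; group
        _ = f ^ i * (x * e * x⁻¹) := by rw [← (hc.pow_left i).eq]; group
        _ = f ^ (i + 1) * e := by rw [e0]; group
  have k1 := key (orderOf x)
  rw [pow_orderOf_eq_one, inv_one, one_mul, mul_one] at k1
  have k2 : f ^ orderOf x = 1 := by simpa using k1.symm
  have f1 : f = 1 :=
    eq_one_of_tw_odd (tw_of_mem hF hf) (Odd.of_dvd_nat hx (orderOf_dvd_of_pow_eq_one k2))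
  rw [f1, one_mul] at e0
  calc e * x = x * e * x⁻¹ * x := by rw [e0]
    _ = x * e := by group

theorem BPD.exists_x (d : BPD A S E M h) {w : G} (wS : w ∈ S) (wN : w ∈ normalizer (E : Set G))
    (wE : w ∉ E) (w2 : w * w ∈ E) :
    ∃ x : G, Odd (orderOf x) ∧ x ∈ zpowers (w * (h⁻¹ * w * h)) ∧ x ∉ M := by
  have wM : w ∈ M := d.le ⟨wS, wN⟩
  have sM : h⁻¹ * w * h ∉ M := d.nm wM (tw_of_mem d.two wS) wE
  have sN : h⁻¹ * w * h ∈ normalizer (E : Set G) := mul_mem (mul_mem (inv_mem d.hN) wN) d.hN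
  have s2 : h⁻¹ * w * h * (h⁻¹ * w * h) ∈ E := by
    have := (mem_normalizer_iff.1 (inv_mem d.hN) (w * w)).1 w2
    have e1 : h⁻¹ * w * h * (h⁻¹ * w * h) = h⁻¹ * (w * w) * h⁻¹⁻¹ := by group
    rw [e1]
    exact this
  obtain ⟨k, hk, hE⟩ := d.odd wM wE w2 sN sM s2
  obtain ⟨m, n, ty, ox, e⟩ := exists_parts (w * (h⁻¹ * w * h))
  refine ⟨_, ox, npow_mem_zpowers _ _, fun xM => sM ?_⟩
  have yk : ((w * (h⁻¹ * w * h)) ^ m) ^ k ∈ E := by
    rw [← pow_mul, mul_comm m k, pow_mul]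
    exact pow_mem hE m
  have yE : (w * (h⁻¹ * w * h)) ^ m ∈ E := by
    obtain ⟨t, ht⟩ := ty
    have hcp : k.Coprime (orderOf ((w * (h⁻¹ * w * h)) ^ m)) :=
      (Nat.Coprime.pow_right t (Nat.coprime_two_right.2 hk)).coprime_dvd_right
        (orderOf_dvd_of_pow_eq_one ht)
    obtain ⟨j, hj⟩ := exists_pow_eq_self_of_coprime hcp
    rw [← hj]
    exact pow_mem yk j
  have : w * (h⁻¹ * w * h) ∈ M := by
    rw [e]
    exact mul_mem (d.eM yE) xM
  exact (mul_mem_cancel_left wM).1 this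

end H50.SQ
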