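import Cfsg.Agent.Lib.SQF.TB1
import Cfsg.Agent.Lib.SQF.V4

set_option autoImplicit false

namespace H50.SQ

open Subgroup H50.RC

namespace TB2

section abs

variable {E : Type*} [Group E] [Finite E]

/-- an automorphism of odd order fixing `K` pointwise and moving a coset of `K` -/
theorem core {K : Subgroup E} [K.Normal] (h2 : ∀ e : E, e * e ∈ K) (h4 : K.index ≤ 4)
    (φ : MulAut E) {k : ℕ} (hk : Odd k) (hφ : φ ^ k = 1) (hK : ∀ f ∈ K, φ f = f) {e : E}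
    (he : φ e * e⁻¹ ∉ K) :
    ∃ a : E, (∀ f ∈ K, f * a = a * f) ∧ a * φ a * a⁻¹ * (φ a)⁻¹ ∈ K ∧ a ∉ K ∧ φ a ∉ K ∧
      a * φ a ∉ K ∧ φ (φ a) * (a * φ a)⁻¹ ∈ K ∧
      ∀ v : E, v ∈ K ∨ v * a⁻¹ ∈ K ∨ v * (φ a)⁻¹ ∈ K ∨ v * (a * φ a)⁻¹ ∈ K := by
  have hmap : K.map (φ : E →* E) = K := by
    ext u
    constructor
    · rintro ⟨f, hf, rfl⟩
      change φ f ∈ K
      rw [hK f hf]; exact hf
    · intro hu
      exact ⟨u, hu, hK u hu⟩
  let σ : MulAut (E ⧸ K) := QuotientGroup.congr K K φ hmap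
  let π : E →* E ⧸ K := QuotientGroup.mk' K
  have hπ : ∀ u : E, π (φ u) = σ (π u) := fun u => rfl
  have hm : ∀ u : E, u ∈ K ↔ π u = 1 := fun u => (QuotientGroup.eq_one_iff u).symm
  have hm' : ∀ u v : E, u * v⁻¹ ∈ K ↔ π u = π v := fun u v => by
    rw [hm, map_mul, map_inv, mul_inv_eq_one]
  have hpow : ∀ n : ℕ, ∀ u : E, π ((φ ^ n) u) = (σ ^ n) (π u) := by
    intro n
    induction n with
    | zero => intro u; simp
    | succ n ih => intro u; rw [pow_succ', pow_succ', MulAut.mul_apply, MulAut.mul_apply, hπ, ih]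
  have hσ : σ ^ k = 1 := by
    ext v
    obtain ⟨u, rfl⟩ := QuotientGroup.mk'_surjective K v
    change (σ ^ k) (π u) = π u
    rw [← hpow, hφ, MulAut.one_apply]
  have v2 : ∀ v : E ⧸ K, v * v = 1 := by
    intro v
    obtain ⟨u, rfl⟩ := QuotientGroup.mk'_surjective K v
    change π u * π u = 1
    rw [← map_mul, ← hm]; exact h2 u
  have vi : ∀ v : E ⧸ K, v⁻¹ = v := fun v => inv_eq_of_mul_eq_one_right (v2 v)
  have c4 : Nat.card (E ⧸ K) ≤ 4 := h4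
  have he' : σ (π e) ≠ π e := fun h => he ((hm' _ _).2 (by rw [hπ, h]))
  obtain ⟨f1, s1, -⟩ := fu_of_card v2 c4 σ hk hσ he'
  have ha : σ (π (e⁻¹ * φ e)) ≠ π (e⁻¹ * φ e) := by
    intro h
    rw [map_mul, map_inv, vi, hπ, map_mul, s1, ← mul_assoc, ← f1.ab, mul_assoc, f1.b2] at h
    exact f1.nb (mul_left_cancel h).symm
  obtain ⟨f2, s2, all⟩ := fu_of_card v2 c4 σ hk hσ ha
  refine ⟨e⁻¹ * φ e, ?_, ?_, ?_, ?_, ?_, ?_, ?_⟩
  · intro f hf
    have h1 := hK _ (Subgroup.Normal.conj_mem inferInstance f hf e)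
    rw [map_mul, map_mul, hK f hf, map_inv] at h1
    have h3 : φ e * f = e * f * e⁻¹ * φ e := by rw [← h1]; group
    rw [mul_assoc e⁻¹, h3]; group
  · generalize e⁻¹ * φ e = a at *
    rw [hm', map_mul, map_mul, map_inv, hπ, f2.ab, mul_inv_cancel_right]
  · rw [hm]; exact f2.na
  · rw [hm, hπ]; exact f2.nb
  · rw [hm, map_mul, hπ]; exact f2.nab
  · generalize e⁻¹ * φ e = a at *
    rw [hm', hπ, hπ, map_mul, hπ, s2]
  · generalize e⁻¹ * φ e = a at *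
    intro v
    rw [hm, hm', hm', hm', map_mul, hπ]
    exact all (π v)

omit [Finite E] in
theorem nrm {K : Subgroup E} (hK : ∀ s s' : E, s ∈ K ∨ s' ∈ K ∨ s * s' ∈ K) : K.Normal := by
  refine ⟨fun f hf e => ?_⟩
  by_cases he : e ∈ K
  · exact K.mul_mem (K.mul_mem he hf) (K.inv_mem he)
  · rcases hK (e * f) e⁻¹ with h | h | h
    · exact absurd ((K.mul_mem_cancel_right hf).1 h) he
    · exact absurd (K.inv_mem_iff.1 h) he
    · exact h

omit [Finite E] in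
theorem sq {K : Subgroup E} (hK : ∀ s s' : E, s ∈ K ∨ s' ∈ K ∨ s * s' ∈ K) (e : E) :
    e * e ∈ K := by
  rcases hK e e with h | h | h
  · exact K.mul_mem h h
  · exact K.mul_mem h h
  · exact h

omit [Finite E] in
theorem idx {K : Subgroup E} (hK : ∀ s s' : E, s ∈ K ∨ s' ∈ K ∨ s * s' ∈ K) : K.index ≤ 2 := by
  refine Nat.le_of_dvd two_pos (Subgroup.index_dvd_two_iff.2 ?_)
  by_cases h : ∀ a : E, a ∈ K
  · exact ⟨1, fun b => Or.inr (h b)⟩
  · push Not at h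
    obtain ⟨a, ha⟩ := h
    refine ⟨a, fun b => ?_⟩
    rcases hK b a with h | h | h
    · exact Or.inr h
    · exact absurd h ha
    · exact Or.inl h

end abs

end TB2

variable {G : Type*} [Group G] [Finite G] {A S E M : Subgroup G} {h : G}

theorem BPD.tb (d : BPD A S E M h) {w0 : G} (hb : Bb S w0) (hE : w0 ∉ E) :
    ∃ (F : Subgroup G) (a b x : G), Cfg ⊤ F a b x := by
  obtain ⟨w, bw, wN, wE, w2⟩ := d.exists_w hb hE
  obtain ⟨x, xo, xz, xM⟩ := d.exists_x bw.1 wN wE w2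
  have hN := d.hN
  set s : G := h⁻¹ * w * h with hs
  have sN : s ∈ normalizer (E : Set G) :=
    mul_mem (mul_mem (inv_mem hN) wN) hN
  have xN : x ∈ normalizer (E : Set G) := (zpowers_le.2 (mul_mem wN sN)) xz
  let F : Subgroup G := E ⊓ C w ⊓ C s
  have FE : F ≤ E := inf_le_left.trans inf_le_left
  have wF : w ∈ centralizer (F : Set G) := fun f hf => mem_C.1 hf.1.2
  have sF : s ∈ centralizer (F : Set G) := fun f hf => mem_C.1 hf.2
  have xF : x ∈ centralizer (F : Set G) := (zpowers_le.2 (mul_mem wF sF)) xz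
  have k1 : ∀ e e' : E, e ∈ (C w).subgroupOf E ∨ e' ∈ (C w).subgroupOf E ∨
      e * e' ∈ (C w).subgroupOf E := fun e e' => bw.2 e (d.lt.le e.2) e' (d.lt.le e'.2)
  have cs : ∀ g : G, h * g * h⁻¹ ∈ C w → g ∈ C s := by
    intro g hg
    rw [mem_C] at hg ⊢
    calc g * s = h⁻¹ * (h * g * h⁻¹ * w) * h := by rw [hs]; group
      _ = s * g := by rw [hg, hs]; group
  have k2 : ∀ e e' : E, e ∈ (C s).subgroupOf E ∨ e' ∈ (C s).subgroupOf E ∨
      e * e' ∈ (C s).subgroupOf E := by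
    intro e e'
    rcases bw.2 _ (d.lt.le ((mem_normalizer_iff.1 hN e).1 e.2)) _
      (d.lt.le ((mem_normalizer_iff.1 hN e').1 e'.2)) with h1 | h1 | h1
    · exact Or.inl (cs _ h1)
    · exact Or.inr (Or.inl (cs _ h1))
    · refine Or.inr (Or.inr (cs _ ?_))
      have e1 : h * ((e * e' : E) : G) * h⁻¹ = h * e * h⁻¹ * (h * e' * h⁻¹) := by
        rw [coe_mul]; group
      exact e1 ▸ h1
  let K : Subgroup E := (C w).subgroupOf E ⊓ (C s).subgroupOf E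
  have n1 := TB2.nrm k1
  have n2 := TB2.nrm k2
  have nK : K.Normal := Subgroup.normal_inf_normal _ _
  have mK : ∀ u : E, u ∈ K ↔ (u : G) ∈ F := fun u =>
    ⟨fun hu => ⟨⟨u.2, hu.1⟩, hu.2⟩, fun hu => ⟨hu.1.2, hu.2⟩⟩
  have K2 : ∀ e : E, e * e ∈ K := fun e => ⟨TB2.sq k1 e, TB2.sq k2 e⟩
  have K4 : K.index ≤ 4 :=
    index_inf_le.trans (Nat.mul_le_mul (TB2.idx k1) (TB2.idx k2))
  let φ : MulAut E := E.normalizerMonoidHom ⟨x, xN⟩
  have hφ : ∀ u : E, ((φ u : E) : G) = x * u * x⁻¹ := fun u => rfl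
  have hk : φ ^ orderOf x = 1 := by
    have : (⟨x, xN⟩ : normalizer (E : Set G)) ^ orderOf x = 1 :=
      Subtype.ext (pow_orderOf_eq_one x)
    rw [← map_pow, this, map_one]
  have hK : ∀ f ∈ K, φ f = f := by
    intro f hf
    apply Subtype.ext
    rw [hφ, ← xF f ((mK f).1 hf), mul_inv_cancel_right]
  have F2 : IsPGroup 2 F := d.etwo.to_le FE
  obtain ⟨e, he⟩ : ∃ e : E, φ e * e⁻¹ ∉ K := by
    by_contra hc
    push Not at hc
    exact xM (d.cM (odd_cen F2 xo xF fun e he => (mK _).1 (hc ⟨e, he⟩)))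
  obtain ⟨a, aC, ab, na, nb, nab, xb, all⟩ := TB2.core K2 K4 φ xo hk hK he
  have aF : (a : G) ∈ centralizer (F : Set G) := fun f hf =>
    congrArg Subtype.val (aC ⟨f, FE hf⟩ ((mK _).2 hf))
  have nF : ∀ e ∈ E, ∀ f ∈ F, e * f * e⁻¹ ∈ F := fun e he f hf =>
    (mK _).1 (nK.conj_mem ⟨f, FE hf⟩ ((mK _).2 hf) ⟨e, he⟩)
  refine ⟨F, a, φ a, x,
    { two := F2
      aY := mem_top _
      bY := mem_top _
      xY := mem_top _
      aC := aF
      bC := by rw [hφ]; exact mul_mem (mul_mem xF aF) (inv_mem xF)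
      xC := xF
      a2 := (mK _).1 (K2 a)
      b2 := (mK _).1 (K2 (φ a))
      ab := (mK _).1 ab
      na := fun hh => na ((mK _).2 hh)
      nb := fun hh => nb ((mK _).2 hh)
      nab := fun hh => nab ((mK _).2 hh)
      xa := by rw [hφ, mul_inv_cancel]; exact one_mem _
      xb := (mK _).1 xb
      sc := ?_ }⟩
  intro g _ tg gF ga gb
  have key : ∀ c e : G, g * c * g⁻¹ * c⁻¹ ∈ F → e * c⁻¹ ∈ F → g * e * g⁻¹ * e⁻¹ ∈ F := by
    intro c e h1 h2
    have e1 : g * e * g⁻¹ * e⁻¹ =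
        (g * (e * c⁻¹) * g⁻¹) * (g * c * g⁻¹ * c⁻¹) * (e * c⁻¹)⁻¹ := by group
    rw [e1, ← gF _ h2, mul_inv_cancel_right]
    exact mul_mem (mul_mem h2 h1) (inv_mem h2)
  have gab : g * (a * φ a) * g⁻¹ * ((a : G) * φ a)⁻¹ ∈ F := by
    have e1 : g * (a * φ a) * g⁻¹ * ((a : G) * φ a)⁻¹ = (g * a * g⁻¹ * (a : G)⁻¹) *
        (a * (g * φ a * g⁻¹ * ((φ a : E) : G)⁻¹) * (a : G)⁻¹) := by group
    rw [e1]
    exact mul_mem ga (nF _ a.2 _ gb)
  have gE : g ∈ E := by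
    refine d.sc FE (d.le ⟨bw.1, wN⟩) (tw_of_mem d.two bw.1) wE wF sF tg gF fun e he => ?_
    rcases all ⟨e, he⟩ with h1 | h1 | h1 | h1
    · exact key 1 e (by simp) (by simpa using (mK _).1 h1)
    · exact key _ e ga ((mK _).1 h1)
    · exact key _ e gb ((mK _).1 h1)
    · exact key _ e gab ((mK _).1 h1)
  rcases all ⟨g, gE⟩ with h1 | h1 | h1 | h1
  · exact Or.inl ((mK _).1 h1)
  · exact Or.inr (Or.inl ((mK _).1 h1))
  · exact Or.inr (Or.inr (Or.inl ((mK _).1 h1)))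
  · exact Or.inr (Or.inr (Or.inr ((mK _).1 h1)))

end H50.SQ
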